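import Cfsg.Agent.H35.S4Defs
import Cfsg.Agent.H11.GroupUtil

/-!
# Standard subgroups of type `Sp₄(q)`: the quotient `R / S` is elementary abelian
-/

set_option autoImplicit false

namespace Cfsg.Agent.H43.S4Lv2b

open Cfsg Cfsg.Agent.H63 Cfsg.Agent.H63.SL Subgroup
open Cfsg.Agent.H35.S4
open scoped commutatorElement

universe u v

section Gen

variable {G : Type u} [Group G]

theorem cjN {H : Subgroup G} {n g : G} (hn : n ∈ N[H]) (hg : g ∈ H) : n * g * n⁻¹ ∈ H :=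
  (mem_normalizer_iff.1 hn g).1 hg

theorem cjN' {H : Subgroup G} {n g : G} (hn : n ∈ N[H]) (hg : g ∈ H) : n⁻¹ * g * n ∈ H := by
  have := cjN (inv_mem hn) hg
  rwa [inv_inv] at this

theorem comC {H : Subgroup G} {c g : G} (hc : c ∈ C[H]) (hg : g ∈ H) : g * c = c * g :=
  mem_centralizer_iff.1 hc g hg

theorem cjC {H : Subgroup G} {n c : G} (hn : n ∈ N[H]) (hc : c ∈ C[H]) :
    n * c * n⁻¹ ∈ C[H] := by
  refine mem_centralizer_iff.2 fun g hg => ?_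
  have h := comC hc (cjN' hn hg)
  calc g * (n * c * n⁻¹) = n * (n⁻¹ * g * n * c) * n⁻¹ := by group
    _ = n * (c * (n⁻¹ * g * n)) * n⁻¹ := by rw [h]
    _ = n * c * n⁻¹ * g := by group

theorem CN {H : Subgroup G} {c : G} (hc : c ∈ C[H]) : c ∈ N[H] :=
  centralizer_le_normalizer _ hc

theorem is2_conj {g : G} (n : G) (h : Is2 g) : Is2 (n * g * n⁻¹) := by
  obtain ⟨k, hk⟩ := h
  exact ⟨k, by rw [conj_pow, hk, mul_one, mul_inv_cancel]⟩

/-- A `2`-group `R` fixes a nontrivial class of `P / S`. -/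
theorem fixed [Finite G] {S P R : Subgroup G} (h2 : ∀ g ∈ R, Is2 g) (hPR : P ≤ R)
    (hnS : R ≤ N[S]) (hnP : R ≤ N[P]) (hne : ∃ p ∈ P, p ∉ S) :
    ∃ p ∈ P, p ∉ S ∧ ∀ g ∈ R, ⁅g, p⁆ ∈ S := by
  have hR : IsPGroup 2 R := fun g => by
    obtain ⟨k, hk⟩ := h2 g g.2
    exact ⟨k, Subtype.ext (by simpa using hk)⟩
  have hSn : (S.subgroupOf R).Normal := ⟨fun n hn g => by
    rw [mem_subgroupOf] at hn ⊢
    exact cjN (hnS g.2) hn⟩
  have hPn : (P.subgroupOf R).Normal := ⟨fun n hn g => by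
    rw [mem_subgroupOf] at hn ⊢
    exact cjN (hnP g.2) hn⟩
  have hQ : IsPGroup 2 (R ⧸ S.subgroupOf R) := hR.to_quotient _
  have : Fact (Nat.Prime 2) := ⟨Nat.prime_two⟩
  have : Group.IsNilpotent (R ⧸ S.subgroupOf R) := hQ.isNilpotent
  have hN : ((P.subgroupOf R).map (QuotientGroup.mk' (S.subgroupOf R))).Normal :=
    hPn.map _ (QuotientGroup.mk'_surjective _)
  obtain ⟨p, hp, hpS⟩ := hne
  have hb : (P.subgroupOf R).map (QuotientGroup.mk' (S.subgroupOf R)) ≠ ⊥ := by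
    intro h
    have h1 : QuotientGroup.mk' (S.subgroupOf R) ⟨p, hPR hp⟩ ∈
        (P.subgroupOf R).map (QuotientGroup.mk' (S.subgroupOf R)) :=
      mem_map_of_mem _ (mem_subgroupOf.2 hp)
    rw [h, mem_bot, QuotientGroup.mk'_apply, QuotientGroup.eq_one_iff, mem_subgroupOf] at h1
    exact hpS h1
  obtain ⟨z, hz, hzc, hz1⟩ := H11.exists_mem_center_of_normal _ hb
  obtain ⟨w, hw, rfl⟩ := mem_map.1 hz
  refine ⟨w, mem_subgroupOf.1 hw, fun h => hz1 ?_, fun g hg => ?_⟩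
  · rw [QuotientGroup.mk'_apply, QuotientGroup.eq_one_iff, mem_subgroupOf]
    exact h
  · have h1 := mem_center_iff.1 hzc (QuotientGroup.mk' (S.subgroupOf R) ⟨g, hg⟩)
    have h3 : QuotientGroup.mk' (S.subgroupOf R) ⁅(⟨g, hg⟩ : R), w⁆ = 1 := by
      rw [map_commutatorElement, commutatorElement_eq_one_iff_mul_comm]
      exact h1
    rw [QuotientGroup.mk'_apply, QuotientGroup.eq_one_iff, mem_subgroupOf] at h3
    exact h3

/-- The elements that are centralized by `R` modulo `S`. -/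
def D (S R : Subgroup G) : Subgroup G where
  carrier := {p | p ∈ N[S] ∧ ∀ g ∈ R, ⁅g, p⁆ ∈ S}
  one_mem' := ⟨one_mem _, fun g _ => by simp⟩
  mul_mem' := by
    rintro a b ⟨ha, ha'⟩ ⟨hb, hb'⟩
    refine ⟨mul_mem ha hb, fun g hg => ?_⟩
    have : ⁅g, a * b⁆ = ⁅g, a⁆ * (a * ⁅g, b⁆ * a⁻¹) := by
      simp only [commutatorElement_def]; group
    rw [this]
    exact S.mul_mem (ha' g hg) (cjN ha (hb' g hg))
  inv_mem' := by
    rintro a ⟨ha, ha'⟩
    refine ⟨inv_mem ha, fun g hg => ?_⟩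
    have : ⁅g, a⁻¹⁆ = a⁻¹ * ⁅g, a⁆⁻¹ * a := by
      simp only [commutatorElement_def]; group
    rw [this]
    exact cjN' ha (S.inv_mem (ha' g hg))

theorem D_conj {S R : Subgroup G} {n p : G} (hS : n ∈ N[S]) (hR : n ∈ N[R]) (hp : p ∈ D S R) :
    n * p * n⁻¹ ∈ D S R := by
  refine ⟨mul_mem (mul_mem hS hp.1) (inv_mem hS), fun g hg => ?_⟩
  have : ⁅g, n * p * n⁻¹⁆ = n * ⁅n⁻¹ * g * n, p⁆ * n⁻¹ := by
    simp only [commutatorElement_def]; group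
  rw [this]
  exact cjN hS (hp.2 _ (cjN' hR hg))

theorem D_S {S R : Subgroup G} (hRC : R ≤ C[S]) {s : G} (hs : s ∈ S) : s ∈ D S R := by
  refine ⟨le_normalizer hs, fun g hg => ?_⟩
  have : ⁅g, s⁆ = 1 := commutatorElement_eq_one_iff_mul_comm.2 (comC (hRC hg) hs).symm
  rw [this]
  exact one_mem _

theorem same {t z p p' : G} (h : p * t * p⁻¹ = t * z) (h' : p' * t * p'⁻¹ = t * z) :
    Commute (p'⁻¹ * p) t := by
  have h1 : p * t = p' * t * p'⁻¹ * p := by rw [h', ← h]; group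
  show p'⁻¹ * p * t = t * (p'⁻¹ * p)
  rw [mul_assoc, h1]; group

end Gen

theorem sh1 : sh 1 := by decide
theorem sh3 : sh 3 := by decide
theorem lg2 : ¬ sh 2 := by decide
theorem lg4 : ¬ sh 4 := by decide

theorem lv2b : Lv2bStmt.{u, v} := by
  intro F _ _ G _ _ L x t hC A _ j σ y Yh S P R hD hH h1 h2
  have tt : t * t = 1 := by
    have := pow_orderOf_eq_one t
    rwa [hC.tc.t2, sq] at this
  have ti : t⁻¹ = t := inv_eq_of_mul_eq_one_right tt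
  have x0 : ∀ i, x i 0 = 1 := fun i => by
    have := hC.mod.pin.add i 0 0
    rw [add_zero] at this
    exact left_eq_mul.1 this
  have y0 : ∀ i, sh i → y i 0 = 1 := fun i hi => by
    have := hD.add i hi 0 0
    rw [add_zero] at this
    exact left_eq_mul.1 this
  have aa : ∀ a : A, a + a = 0 := fun a => by rw [← two_mul, hD.quad.two, zero_mul]
  have yy : ∀ a, y 1 a * y 1 a = 1 := fun a => by rw [← hD.add 1 sh1, aa, y0 1 sh1]
  have yi : ∀ a, (y 1 a)⁻¹ = y 1 a := fun a => inv_eq_of_mul_eq_one_right (yy a)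
  have x2S : ∀ a, x 2 a ∈ S := fun a => (h1.memS _).2 ⟨a, 0, 0, by rw [y0 3 sh3, x0]; group⟩
  have y3S : ∀ a, y 3 a ∈ S := fun a => (h1.memS _).2 ⟨0, a, 0, by rw [x0, x0]; group⟩
  have Y2P : ∀ p ∈ Yh 2, p ∈ P := fun p hp =>
    (h1.memP _).2 ⟨p, hp, 0, 1, one_mem _, by rw [y0 3 sh3]; group⟩
  have Y4P : ∀ p ∈ Yh 4, p ∈ P := fun p hp =>
    (h1.memP _).2 ⟨1, one_mem _, 0, p, hp, by rw [y0 3 sh3]; group⟩
  have RC : R ≤ C[S] := fun g hg => ((h2.mem g).1 hg).2.1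
  have RN : R ≤ N[S] := fun g hg => CN (RC hg)
  have R2 : ∀ g ∈ R, Is2 g := fun g hg => ((h2.mem g).1 hg).1
  have xK1 : ∀ a, x 1 a ∈ KK x 1 := fun a =>
    mem_sup_left ((hC.kp.memX 1 _).2 ⟨a, rfl⟩)
  have xK5 : ∀ a, x (1 + 4) a ∈ KK x 1 := fun a =>
    mem_sup_right ((hC.kp.memX _ _).2 ⟨a, rfl⟩)
  have nK : n2 x 1 ∈ KK x 1 := mul_mem (mul_mem (xK1 1) (xK5 1)) (xK1 1)
  have KS : KK x 1 ≤ N[S] := by
    refine sup_le (fun g hg => ?_) (fun g hg => ?_)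
    · obtain ⟨a, rfl⟩ := (hC.kp.memX _ _).1 hg
      rw [← hD.res 1 sh1]
      exact (h1.nS.2.2 _).1
    · obtain ⟨a, rfl⟩ := (hC.kp.memX _ _).1 hg
      rw [← hD.res (1 + 4) (by decide)]
      exact (h1.nS.2.2 _).2
  have KL : KK x 1 ≤ L := by
    refine sup_le (fun g hg => ?_) (fun g hg => ?_)
    · obtain ⟨a, rfl⟩ := (hC.kp.memX _ _).1 hg
      exact hC.kb.xL _ _
    · obtain ⟨a, rfl⟩ := (hC.kp.memX _ _).1 hg
      exact hC.kb.xL _ _
  have mov2 : ∀ p ∈ Yh 2, ∃ a, p * t * p⁻¹ = t * x 2 a := fun p hp => by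
    obtain ⟨-, -, ⟨a, ha, -⟩, -⟩ := (hH.mem 2 lg2 p).1 hp
    exact ⟨a, ha⟩
  have sameS : ∀ p ∈ Yh 2, ∀ p' ∈ Yh 2, ∀ a, p * t * p⁻¹ = t * x 2 a →
      p' * t * p'⁻¹ = t * x 2 a → p'⁻¹ * p ∈ S := fun p hp p' hp' a h h' => by
    obtain ⟨b, hb⟩ := hH.fix 2 lg2 _ (mul_mem (inv_mem hp') hp) (same h h')
    rw [hb]
    exact x2S b
  -- (a) `R` centralizes `P / S`
  have hA : ∀ p ∈ P, p ∈ D S R := by
    have hne : ∃ p ∈ P, p ∉ S := by
      by_contra hcon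
      push Not at hcon
      have he : P = S := le_antisymm hcon h1.SP
      have hc := h1.cardP
      rw [he, h1.cardS] at hc
      have h4 := hC.mod.four
      have := Nat.pow_right_injective (a := Nat.card F) (by omega) hc
      omega
    obtain ⟨p0, hp0, hp0S, hp0D⟩ := fixed R2 h2.le RN h2.nP hne
    have hp0' : p0 ∈ D S R := ⟨RN (h2.le hp0), hp0D⟩
    obtain ⟨k, hk, p, hp, hs⟩ := h1.tr p0 hp0
    have hkp := D_conj (KS hk) (h2.nR.2.2 hk) hp0'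
    have hpD : p ∈ D S R := by
      have := mul_mem hkp (inv_mem (D_S RC hs))
      rwa [show k * p0 * k⁻¹ * (p⁻¹ * (k * p0 * k⁻¹))⁻¹ = p by group] at this
    have hpS : p ∉ S := fun h => by
      have := cjN' (KS hk) (S.mul_mem h hs)
      rw [show k⁻¹ * (p * (p⁻¹ * (k * p0 * k⁻¹))) * k = p0 by group] at this
      exact hp0S this
    obtain ⟨a, ha⟩ := mov2 p hp
    have ha0 : a ≠ 0 := by
      rintro rfl
      have := sameS p hp 1 (one_mem _) 0 ha (by rw [x0]; group)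
      rw [inv_one, one_mul] at this
      exact hpS this
    have hY2 : ∀ p' ∈ Yh 2, p' ∈ D S R := fun p' hp' => by
      obtain ⟨a', ha'⟩ := mov2 p' hp'
      by_cases h0 : a' = 0
      · subst h0
        have := sameS p' hp' 1 (one_mem _) 0 ha' (by rw [x0]; group)
        rw [inv_one, one_mul] at this
        exact D_S RC this
      obtain ⟨h, hh, α, β, hT, hw⟩ := hC.kb.wtH 2 (Units.mk0 (a' / a) (div_ne_zero h0 ha0))
      have hhp : h * p * h⁻¹ ∈ Yh 2 :=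
        (hH.mem 2 lg2 _).2 (hC.kb.hatH h hh 1 2 p ((hH.mem 2 lg2 _).1 hp))
      have hht : t * h = h * t := hC.kb.tL h hh.1
      have hm : h * p * h⁻¹ * t * (h * p * h⁻¹)⁻¹ = t * x 2 a' := by
        have e1 : h * x 2 a * h⁻¹ = x 2 a' := by
          rw [hT 2 a, hw, Units.val_mk0, div_mul_cancel₀ _ ha0]
        calc h * p * h⁻¹ * t * (h * p * h⁻¹)⁻¹ = h * p * h⁻¹ * (t * h) * p⁻¹ * h⁻¹ := by group
          _ = h * (p * t * p⁻¹) * h⁻¹ := by rw [hht]; group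
          _ = h * t * h⁻¹ * (h * x 2 a * h⁻¹) := by rw [ha]; group
          _ = t * x 2 a' := by rw [e1, ← hht]; group
      have hs' := sameS p' hp' _ hhp a' ha' hm
      have := mul_mem (D_conj (h1.nS.2.1 hh) (h2.nR.2.1 hh) hpD) (D_S RC hs')
      rwa [mul_inv_cancel_left] at this
    have hY4 : ∀ p' ∈ Yh 4, p' ∈ D S R := fun p' hp' => by
      have h3 := hC.kb.hatN 1 1 4 p' ((hH.mem 4 lg4 _).1 hp')
      rw [show (2 * 1 + 4 - 4 : ZMod 8) = 2 by decide] at h3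
      have h4 := hY2 _ ((hH.mem 2 lg2 _).2 h3)
      have := D_conj (inv_mem (KS nK)) (inv_mem (h2.nR.2.2 nK)) h4
      rwa [show (n2 x 1)⁻¹ * (n2 x 1 * p' * (n2 x 1)⁻¹) * (n2 x 1)⁻¹⁻¹ = p' by group] at this
    intro g hg
    obtain ⟨p2, hp2, b, p4, hp4, rfl⟩ := (h1.memP g).1 hg
    exact mul_mem (mul_mem (hY2 p2 hp2) (D_S RC (y3S b))) (hY4 p4 hp4)
  -- the movement of `t` by `y 1 a`
  have mov1 : ∀ a s, j s = σ a + a → y 1 a * t * (y 1 a)⁻¹ = t * x 1 s := fun a s hs => by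
    rw [← hD.res 1 sh1, hs, hD.add 1 sh1, ← hD.conj 1 sh1, yi, ti]
    calc y 1 a * t * y 1 a = t * t * y 1 a * t * y 1 a := by rw [tt, one_mul]
      _ = t * (t * y 1 a * t * y 1 a) := by group
  -- (b) squares
  have hsq : ∀ g ∈ R, g * g ∈ S := by
    intro g hg
    obtain ⟨k, hk, p, hp, hs⟩ := h1.tr _ ((h2.mem g).1 hg).2.2.2
    obtain ⟨w, hw⟩ := mov2 p hp
    obtain ⟨ω, hω⟩ := hD.quad.tr
    have hπ := mov1 ω 1 (by rw [map_one, hω, add_right_comm, aa, zero_add])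
    obtain ⟨p4, hp4, hw4⟩ := hH.surj 4 lg4 w
    obtain ⟨p', hp', hw', hu⟩ := h1.up ω 1 hπ p4 hp4 w hw4
    rw [one_pow, one_mul] at hw'
    have hpp := sameS p' hp' p hp w hw' hw
    have hπS := (h1.nS.2.2 ω).1
    have h44 := h1.sqP p4 (Y4P p4 hp4)
    generalize hud : y 1 ω * p4 * (y 1 ω)⁻¹ = u at hu
    have huu : u * u ∈ S := by
      rw [← hud, show y 1 ω * p4 * (y 1 ω)⁻¹ * (y 1 ω * p4 * (y 1 ω)⁻¹) =
        y 1 ω * (p4 * p4) * (y 1 ω)⁻¹ by group]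
      exact cjN hπS h44
    have huC : u ∈ C[S] := hud ▸ cjC hπS (h1.cS (Y4P p4 hp4))
    have huR : u ∈ R := by
      refine (h2.mem u).2 ⟨hud ▸ is2_conj _ (R2 _ (h2.le (Y4P p4 hp4))), huC, ?_, ?_⟩
      · intro o ho hot hodd q hq
        rw [Set.mem_singleton_iff.1 hq, ← hud]
        have c1 := hD.odd 1 sh1 o ho hot hodd _ ⟨ω, rfl⟩
        have c2 := hH.odd 4 lg4 o ho hot hodd p4 hp4
        exact (c1.mul_right c2).mul_right c1.inv_right
      · have := P.mul_mem (Y2P p' hp') (h1.SP hu)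
        rwa [mul_inv_cancel_left] at this
    have hkt : t * k = k * t := hC.kb.tL k (KL hk)
    have hg' : k * g * k⁻¹ ∈ R := cjN (h2.nR.2.2 hk) hg
    have hl : k * (t⁻¹ * (g * t * g⁻¹)) * k⁻¹ =
        t⁻¹ * (k * g * k⁻¹ * t * (k * g * k⁻¹)⁻¹) := by
      calc k * (t⁻¹ * (g * t * g⁻¹)) * k⁻¹
          = t⁻¹ * (t * k) * t⁻¹ * g * k⁻¹ * (k * t) * g⁻¹ * k⁻¹ := by group
        _ = t⁻¹ * (k * t) * t⁻¹ * g * k⁻¹ * (t * k) * g⁻¹ * k⁻¹ := by rw [← hkt]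
        _ = t⁻¹ * (k * g * k⁻¹ * t * (k * g * k⁻¹)⁻¹) := by group
    rw [hl] at hs
    suffices h : k * g * k⁻¹ * (k * g * k⁻¹) ∈ S by
      have := cjN' (KS hk) h
      rwa [show k⁻¹ * (k * g * k⁻¹ * (k * g * k⁻¹)) * k = g * g by group] at this
    generalize k * g * k⁻¹ = g' at hg' hs
    have hs1 : (t⁻¹ * (u * t * u⁻¹))⁻¹ * (t⁻¹ * (g' * t * g'⁻¹)) ∈ S := by
      have := S.mul_mem (S.mul_mem (S.inv_mem hu) (S.inv_mem hpp)) hs
      rwa [show (p'⁻¹ * (t⁻¹ * (u * t * u⁻¹)))⁻¹ * (p⁻¹ * p')⁻¹ *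
        (p⁻¹ * (t⁻¹ * (g' * t * g'⁻¹))) = (t⁻¹ * (u * t * u⁻¹))⁻¹ * p' * p'⁻¹ *
          (t⁻¹ * (g' * t * g'⁻¹)) by group, mul_inv_cancel_right] at this
    have hv : u⁻¹ * g' ∈ R := mul_mem (inv_mem huR) hg'
    have hvP : u⁻¹ * g' ∈ P := by
      refine h1.fix _ (RC hv) (R2 _ hv) ?_
      have := cjN h1.nS.1 (cjN' (CN huC) hs1)
      rwa [show t * (u⁻¹ * ((t⁻¹ * (u * t * u⁻¹))⁻¹ * (t⁻¹ * (g' * t * g'⁻¹))) * u) * t⁻¹ =
        ⁅u⁻¹ * g', t⁆ by simp only [commutatorElement_def]; group] at this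
    have := S.mul_mem (S.mul_mem huu ((hA _ hvP).2 _ (inv_mem huR))) (h1.sqP _ hvP)
    rwa [show u * u * ⁅u⁻¹, u⁻¹ * g'⁆ * (u⁻¹ * g' * (u⁻¹ * g')) = g' * g' by
      simp only [commutatorElement_def]; group] at this
  have hn1 : ∀ a, y 1 a ∈ N[R] := by
    intro a
    obtain ⟨s, hs⟩ := (hD.quad.fix (σ a + a)).1 (by rw [map_add, hD.quad.sq, add_comm])
    have hπ := mov1 a s hs.symm
    have hπS := (h1.nS.2.2 a).1
    have ht'R : t * x 1 s ∈ N[R] := mul_mem h2.nR.1 (h2.nR.2.2 (xK1 s))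
    have key : ∀ g ∈ R, (y 1 a)⁻¹ * g * y 1 a ∈ R := by
      intro g hg
      have hodd : ∀ o ∈ C[L], Commute o t → Odd (orderOf o) → Commute o (y 1 a) :=
        fun o ho hot hodd => hD.odd 1 sh1 o ho hot hodd _ ⟨a, rfl⟩
      rw [← hπ] at ht'R
      generalize y 1 a = π at ht'R hπS hodd
      have hc : (π * t * π⁻¹)⁻¹ * g * (π * t * π⁻¹) * g⁻¹ ∈ R :=
        mul_mem (cjN' ht'R hg) (inv_mem hg)
      have hC' : ∀ c ∈ R, π⁻¹ * c * π ∈ C[S] := fun c hc => by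
        have := cjC (inv_mem hπS) (RC hc)
        rwa [inv_inv] at this
      have h2' : ∀ c ∈ R, Is2 (π⁻¹ * c * π) := fun c hc => by
        have := is2_conj π⁻¹ (R2 c hc)
        rwa [inv_inv] at this
      refine (h2.mem _).2 ⟨h2' g hg, hC' g hg, ?_, ?_⟩
      · intro o ho hot hod q hq
        rw [Set.mem_singleton_iff.1 hq]
        have c1 := hodd o ho hot hod
        have c2 := ((h2.mem g).1 hg).2.2.1 o ho hot hod g rfl
        exact (c1.inv_right.mul_right c2).mul_right c1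
      · have h3 := h1.fix _ (hC' _ hc) (h2' _ hc) (by
          have := cjN' hπS (hsq _ hc)
          have e : π⁻¹ * ((π * t * π⁻¹)⁻¹ * g * (π * t * π⁻¹) * g⁻¹ *
              ((π * t * π⁻¹)⁻¹ * g * (π * t * π⁻¹) * g⁻¹)) * π =
              ⁅π⁻¹ * ((π * t * π⁻¹)⁻¹ * g * (π * t * π⁻¹) * g⁻¹) * π, t⁆ := by
            simp only [commutatorElement_def, mul_inv_rev, inv_inv, ti]
            calc _ = π⁻¹ * (π * t * π⁻¹ * g * (π * t * π⁻¹) * g⁻¹) * π * t *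
                  (π⁻¹ * (g * (π * t * π⁻¹) * g⁻¹ * (π * (t * t) * π⁻¹)) * π) := by
                    rw [tt]; group
              _ = _ := by group
          rwa [e] at this)
        rwa [show π⁻¹ * ((π * t * π⁻¹)⁻¹ * g * (π * t * π⁻¹) * g⁻¹) * π =
          t⁻¹ * (π⁻¹ * g * π * t * (π⁻¹ * g * π)⁻¹) by group] at h3
    refine mem_normalizer_iff.2 fun g => ⟨fun hg => ?_, fun hg => ?_⟩
    · have := key g hg
      rw [yi] at this ⊢
      exact this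
    · have := key _ hg
      rwa [show (y 1 a)⁻¹ * (y 1 a * g * (y 1 a)⁻¹) * y 1 a = g by group] at this
  refine ⟨hsq, fun a => ⟨hn1 a, ?_⟩⟩
  have h5 := hD.wey 1 1 sh1 (σ a)
  rw [show (2 * 1 + 4 - 1 : ZMod 8) = 5 by decide, hD.quad.sq] at h5
  rw [← h5]
  exact mul_mem (mul_mem (h2.nR.2.2 nK) (hn1 _)) (inv_mem (h2.nR.2.2 nK))

end Cfsg.Agent.H43.S4Lv2b
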