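import Cfsg.Agent.H9.C3Defs
import Cfsg.Agent.H49.Monster3

/-! The complete graph: the action of `N(A) / A` on `A`. -/

set_option autoImplicit false
set_option linter.unusedSectionVars false

namespace Cfsg.Agent.H43.C3Km

open Subgroup Cfsg.Agent.H62 Cfsg.Agent.H9.C3
open scoped Pointwise

universe u

variable {G : Type u} [Group G] [Finite G]

/-- the data -/
structure St (P : Sylow 3 G) (e : G) (A : Subgroup G) {X : Type u} [Group X] (π : Nm A →* X)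
    (ρ : X →* MulAut A) : Prop where
  kit : Kit G
  fr : Fr (P : Subgroup G) e
  ea : EA A
  card : Nat.card A = 256
  pN : (P : Subgroup G) ≤ Nm A
  eN : e ∈ Nm A
  vv : ∀ z ∈ (P : Subgroup G), z ≠ 1 → VV z ≤ A ∧ VV z ≠ ⊥
  mx : ∀ K : Subgroup G, IsPGroup 2 K → (P : Subgroup G) ≤ Nm K → K ≤ A
  surj : Function.Surjective π
  ker : ∀ n, π n = 1 ↔ (n : G) ∈ A
  inj : Function.Injective ρ
  act : ∀ n (a : A), (ρ (π n) a : G) = n * a * (n : G)⁻¹

theorem cj {A : Subgroup G} {g a : G} (hg : g ∈ Nm A) (ha : a ∈ A) : g * a * g⁻¹ ∈ A :=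
  (mem_normalizer_iff.1 hg a).1 ha

theorem one_of {a : G} (h2 : a * a = 1) (h3 : a ^ 3 = 1) : a = 1 := by
  rwa [pow_succ, pow_two, h2, one_mul] at h3

theorem ord3 {H : Type*} [Group H] {a : H} (h3 : a ^ 3 = 1) (h1 : a ≠ 1) : orderOf a = 3 :=
  haveI : Fact (Nat.Prime 3) := ⟨by norm_num⟩
  orderOf_eq_prime h3 h1

theorem cube {H : Type*} [Group H] {a : H} (h : orderOf a = 3) : a ^ 3 = 1 :=
  h ▸ pow_orderOf_eq_one a

theorem ne1 {H : Type*} [Group H] {a : H} (h : orderOf a = 3) : a ≠ 1 := fun e => by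
  rw [e, orderOf_one] at h
  exact absurd h (by norm_num)

namespace St

variable {P : Sylow 3 G} {e : G} {A : Subgroup G} {X : Type u} [Group X] {π : Nm A →* X}
  {ρ : X →* MulAut A} (S : St P e A π ρ)
include S

theorem lift3 {y : X} (hy : orderOf y = 3) : ∃ n : Nm A, π n = y ∧ orderOf (n : G) = 3 := by
  obtain ⟨n, rfl⟩ := S.surj y
  have h3 : (n : G) ^ 3 ∈ A := (S.ker (n ^ 3)).1 (by rw [map_pow, cube hy])
  have e4 : π (n ^ 4) = π n := by rw [map_pow, pow_succ, cube hy, one_mul]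
  refine ⟨n ^ 4, e4, ord3 ?_ fun h => ne1 hy ?_⟩
  · have := S.ea _ h3
    rw [coe_pow, ← pow_mul, show 4 * 3 = (3 + 3) * 2 from rfl, pow_mul, pow_add, this, one_pow]
  · rw [← e4, show n ^ 4 = 1 from Subtype.ext h, map_one]

theorem into {n : G} (hn : n ∈ Nm A) (o : orderOf n = 3) :
    ∃ g ∈ Nm A, g * n * g⁻¹ ∈ (P : Subgroup G) := by
  have : Fact (Nat.Prime 3) := ⟨by norm_num⟩
  have h : IsPGroup 3 (zpowers (⟨n, hn⟩ : Nm A)) := IsPGroup.of_card (n := 1) (by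
    rw [Nat.card_zpowers, ← orderOf_coe, pow_one]; exact o)
  obtain ⟨Q, hQ⟩ := h.exists_le_sylow
  obtain ⟨g, hg⟩ := MulAction.exists_smul_eq (Nm A) Q (P.subtype S.pN)
  refine ⟨g, g.2, ?_⟩
  have : g * ⟨n, hn⟩ * g⁻¹ ∈ ((g • Q : Sylow 3 (Nm A)) : Subgroup (Nm A)) :=
    ⟨_, hQ (mem_zpowers _), rfl⟩
  rw [hg] at this
  exact this

theorem syl {n : G} (hn : n ∈ Nm A) (o : orderOf n = 3) :
    ∃ Q : Sylow 3 G, (Q : Subgroup G) ≤ Nm A ∧ n ∈ (Q : Subgroup G) := by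
  obtain ⟨g, hg, h⟩ := S.into hn o
  refine ⟨g⁻¹ • P, ?_, ⟨_, h, by simp [MulAut.smul_def, mul_assoc]⟩⟩
  rintro _ ⟨p, hp, rfl⟩
  exact (Nm A).mul_mem ((Nm A).mul_mem (inv_mem hg) (S.pN hp)) (inv_mem (inv_mem hg))

theorem vv' {n : G} (hn : n ∈ Nm A) (o : orderOf n = 3) : VV n ≤ A ∧ VV n ≠ ⊥ := by
  obtain ⟨g, hg, h⟩ := S.into hn o
  have o' : orderOf (g * n * g⁻¹) = 3 := by
    rw [← o]; exact (MulAut.conj g).orderOf_eq n
  obtain ⟨a, b⟩ := S.vv _ h (ne1 o')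
  refine ⟨fun v hv => ?_, fun hb => b (eq_bot_iff.2 fun w hw => ?_)⟩
  · obtain ⟨v1, v2⟩ := (S.kit.mem n o v).1 hv
    have := cj (inv_mem hg) (a ((S.kit.mem _ o' (g * v * g⁻¹)).2
      ⟨by rw [conj_mul, v1]; simp, by rw [conj_mul, conj_mul, v2]⟩))
    simpa [mul_assoc] using this
  · obtain ⟨w1, w2⟩ := (S.kit.mem _ o' w).1 hw
    have : g⁻¹ * w * g ∈ VV n := (S.kit.mem n o _).2 ⟨by
      calc g⁻¹ * w * g * (g⁻¹ * w * g) = g⁻¹ * (w * w) * g := by group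
        _ = 1 := by rw [w1]; simp, by
      calc g⁻¹ * w * g * n = g⁻¹ * (w * (g * n * g⁻¹)) * g := by group
        _ = _ := by rw [w2]; group⟩
    rw [hb, mem_bot] at this
    rw [mem_bot, show w = g * (g⁻¹ * w * g) * g⁻¹ by group, this]
    simp

theorem lift {n y g : Nm A} (n3 : (n : G) ^ 3 = 1) (y3 : (y : G) ^ 3 = 1)
    (h : π g * π n * (π g)⁻¹ = π y) : ∃ m : Nm A, π m = π g ∧ (m : G) * n * (m : G)⁻¹ = y := by
  have : Fact (Nat.Prime 3) := ⟨by norm_num⟩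
  obtain ⟨a, ha, e'⟩ := H49.exists_conj_of_coprime (p := 3) (N := A) (by rw [S.card]; norm_num)
    (a := (g : G) * n * (g : G)⁻¹) (b := y)
    (fun m hm => by simpa using cj (inv_mem (g * n * g⁻¹).2) hm)
    ((S.ker (y * (g * n * g⁻¹)⁻¹)).1 (by rw [map_mul, map_inv, map_mul, map_mul, map_inv, h]; simp))
    (by rw [conj_pow, n3]; simp) y3
  refine ⟨⟨a, le_normalizer ha⟩ * g, by rw [map_mul, (S.ker _).2 ha, one_mul], ?_⟩
  rw [← e']
  simp [mul_assoc]

theorem inP {Q : Sylow 3 G} {p : G} (hp : p ∈ (Q : Subgroup G)) (ha : p ∈ A) : p = 1 :=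
  one_of (S.ea p ha) (S.kit.cube Q p hp)

theorem cen {Q : Sylow 3 G} (hQ : (Q : Subgroup G) ≤ Nm A) {n : Nm A} (hn : (n : G) ∈ (Q : Subgroup G))
    (o : orderOf (n : G) = 3) : C1 (π n) = (π.comp (inclusion hQ)).range := by
  ext y
  rw [mem_centralizer_singleton_iff]
  constructor
  · intro h
    obtain ⟨g, rfl⟩ := S.surj y
    obtain ⟨m, m1, m2⟩ := S.lift (cube o) (cube o) (mul_inv_eq_iff_eq_mul.2 h)
    obtain ⟨v, hv, p, hp, k⟩ := S.kit.cx Q n hn (ne1 o) m (mul_inv_eq_iff_eq_mul.1 m2)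
    have va := (S.vv' n.2 o).1 hv
    refine ⟨⟨p, hp⟩, ?_⟩
    rw [← m1, show m = ⟨v, le_normalizer va⟩ * ⟨p, hQ hp⟩ from Subtype.ext k, map_mul,
      (S.ker _).2 va, one_mul]
    rfl
  · rintro ⟨p, rfl⟩
    rw [MonoidHom.comp_apply, ← map_mul, ← map_mul]
    exact congrArg π (Subtype.ext (S.kit.comm Q _ p.2 _ hn))

theorem mem_fx {n : Nm A} (a : A) : ρ (π n) a = a ↔ (a : G) * n = n * a := by
  rw [Subtype.ext_iff, S.act, mul_inv_eq_iff_eq_mul, eq_comm]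

theorem fx (n : Nm A) : Nat.card (Fx ρ (π n)) = Nat.card (A ⊓ C1 (n : G) : Subgroup G) := by
  rw [show Fx ρ (π n) = (A ⊓ C1 (n : G)).subgroupOf A from Subgroup.ext fun a => by
    rw [mem_Fx, S.mem_fx, mem_subgroupOf, mem_inf, mem_centralizer_singleton_iff]
    exact ⟨fun h => ⟨a.2, h⟩, fun h => h.2⟩]
  exact Nat.card_congr (subgroupOfEquivOfLe inf_le_left).toEquiv

theorem md : Mod ρ := by
  have : Fact (Nat.Prime 3) := ⟨by norm_num⟩
  refine ⟨⟨S.inj, fun a => Subtype.ext (S.ea a a.2), S.card, fun y hy => ?_, fun y hy g hg => ?_,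
    fun y hy => ?_, fun y y' hy hy' c ne a a1 a2 => ?_⟩, fun y g hy h => ?_, fun K hK h3 => ?_, ?_⟩
  · obtain ⟨n, rfl, o⟩ := S.lift3 hy
    obtain ⟨Q, hQ, hn⟩ := S.syl n.2 o
    rw [S.cen hQ hn o, ← S.kit.c9 Q]
    refine Nat.card_congr (MonoidHom.ofInjective ((injective_iff_map_eq_one _).2 fun p hp => ?_)).toEquiv.symm
    exact Subtype.ext (S.inP p.2 ((S.ker _).1 hp))
  · obtain ⟨n, rfl, o⟩ := S.lift3 hy
    obtain ⟨Q, hQ, hn⟩ := S.syl n.2 o
    obtain ⟨p, rfl⟩ : g ∈ (π.comp (inclusion hQ)).range :=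
      S.cen hQ hn o ▸ mem_centralizer_singleton_iff.2 hg
    rw [← map_pow, show p ^ 3 = 1 from Subtype.ext (S.kit.cube Q p p.2), map_one]
  · obtain ⟨n, rfl, o⟩ := S.lift3 hy
    obtain ⟨a, b⟩ := S.vv' n.2 o
    rw [S.fx, ← (S.kit.card n o).resolve_left b]
    congr 2
    ext v
    rw [S.kit.mem n o, mem_inf, mem_centralizer_singleton_iff]
    exact ⟨fun h => ⟨S.ea v h.1, h.2⟩, fun h => ⟨a ((S.kit.mem n o v).2 h), h.2⟩⟩
  · obtain ⟨n, rfl, o⟩ := S.lift3 hy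
    obtain ⟨Q, hQ, hn⟩ := S.syl n.2 o
    obtain ⟨p, rfl⟩ : y' ∈ (π.comp (inclusion hQ)).range :=
      S.cen hQ hn o ▸ mem_centralizer_singleton_iff.2 c.symm
    refine Subtype.ext (S.kit.fpf n p o (ord3 (S.kit.cube Q p p.2) fun h => ne1 hy' ?_)
      (S.kit.comm Q _ hn _ p.2) ?_ a ((S.kit.mem n o a).2 ⟨S.ea a a.2, (S.mem_fx a).1 a1⟩)
      ((S.mem_fx (n := inclusion hQ p) a).1 a2))
    · rw [show p = 1 from Subtype.ext h, map_one]
    · rintro ⟨k, hk⟩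
      refine ne ⟨k, ?_⟩
      show π n ^ k = π (inclusion hQ p)
      rw [← map_zpow]
      exact congrArg π (Subtype.ext hk)
  · obtain ⟨n, rfl, o⟩ := S.lift3 hy
    obtain ⟨g, rfl⟩ := S.surj g
    obtain ⟨m, m1, m2⟩ := S.lift (y := n⁻¹) (cube o) (by rw [coe_inv, inv_pow, cube o, inv_one])
      (h.trans (map_inv π n).symm)
    obtain ⟨a, b⟩ := S.vv' n.2 o
    obtain ⟨v, hv, k⟩ := S.kit.inv n m o m2 b
    exact ⟨⟨v, a hv⟩, (S.mem_fx _).2 ((S.kit.mem n o v).1 hv).2, fun h' =>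
      k ((S.mem_fx (n := m) ⟨v, a hv⟩).1 (m1 ▸ h')).symm⟩
  · let K' := (K.comap π).map (Nm A).subtype
    have nK : (P : Subgroup G) ≤ Nm K' := fun p hp => H49.mem_normalizer_of_conj_mem (by
      rintro _ ⟨k, hk, rfl⟩
      refine ⟨⟨p, S.pN hp⟩ * k * ⟨p, S.pN hp⟩⁻¹, ?_, rfl⟩
      show π _ ∈ K
      rw [map_mul, map_mul, map_inv]
      exact hK.conj_mem _ hk _)
    have le := S.mx K' (S.kit.cop P K' nK (eq_bot_iff.2 ?_)) nK
    · refine eq_bot_iff.2 fun y hy => ?_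
      obtain ⟨n, rfl⟩ := S.surj y
      exact (S.ker n).2 (le ⟨n, hy, rfl⟩)
    · rintro _ ⟨⟨k, hk, rfl⟩, hp⟩
      refine S.inP hp ((S.ker k).1 (by_contra fun h1 => h3 ?_))
      have := orderOf_dvd_natCard (⟨π k, hk⟩ : K)
      rwa [← orderOf_coe, ord3 (by
        rw [← map_pow, show k ^ 3 = 1 from Subtype.ext (S.kit.cube P _ hp), map_one]) h1] at this
  · refine ⟨(P.subtype S.pN).mapSurjective S.surj, π ⟨e, S.eN⟩,
      le_normalizer_map π ⟨⟨e, S.eN⟩, mem_normalizer_iff.2 fun p =>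
        mem_normalizer_iff.1 S.fr.norm p, rfl⟩, ?_⟩
    rintro _ ⟨p, hp, rfl⟩
    rw [← map_mul, ← map_inv, ← map_mul, ← map_mul, ← map_inv]
    exact congrArg π (Subtype.ext (S.fr.inv p hp))

theorem ks (cn : centralizer (A : Set G) ≤ A) (h : MXConcl ρ) : KS A := by
  refine ⟨S.ea, S.card, cn, fun t ht t1 t2 => ?_, fun E _ hE sq => ?_⟩
  · rw [← S.fx ⟨t, ht⟩]
    exact h.1 _ (mt (S.ker _).1 t1) (by rw [← map_mul]; exact (S.ker _).2 t2)
  · have k : (π.comp (inclusion hE)).ker = A.subgroupOf E := Subgroup.ext fun g => S.ker _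
    rw [relIndex, ← k, index_ker]
    refine h.2 _ ?_
    rintro _ ⟨g, rfl⟩
    rw [← map_mul]
    exact (S.ker _).2 (sq g g.2)

end St

theorem km : KMStmt.{u} := by
  intro hMX G _ _ K P e x F L D
  obtain ⟨ea, card, -⟩ := L.cl Finset.univ (fun j _ => D.big j) fun j _ k _ => D.cm j k
  have mono : ∀ J, Pr e x J ≤ Pr e x Finset.univ := fun J =>
    iSup₂_le fun j _ => le_iSup₂_of_le (f := fun j (_ : j ∈ Finset.univ) => W e x j) j
      (Finset.mem_univ j) le_rfl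
  have cn : centralizer (Pr e x Finset.univ : Set G) ≤ Pr e x Finset.univ := by
    obtain ⟨J, -, h, -⟩ := L.mcl Finset.univ (by decide) fun j _ => D.big j
    exact h ▸ mono J
  have S : St P e (Pr e x Finset.univ) (Pr e x Finset.univ).normalizerMonoidHom.rangeRestrict
      (Pr e x Finset.univ).normalizerMonoidHom.range.subtype := {
    kit := K
    fr := F
    ea := ea
    card := card
    pN := L.nP _
    eN := mem_normalizer_iff.2 fun v => by
      have := L.cjP Finset.univ v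
      rwa [show Finset.univ.image sg = Finset.univ by decide] at this
    vv := fun z hz z1 => by
      have le : ∀ i, W e x i ≤ Pr e x Finset.univ := fun i =>
        le_iSup₂_of_le (f := fun j (_ : j ∈ Finset.univ) => W e x j) i (Finset.mem_univ i) le_rfl
      obtain ⟨i, rfl | rfl⟩ := L.cov z hz z1
      · exact ⟨le i, D.big i⟩
      · have : VV (ln e x i)⁻¹ = W e x i := by
          unfold W VV
          congr 1
          ext g
          exact and_congr_right fun _ => Commute.inv_right_iff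
        rw [this]
        exact ⟨le i, D.big i⟩
    mx := fun M h1 h2 => by
      obtain ⟨I, -, rfl⟩ := L.gen M h1 h2
      exact mono I
    surj := MonoidHom.rangeRestrict_surjective _
    ker := fun n => by
      rw [← MonoidHom.mem_ker, MonoidHom.ker_rangeRestrict, normalizerMonoidHom_ker, mem_subgroupOf]
      exact ⟨fun h => cn h, fun h a ha => ea.comm ha h⟩
    inj := Subtype.val_injective
    act := fun _ _ => rfl }
  exact S.ks cn (hMX _ _ _ S.md)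

end Cfsg.Agent.H43.C3Km
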