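import Cfsg.Agent.H11.CyLa

/-! Project CY, chapter LP, part A: the piece AC. -/

set_option autoImplicit false

namespace Cfsg.Agent.H43.CyAc

open Subgroup MulAction Cfsg.Agent.H11.Cy Cfsg.Agent.H11.Cy.Lp
open Cfsg.Agent.H11.EL (Nm)

theorem ac : AcStmt := by
  intro G _ _ Ω _ _ p A h l ax oc x y x' y' u uk k kK ko ku hA
  have : Fact (Nat.Prime 2) := ⟨Nat.prime_two⟩
  have s2 : ∀ {t : G}, orderOf t = 2 → t * t = 1 := fun {t} e => by
    rw [← sq, ← e, pow_orderOf_eq_one]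
  have c2 : ∀ {s t : G}, Commute s t → s * s = 1 → t * t = 1 → s * t * (s * t) = 1 :=
    fun {s t} c e e' => by rw [c.symm.mul_mul_mul_comm, e, e', one_mul]
  have u2 := s2 uk.uo
  have k2 := s2 ko
  obtain ⟨⟨z, zL, zo, zu⟩, h1⟩ := oc x y uk.xy u uk.uN u2 uk.out
  have z2 := s2 zo
  have zK : z ∉ Kl A x y := fun e => by
    rw [(l.la x y uk.xy).ctr z zL e, orderOf_one] at zo
    exact absurd zo (by decide)
  have zk : Commute z k := kK z zL
  obtain ⟨g, -, hg⟩ := h1 z zL (c2 zu z2 u2)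
  have a1 : Ax A (z * u) := hg ▸ ax.cj u g ⟨uk.uo, x', y', uk.xy', uk.uK⟩
  have n1 := ax.cen x' y' uk.xy' u uk.uK uk.uo k ku
  have n2 := ax.cen x' y' uk.xy' u uk.uK uk.uo (z * u) (zu.mul_left (Commute.refl u))
  have o1 : k ∉ Kl A x' y' ⊔ Fl A x' y' := fun e => uk.ne (ax.ti x y x' y' uk.xy uk.xy' k kK ko
    (ax.out x' y' uk.xy' k n1 ⟨ko, x, y, uk.xy, kK⟩ e)).symm
  have o2 : z * u ∉ Kl A x' y' ⊔ Fl A x' y' := fun e => zK (ax.out x y uk.xy z (le_normalizer zL)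
    ⟨zo, x', y', uk.xy', by
      simpa using mul_mem (ax.out x' y' uk.xy' _ n2 a1 e) (inv_mem uk.uK)⟩ (mem_sup_right zL))
  obtain ⟨f, s, c⟩ := l.lc x' y' uk.xy'
  have h2 := (l.lt x' y' uk.xy' f s c).idx _ n2 k n1 o2 o1
  have kN : k ∈ Nm (Fl A x y) := centralizer_le_normalizer _ kK
  have w2 := c2 ku.symm u2 k2
  obtain ⟨b, -, hb⟩ := (oc x y uk.xy (u * k) (mul_mem uk.uN kN) w2 fun e =>
    uk.out (by simpa using mul_mem e (inv_mem (mem_sup_left kK)))).2 z zL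
      (c2 (zu.mul_right zk) z2 w2)
  have a2 : Ax A (z * u * k) := by rw [mul_assoc, ← hb]; exact ax.cj _ b hA
  have h3 := mul_mem (ax.out x' y' uk.xy' _ (mul_mem n2 n1) a2 h2) (inv_mem uk.uK)
  rw [mul_assoc z, ← ku.eq, ← mul_assoc, mul_inv_cancel_right] at h3
  have h4 : z * k ∉ Kl A x y := fun e => zK (by simpa using mul_mem e (inv_mem kK))
  exact h4 (ax.out x y uk.xy _ (mul_mem (le_normalizer zL) kN)
    ⟨orderOf_eq_prime (by rw [sq]; exact c2 zk z2 k2) fun e => h4 (e ▸ one_mem _), x', y', uk.xy', h3⟩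
    (mul_mem (mem_sup_right zL) (mem_sup_left kK)))

end Cfsg.Agent.H43.CyAc
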