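import Cfsg.Agent.H11.CyLp
import Cfsg.Agent.H99.BenderCL

/-! Project CY, chapter LP: normal subgroups. -/

set_option autoImplicit false

namespace Cfsg.Agent.H43.CyNs

open Subgroup MulAction Cfsg.Agent.H11.Cy Cfsg.Agent.H11.Cy.Lp

section
variable {G : Type} [Group G] {Ω : Type} [MulAction G Ω] {p : ℕ} {A : Ω → Subgroup G}

theorem ex_ne (h : St p A) (x : Ω) : ∃ a ∈ A x, a ≠ 1 := by
  have hA : A x ≠ ⊥ := fun e => by
    have := h.card x
    rw [e, card_bot] at this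
    exact h.pp.one_lt.ne this
  obtain ⟨⟨a, ha⟩, ha1⟩ := ne_bot_iff_exists_ne_one.1 hA
  exact ⟨a, ha, fun e => ha1 (Subtype.ext e)⟩

theorem key (h : St p A) (hs : ∀ x y, x ≠ y → IsSimpleGroup (Fl A x y)) {N : Subgroup G}
    (hN : ∀ x, A x ≤ normalizer (N : Set G)) (h0 : N ≠ ⊥) (x : Ω) : A x ≤ N := by
  have h1 : ∀ x y, x ≠ y → ∀ g ∈ Fl A x y, g ∈ N → g ≠ 1 → Fl A x y ≤ N := fun x y e g g1 g2 g3 => by
    have hl : Fl A x y ≤ normalizer (N : Set G) := sup_le (hN x) (hN y)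
    have hn : (N.subgroupOf (Fl A x y)).Normal :=
      ⟨fun n hn g => (mem_normalizer_iff.1 (hl g.2) n).1 hn⟩
    rcases (hs x y e).eq_bot_or_eq_top_of_normal _ hn with k | k
    · have : (⟨g, g1⟩ : Fl A x y) ∈ N.subgroupOf (Fl A x y) := g2
      rw [k, mem_bot, Subtype.ext_iff] at this
      exact absurd this g3
    · exact subgroupOf_eq_top.1 k
  obtain ⟨⟨n, hn⟩, n1⟩ := ne_bot_iff_exists_ne_one.1 h0
  obtain ⟨z, hz⟩ := not_forall.1 fun e => n1 (Subtype.ext (h.faith n e))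
  obtain ⟨a, ha, a1⟩ := ex_ne h z
  have h2 : A z ≤ N := le_sup_left.trans (h1 z (n • z) (Ne.symm hz) (n * a * n⁻¹ * a⁻¹)
    (mul_mem (mem_sup_right (h.eqv n z a ha)) (inv_mem (mem_sup_left ha)))
    (by simpa [mul_assoc] using mul_mem hn ((mem_normalizer_iff.1 (hN z ha) _).1 (inv_mem hn)))
    fun e => by
      have := h.fix _ _ (h.eqv n z a ha)
      rw [mul_inv_eq_one.1 e] at this
      exact hz ((h.semi z _ a ha this).resolve_left a1))
  by_cases e : z = x
  · exact e ▸ h2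
  · exact le_sup_right.trans (h1 z x e a (mem_sup_left ha) (h2 ha) a1)

theorem normal_sup (h : St p A) : (⨆ x, A x : Subgroup G).Normal := ⟨fun n hn g => by
  have : (⨆ x, A x : Subgroup G) ≤ (⨆ x, A x : Subgroup G).comap (MulAut.conj g).toMonoidHom :=
    iSup_le fun x a ha => le_iSup A (g • x) (h.eqv g x a ha)
  exact this hn⟩

theorem tr2_of {N : Subgroup G} (h3 : ∀ x y : Ω, x ≠ y → ∃ z, z ≠ x ∧ z ≠ y)
    (h : ∀ e a b : Ω, a ≠ e → b ≠ e → ∃ g ∈ N, g • e = e ∧ g • a = b) :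
    Tr2 N (Set.univ : Set Ω) := by
  intro x _ y _ x' _ y' _ h1 h2
  obtain ⟨g, hg, e⟩ : ∃ g ∈ N, g • x = x' := by
    by_cases e : x = x'
    · exact ⟨1, one_mem _, by rw [one_smul, e]⟩
    · obtain ⟨z, z1, z2⟩ := h3 x x' e
      obtain ⟨g, hg, -, k⟩ := h z x x' z1.symm z2.symm
      exact ⟨g, hg, k⟩
  obtain ⟨k, hk, k1, k2⟩ := h x' (g • y) y' (fun c => h1 (MulAction.injective g (e.trans c.symm)))
    h2.symm
  exact ⟨k * g, mul_mem hk hg, by rw [mul_smul, e, k1], by rw [mul_smul, k2]⟩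

end

theorem ns : NSStmt := by
  intro G _ _ Ω _ _ p A h l1 ng
  have hs := fun x y e => (l1.la x y e).simple
  have nn : ∀ N : Subgroup G, N.Normal → N ≠ ⊥ → ∀ x, A x ≤ N := fun N hN h0 =>
    key h hs (fun x => by rw [normalizer_eq_top]; exact le_top) h0
  obtain ⟨x0, y0, e0⟩ := h.nt.exists_pair_ne
  obtain ⟨a0, ha0, a1⟩ := ex_ne h x0
  have n0 := normal_sup h
  refine ⟨nn, ?_, fun h7 => ?_, fun hc => a1 ((l1.la x0 y0 e0).ctr a0 (mem_sup_left ha0)
    fun g _ => hc.is_comm.comm g a0), fun N hN h2 x y e k hk => ?_⟩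
  · have : Nontrivial (⨆ x, A x : Subgroup G) :=
      ⟨⟨a0, le_iSup A x0 ha0⟩, 1, fun e => a1 (congrArg Subtype.val e)⟩
    refine ⟨fun M hM => ?_⟩
    by_cases e : M.map (Subgroup.subtype _) = ⊥
    · exact Or.inl ((map_eq_bot_iff_of_injective _ (subtype_injective _)).1 e)
    · refine Or.inr (eq_top_iff.2 fun g _ => ?_)
      have h1 := key h hs (fun x a ha => mem_normalizer_fintype (by
        rintro _ ⟨m, hm, rfl⟩
        exact ⟨_, hM.conj_mem m hm ⟨a, le_iSup A x ha⟩, rfl⟩)) e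
      obtain ⟨m, hm, k⟩ := iSup_le h1 g.2
      exact Subtype.ext k ▸ hm
  · have top := l1.mc.min _ n0 (le_iSup A) (tr2_of (fun x y e => ?_) fun x a b ha hb => ?_)
    · have : Nontrivial G := ⟨a0, 1, a1⟩
      exact ⟨fun N hN => or_iff_not_imp_left.2 fun h0 => top_le_iff.1 (top ▸ iSup_le (nn N hN h0))⟩
    · obtain ⟨z, hz⟩ := (Set.ne_univ_iff_exists_notMem _).1 (l1.mu x y e)
      exact ⟨z, fun k => hz (k ▸ (l1.la x y e).mx), fun k => hz (k ▸ (l1.la x y e).my)⟩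
    · obtain ⟨r, hr, g, g1, g2, g3, g4⟩ := ng.bigr h7 x a ha.symm
      refine H99.gleason_rel hr (Φ := Set.univ) (fun _ _ _ _ => trivial) (fun d _ hd => ?_)
        trivial trivial ha hb
      obtain ⟨k, -, k1, k2⟩ := h.two x trivial a trivial x trivial d trivial ha.symm hd.symm
      have fx : ∀ w : Ω, zpowers (k * g * k⁻¹) ≤ stabilizer G (k • w) ↔ g • w = w := fun w => by
        rw [zpowers_le, mem_stabilizer_iff, mul_smul, mul_smul, inv_smul_smul, smul_left_cancel_iff]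
      refine ⟨zpowers (k * g * k⁻¹), zpowers_le.2 (n0.conj_mem g
        (sup_le (le_iSup A x) (le_iSup A a) g1) k), ?_, k1 ▸ (fx x).2 g2.1, k2 ▸ (fx a).2 g2.2,
        fun w _ hw => or_iff_not_imp_left.2 fun c => ?_⟩
      · have := g3.map (MulAut.conj k).toMonoidHom
        rwa [MonoidHom.map_zpowers] at this
      · rw [← smul_inv_smul k w, fx] at hw
        rw [← k2, ng.two x g g2.1 g4 a (k⁻¹ • w) ha (fun c' => c (by
          rw [← k1, ← c', smul_inv_smul])) g2.2 hw, smul_inv_smul]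
  · by_contra hkN
    refine hkN (l1.mc.min N hN (fun z a ha => ?_) ?_ ▸ mem_top k)
    · obtain ⟨m, hm⟩ := h.pp.odd_of_ne_two l1.mc.p2
      have h1 : a ^ p = 1 := by
        have := pow_card_eq_one' (G := A z) (x := ⟨a, ha⟩)
        rw [h.card z] at this
        exact congrArg Subtype.val this
      rw [hm, pow_succ, pow_mul] at h1
      rw [eq_inv_of_mul_eq_one_right h1]
      exact inv_mem (pow_mem (sq_mem_of_index_two h2 a) m)
    · intro u _ v _ u' _ v' _ h3 h4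
      obtain ⟨g, -, g1, g2⟩ := h.two u trivial v trivial u' trivial v' trivial h3 h4
      by_cases hg : g ∈ N
      · exact ⟨g, hg, g1, g2⟩
      obtain ⟨c, -, c1, c2⟩ := h.two x trivial y trivial u trivial v trivial e h3
      refine ⟨g * (c * k * c⁻¹), (mul_mem_iff_of_index_two h2).2 (iff_of_false hg fun t => hkN ?_),
        ?_, ?_⟩
      · simpa [mul_assoc] using hN.conj_mem _ t c⁻¹
      · rw [← g1, ← c1, mul_smul, mul_smul, mul_smul, inv_smul_smul, mem_stabilizer_iff.1 hk.1]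
      · rw [← g2, ← c2, mul_smul, mul_smul, mul_smul, inv_smul_smul, mem_stabilizer_iff.1 hk.2]

end Cfsg.Agent.H43.CyNs
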