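import Mathlib
import Cfsg.Agent.H6.E82Defs

/-! Automorphisms of `SL₂(64)` and the Sylow 2-subgroups. -/

set_option autoImplicit false

namespace Cfsg.Agent.H43.E82AutB

open Cfsg.Agent.H6.E82 H82

theorem autb : AutbStmt := by
  have hF : Fintype.card F = 2 ^ 6 := card_F
  refine ⟨fun α => ?_, fun α h => MulEquiv.ext fun s => ?_⟩
  · obtain ⟨g, hg⟩ := exists_conj_le_UU hF ((isPGroup_UU hF).map α.toMonoidHom)
    refine ⟨g⁻¹, fun t => ?_⟩
    obtain ⟨t', ht⟩ := hg (Subgroup.mem_map_of_mem _ (Subgroup.mem_map_of_mem _ (uu_mem t)))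
    refine ⟨t', ?_⟩
    rw [ht]
    simp [mul_assoc]
  · have h1 : s⁻¹ * α s ∈ Subgroup.center SL := mem_center_of_forall_conj_mem_BB fun x => by
      obtain ⟨a, ha⟩ := h x⁻¹ 1
      obtain ⟨b, hb⟩ := h (s * x⁻¹) 1
      have ha0 : a ≠ 0 := fun e => by
        rw [e, uu_zero, mul_one, mul_inv_cancel, map_eq_one_iff _ α.injective, conj_eq_one_iff,
          uu_eq_one_iff] at ha
        exact one_ne_zero ha
      refine mem_BB_of_conj_uu ha0 (UU_le_BB ⟨b, ?_⟩)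
      have e : α (s * x⁻¹ * uu 1 * (s * x⁻¹)⁻¹) = α s * α (x⁻¹ * uu 1 * x⁻¹⁻¹) * (α s)⁻¹ := by
        rw [← map_inv, ← map_mul, ← map_mul]; congr 1; group
      rw [e, ha] at hb
      calc uu b = (s * x⁻¹)⁻¹ * (s * x⁻¹ * uu b * (s * x⁻¹)⁻¹) * (s * x⁻¹) := by group
        _ = _ := by rw [← hb]; group
    have h2 : (-1 : SL) = 1 := by
      apply SL2_ext <;> simp only [ent, CharTwo.neg_eq]
    rw [mem_center_SL2_iff, h2, or_self, inv_mul_eq_one] at h1
    exact h1.symm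

end Cfsg.Agent.H43.E82AutB
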