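import Mathlib
import Cfsg.Agent.H6.E82Defs

/-! Cocycles of `SL₂(64)` in the simple modules. -/

set_option autoImplicit false

namespace Cfsg.Agent.H43.E82Coc

open Cfsg.Agent.H6.E82 Module Finset H82 H50.SL2S
open scoped MatrixGroups

theorem two0 : (1 : F) + 1 = 0 := CharTwo.add_self_eq_zero 1

theorem ww_ww : ww F * ww F = 1 := by
  apply SL2_ext <;> simp only [ent, ent2, CharTwo.neg_eq]

theorem ll_eq (t : F) : ll t = ww F * (uu t * ww F) := by
  apply SL2_ext <;> simp only [ent, ent2, CharTwo.neg_eq]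

theorem rel3 : ww F * (uu 1 * ww F) = uu 1 * (ww F * uu 1) := by
  apply SL2_ext <;> simp only [ent, ent2, CharTwo.neg_eq, two0]

theorem ww_hh {s : F} (hs : s ≠ 0) : ww F * hh s⁻¹ (inv_ne_zero hs) = hh s hs * ww F := by
  apply SL2_ext <;> simp only [ent, ent2, CharTwo.neg_eq, inv_inv]

theorem hh_uu' {s : F} (hs : s ≠ 0) (t : F) :
    uu (s ^ 2 * t) = hh s hs * (uu t * hh s⁻¹ (inv_ne_zero hs)) := by
  apply SL2_ext <;> simp only [ent] <;> field_simp

theorem arith : ∀ r < 64, ∀ j ∈ JS r, (r + 61 * j) % 63 = 0 → j = 0 ∧ (r = 0 ∨ r = 63) ∨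
    r = 63 ∧ j = 63 := by decide +kernel

theorem coc (par : ParStmt) (mono0 : MonoStmt) (mona : MonaStmt) (cocu : CocuStmt) : CocStmt := by
  intro p r hr
  obtain ⟨⟨cf, hcf⟩, hm⟩ := mono0 p
  obtain ⟨ℓ, hℓ⟩ := cocu p r hr
  have hlam := (par.2 p).2.2.2.1
  have hJ : ∀ j ∈ JS r, j ≤ r := fun j hj => by
    simpa [Nat.lt_succ_iff] using (mem_filter.1 hj).1
  have hsum : ∀ (c : ℕ → K), ∀ j ∈ JS r, cf j (∑ i ∈ JS r, c i • mono p r i) = c j := fun c j hj => by
    rw [map_sum, sum_eq_single j]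
    · rw [map_smul, hcf r hr j (hJ j hj), if_pos rfl, smul_eq_mul, mul_one]
    · intro i hi hij
      rw [map_smul, hcf r hr i (hJ i hi), if_neg hij.symm, smul_zero]
    · exact fun h => absurd hj h
  have h0 : (0 : ℕ) ∈ JS r := by simp [JS]
  have key : ∀ δ ∈ Zc reg (SP p r), (∀ t, δ (uu t) = 0) → δ (ww F) = 0 → δ = 0 := by
    intro δ hδ h1 h2
    funext g
    refine SL2_ind (fun g => δ g = 0) h1 (fun t => ?_) (fun a b ha hb => ?_) g
    · rw [ll_eq, hδ.2.1, hδ.2.1, h1, h2]; simp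
    · rw [hδ.2.1, ha, hb]; simp
  have hU : ∀ δ ∈ Zc reg (SP p r), eps r = 0 ∨ ℓ (δ (uu 1)) = 0 → ∀ t, δ (uu t) = 0 :=
    fun δ hδ => hℓ (fun t => δ (uu t)) (fun t => hδ.1 _) (fun s t => by rw [uu_add, hδ.2.1])
      fun s hs t => by rw [hh_uu' hs, hδ.2.1, hδ.2.1, hδ.2.2, hδ.2.2]; simp
  have hW : ∀ δ ∈ Zc reg (SP p r), ∃ c : ℕ → K, δ (ww F) = ∑ j ∈ JS r, c j • mono p r j ∧
      ∀ j ∈ JS r, c j ≠ 0 → j = 0 ∧ (r = 0 ∨ r = 63) ∨ r = 63 ∧ j = 63 := by
    intro δ hδ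
    obtain ⟨c, hc⟩ := ((hm r hr).1 _).1 (hδ.1 (ww F))
    refine ⟨c, hc, fun j hj h1 => arith r hr j hj ?_⟩
    have e := congrArg δ (ww_hh p.l.ne_zero)
    have e1 : reg (hh p.l p.l.ne_zero) (δ (ww F)) =
        ∑ i ∈ JS r, (c i * p.κ p.l ^ (r + 61 * i)) • mono p r i := by
      rw [hc, map_sum]
      exact sum_congr rfl fun i hi => by rw [map_smul, (mona p r hr i (hJ i hi)).2.1, smul_smul]
    rw [hδ.2.1, hδ.2.1, hδ.2.2, hδ.2.2, map_zero, add_zero, zero_add, e1, hc] at e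
    have e2 := congrArg (cf j) e
    rw [hsum _ j hj, hsum (fun i => c i * p.κ p.l ^ (r + 61 * i)) j hj, eq_comm,
      mul_eq_left₀ h1] at e2
    have e3 : lam p ^ (r + 61 * j) = 1 := Units.ext (by simpa [lam] using e2)
    exact Nat.mod_eq_zero_of_dvd ((hlam.pow_eq_one_iff_dvd _).1 e3)
  have hW0 : ∀ δ ∈ Zc reg (SP p r), cf 0 (δ (ww F)) = 0 → δ (ww F) = 0 := by
    intro δ hδ h1
    obtain ⟨c, hc, h2⟩ := hW δ hδ
    rw [hc, hsum c 0 h0] at h1
    have h3 : ∀ j ∈ JS r, j ≠ 63 → c j = 0 := fun j hj h => by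
      by_contra h4
      rcases h2 j hj h4 with h5 | h5
      exacts [h4 (h5.1 ▸ h1), h h5.2]
    by_cases h63 : 63 ∈ JS r
    · obtain rfl : r = 63 := by have := hJ _ h63; omega
      rw [sum_eq_single 63 (fun j hj h => by rw [h3 j hj h, zero_smul]) fun h => absurd h63 h] at hc
      have e := congrArg δ ww_ww
      rw [hδ.2.1, ← hh_one, hδ.2.2, hc, map_smul, (mona p 63 hr 63 le_rfl).2.2] at e
      have e2 := congrArg (cf 0) e
      rw [map_add, map_smul, map_smul, hcf 63 hr 63 le_rfl, hcf 63 hr _ (by decide), map_zero] at e2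
      rw [hc, show c 63 = 0 by simpa using e2, zero_smul]
    · rw [hc]
      exact sum_eq_zero fun j hj => by rw [h3 j hj fun h => h63 (h ▸ hj), zero_smul]
  have hW1 : r ≠ 0 → r ≠ 63 → ∀ δ ∈ Zc reg (SP p r), δ (ww F) = 0 := fun a b δ hδ => by
    obtain ⟨c, hc, h2⟩ := hW δ hδ
    rw [hc]
    refine sum_eq_zero fun j hj => ?_
    by_cases h4 : c j = 0
    · rw [h4, zero_smul]
    · rcases h2 j hj h4 with ⟨-, h | h⟩ | h
      exacts [absurd h a, absurd h b, absurd h.1 b]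
  let ev : SL → (Zc reg (SP p r) →ₗ[K] (SL → K)) := fun g =>
    (LinearMap.proj g).comp (Zc reg (SP p r)).subtype
  by_cases h63 : r = 63
  · have := LinearMap.finrank_le_finrank_of_injective
      (f := (ℓ.comp (ev (uu 1))).prod ((cf 0).comp (ev (ww F))))
      ((injective_iff_map_eq_zero _).2 fun δ h => Subtype.ext (key δ δ.2
        (hU δ δ.2 (Or.inr (congrArg Prod.fst h))) (hW0 δ δ.2 (congrArg Prod.snd h))))
    simpa [eps, h63] using this
  by_cases he : eps r = 0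
  · rw [he, Nat.le_zero, Submodule.finrank_eq_zero, eq_bot_iff]
    intro δ hδ
    have h1 := hU δ hδ (Or.inl he)
    refine key δ hδ h1 ?_
    by_cases hr0 : r = 0
    · subst hr0
      obtain ⟨c, hc, -⟩ := hW δ hδ
      have h2 : ∀ g, reg g (δ (ww F)) = δ (ww F) := fun g => by
        rw [hc, show JS 0 = {0} by decide, sum_singleton]
        funext x
        simp [reg_apply, RR_apply, mono]
      have e := congrArg δ rel3
      simp only [hδ.2.1, h1, map_zero, zero_add, add_zero, h2] at e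
      simpa using e
    · exact hW1 hr0 h63 δ hδ
  · have hr0 : r ≠ 0 := fun h => he (by rw [h]; decide)
    have := LinearMap.finrank_le_finrank_of_injective (f := ℓ.comp (ev (uu 1)))
      ((injective_iff_map_eq_zero _).2 fun δ h => Subtype.ext (key δ δ.2
        (hU δ δ.2 (Or.inr h)) (hW1 hr0 h63 δ δ.2)))
    rw [finrank_self] at this
    exact this.trans (Nat.pos_of_ne_zero he)

end Cfsg.Agent.H43.E82Coc
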