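import Cfsg.Agent.H50.E83Defs
import Cfsg.Agent.H59.U43P

/-!
# An elementary abelian group of order 16 in `U₄(3)` with two normalising elements
-/

set_option autoImplicit false

namespace Cfsg.Agent.H43.E83U

open Cfsg Cfsg.Agent.H28 Cfsg.Agent.H50.E83

universe u

/-- The monomial matrices of the elementary abelian group. -/
def xm (e : E4) (i j : Fin 4) : F9 :=
  if j.val = i.val ^^^ (3 * (e 3).val ^^^ (e 2).val) then
    if ((e 0).val * (i.val % 2) + (e 1).val * (i.val / 2 + i.val % 2) +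
      (e 3).val * (i.val / 2 + i.val % 2 + (e 2).val)) % 2 = 0 then 1 else -1
  else 0

/-- A square root of `-1`. -/
def im : F9 := ⟨0, 1⟩

/-- The involution. -/
def am : Fin 4 → Fin 4 → F9 := ![![0, 0, 0, im], ![0, 0, 1, 0], ![0, 1, 0, 0], ![-im, 0, 0, 0]]

/-- The element of order three. -/
def ym : Fin 4 → Fin 4 → F9 := ![![0, im, 0, 0], ![0, 0, -im, 0], ![1, 0, 0, 0], ![0, 0, 0, 1]]

theorem xm_det : ∀ e, (Matrix.of (xm e)).det = 1 := by decide +kernel

theorem xm_un : ∀ e i j, ∑ k, xm e k i * xm e k j ^ 3 = if i = j then 1 else 0 := by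
  decide +kernel

theorem xm_mul : ∀ e f, ∃ c ∈ [(1 : F9), -1], ∀ i j,
    xm (e + f) i j = c * ∑ k, xm e i k * xm f k j := by decide +kernel

theorem xm_a : ∀ e, ∃ c ∈ [(1 : F9), -1, im, -im], ∀ i j,
    ∑ k, am i k * xm e k j = c * ∑ k, xm (sa e) i k * am k j := by decide +kernel

theorem xm_y : ∀ e, ∃ c ∈ [(1 : F9), -1, im, -im], ∀ i j,
    ∑ k, ym i k * xm e k j = c * ∑ k, xm (sy e) i k * ym k j := by decide +kernel

theorem xm_ne : ∀ e, e ≠ 0 → ∃ i j, (i ≠ j ∧ xm e i j ≠ 0) ∨ xm e i i ≠ xm e j j := by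
  decide +kernel

/-- The elements of `SU₄(3)`. -/
def xs (e : E4) : SU 4 F9 3 := suMk H59.U43P.F9_add_cube (by norm_num) (xm e) (xm_det e) (xm_un e)

/-- The involution in `SU₄(3)`. -/
def as : SU 4 F9 3 :=
  suMk H59.U43P.F9_add_cube (by norm_num) am (by decide +kernel) (by decide +kernel)

/-- The element of order three in `SU₄(3)`. -/
def ys : SU 4 F9 3 :=
  suMk H59.U43P.F9_add_cube (by norm_num) ym (by decide +kernel) (by decide +kernel)

theorem as_sq : as * as = 1 := su_ext fun i j => by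
  rw [su_mul_apply]
  change ∑ k, am i k * am k j = if i = j then 1 else 0
  revert i j
  decide +kernel

theorem ys_cube : ys * ys * ys = 1 := su_ext fun i j => by
  simp only [su_mul_apply]
  change ∑ k, (∑ l, ym i l * ym l k) * ym k j = if i = j then 1 else 0
  revert i j
  decide +kernel

theorem ay : (QuotientGroup.mk (as * ys * (as * ys) * (as * ys)) : PSU 4 F9 3) =
    QuotientGroup.mk 1 := psu_mk_eq im fun i j => by
  simp only [su_mul_apply]
  change ∑ k, (∑ l, (∑ m, am i m * ym m l) * ∑ m, am l m * ym m k) * ∑ m, am k m * ym m j =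
    im * if i = j then 1 else 0
  revert i j
  decide +kernel

/-- The elementary abelian group in `PSU₄(3)`. -/
def xh : Multiplicative E4 →* PSU 4 F9 3 :=
  MonoidHom.mk' (fun e => QuotientGroup.mk (xs e.toAdd)) fun e f => by
    obtain ⟨c, -, h⟩ := xm_mul e.toAdd f.toAdd
    rw [← QuotientGroup.mk_mul]
    exact psu_mk_eq c h

theorem cfg9 : CfgU (PSU 4 F9 3) := by
  have hne : ∀ e, e ≠ 1 → xh e ≠ 1 := fun e he h => by
    obtain ⟨c, hc⟩ := (H31.mem_center_SU_iff (F := F9) (q := 3) card_F9 (by norm_num)).1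
      ((QuotientGroup.eq_one_iff _).1 h)
    have h1 : ∀ i j, xm e.toAdd i j = c * if i = j then 1 else 0 := fun i j =>
      congrFun (congrFun hc i) j
    obtain ⟨i, j, ⟨h2, h3⟩ | h2⟩ := xm_ne e.toAdd he
    · exact h3 (by rw [h1, if_neg h2, mul_zero])
    · exact h2 (by rw [h1, h1, if_pos rfl, if_pos rfl])
  have hsq : ∀ e : Multiplicative E4, e * e = 1 := by decide
  have ho : ∀ e, e ≠ 1 → orderOf (xh e) = 2 := fun e he =>
    orderOf_eq_prime (by rw [sq, ← map_mul, hsq, map_one]) (hne e he)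
  have hy : (QuotientGroup.mk ys : PSU 4 F9 3) ^ 3 = 1 := by
    rw [pow_three', ← QuotientGroup.mk_mul, ← QuotientGroup.mk_mul, ys_cube]; rfl
  have ha : (QuotientGroup.mk as : PSU 4 F9 3) * QuotientGroup.mk as = 1 := by
    rw [← QuotientGroup.mk_mul, as_sq]; rfl
  refine ⟨xh, QuotientGroup.mk as, QuotientGroup.mk ys, ⟨ha, hy, fun e => ?_, fun e => ?_, ?_⟩,
    hne, fun e e' he he' => ?_⟩
  · obtain ⟨c, -, h⟩ := xm_a e
    rw [mul_inv_eq_iff_eq_mul]
    exact psu_mk_eq (g := as * xs e) (h := xs (sa e) * as) c h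
  · obtain ⟨c, -, h⟩ := xm_y e
    rw [mul_inv_eq_iff_eq_mul]
    exact psu_mk_eq (g := ys * xs e) (h := xs (sy e) * ys) c h
  · refine ⟨1, ?_⟩
    have h := ay
    simp only [QuotientGroup.mk_mul, QuotientGroup.mk_one] at h
    rw [map_one]
    generalize (QuotientGroup.mk as : PSU 4 F9 3) = a at h ⊢
    generalize (QuotientGroup.mk ys : PSU 4 F9 3) = y at h hy ⊢
    calc 1 = a * y * (a * y) * (a * y) * (y ^ 3)⁻¹ := by rw [h, hy, inv_one, mul_one]
      _ = _ := by group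
  · obtain ⟨φ⟩ := H59.U43P.equiv_psu9
    have := φ.symm.toMonoidHom.map_isConj (H59.U43P.isConj_inv (φ (xh e)) (φ (xh e'))
      (by rw [φ.orderOf_eq, ho e he]) (by rw [φ.orderOf_eq, ho e' he']))
    simpa using this

theorem CfgU.congr {Γ Δ : Type*} [Group Γ] [Group Δ] (φ : Γ ≃* Δ) (h : CfgU Γ) : CfgU Δ := by
  obtain ⟨x, a, y, r, h1, h2⟩ := h
  refine ⟨φ.toMonoidHom.comp x, φ a, φ y, ⟨?_, ?_, fun e => ?_, fun e => ?_, ?_⟩,
    fun e he => ?_, fun e e' he he' => φ.toMonoidHom.map_isConj (h2 e e' he he')⟩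
  · rw [← map_mul, r.aa, map_one]
  · rw [← map_pow, r.y3, map_one]
  · simpa using congrArg φ (r.ax e)
  · simpa using congrArg φ (r.yx e)
  · obtain ⟨e, he⟩ := r.abc
    exact ⟨e, by simpa using congrArg φ he⟩
  · simpa using h1 e he

theorem embU : EmbUStmt.{u} := fun _ _ _ hF =>
  CfgU.congr (psuEquiv (equivF9 hF) 4 3).symm cfg9

end Cfsg.Agent.H43.E83U
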