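import Cfsg.Agent.H98.GbL

/-! Project GB: the characters supported on one regular orbit, in the smallest degree. -/

set_option autoImplicit false
open Cfsg Finset
open scoped MatrixGroups

namespace Cfsg.Agent.H43.GbR2La

open Cfsg.Agent.H98.GB

universe u

theorem r2la (hL : LABStmt.{u}) (hI : IRRStmt.{u}) (hK : BLKStmt.{u}) (hB : BASBStmt.{u}) :
    R2LaStmt.{u} := by
  intro F _ _ _ C Γ hΓ hd
  have L := hL F C
  have hM := C.hM.2.1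
  have hc := (hK F C _ hd).2.2 Γ
  have hp := L.dg_pos Γ
  have hN : 1 ≤ C.N := by unfold Ctx.N; nlinarith
  obtain ⟨b, hb⟩ := card_eq_one.1 ((H19.card_Lam hN).trans H19.pn_one)
  have hb' : ∀ S, (#S = C.N ∧ H19.wtS S = 1) ↔ S = b := fun S => by
    rw [← H19.mem_Lam', hb, mem_singleton]
  have wt1 : ∀ Λ : C.Lb, (∀ φ, φ ≠ Γ → Λ φ = range C.N) →
      wt C.dg Λ = C.dg Γ * H19.wtS (Λ Γ) := fun Λ h =>
    sum_eq_single Γ (fun φ _ hφ => by rw [h φ hφ, H19.wtS_range, mul_zero]) (by simp)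
  obtain ⟨Λ1, e1, e2⟩ : ∃ Λ1 : C.Lb, Λ1 Γ = b ∧ ∀ φ, φ ≠ Γ → Λ1 φ = range C.N :=
    ⟨Function.update (fun _ => range C.N) Γ b, by simp, fun φ h => by simp [h]⟩
  have l1 : C.IsLab (C.dg Γ) Λ1 := ⟨fun φ => by
    by_cases h : φ = Γ
    · rw [h, e1, ((hb' b).2 rfl).1]
    · rw [e2 φ h, card_range], by rw [wt1 Λ1 e2, e1, ((hb' b).2 rfl).2, mul_one]⟩
  have s1 : Λ1 ∈ C.Sup Γ := fun φ h => e2 φ (by rintro rfl; exact h hΓ)
  have uq : ∀ Λ, C.IsLab (C.dg Γ) Λ → C.Bas Λ → Λ ∈ C.Sup Γ → Λ = Λ1 := fun Λ h1 h2 h3 => by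
    have k : ∀ φ, φ ≠ Γ → Λ φ = range C.N := fun φ h => by
      by_cases r : C.Reg φ
      · exact h3 φ fun e => h (r.symm.trans e)
      · exact h2 φ r
    funext φ
    by_cases h : φ = Γ
    · have := h1.2
      rw [wt1 Λ k] at this
      rw [h, e1, ← hb']
      exact ⟨h1.1 Γ, Nat.eq_of_mul_eq_mul_left hp (by rw [this, mul_one])⟩
    · rw [k φ h, e2 φ h]
  let χ1 : IrrCharacter (GL (Fin (C.dg Γ)) F) := ⟨_, (hI F C _ hd Λ1 l1).2.1⟩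
  have m1 : χ1 ∈ C.XC (C.dg Γ) (C.Sup Γ) := ⟨Λ1, s1, l1, rfl⟩
  refine ⟨⟨χ1, Set.ext fun χ => ⟨fun hχ => ?_, fun hχ =>
    hc χ1 m1 χ ((H17.mem_blockOf_iff hM _ _).1 hχ)⟩⟩, ?_⟩
  · obtain ⟨Λ, h1, h2, ψ, h3, h4⟩ := hB F C _ hd χ
    rw [H17.mem_blockOf_iff hM] at h3 ⊢
    obtain ⟨Λ', k1, k2, k3⟩ := hc χ hχ ψ h3
    obtain rfl := (hI F C _ hd Λ h1).2.2 Λ' k2 (h4.symm.trans k3)
    obtain rfl := uq Λ h1 h2 k1
    rw [h3]
    exact congrArg _ (Subtype.ext h4.symm)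
  · by_contra! h
    have := H17.lam_eB_of_mem hc m1
    rw [show H17.eB C.M (C.XC (C.dg Γ) (C.Sup Γ)) = 0 from
      Subtype.ext (MonoidAlgebra.ext (Finsupp.ext h)), map_zero] at this
    exact zero_ne_one this

end Cfsg.Agent.H43.GbR2La
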