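import Cfsg.Agent.H98.GbH

/-! Project GB: a twisted class function orthogonal to all primitive products vanishes. -/

set_option autoImplicit false
set_option linter.unusedSectionVars false
open Cfsg Finset
open scoped ComplexConjugate MatrixGroups

namespace Cfsg.Agent.H43.GbSpan

open Cfsg.Agent.H98.GB

universe u

variable {F : Type u} [Field F] {m k a b kb n : ℕ}

/-- two blocks of rows -/
def rowsE (h : m + k = a) :
    Matrix (Fin m) (Fin b) F × Matrix (Fin k) (Fin b) F ≃ Matrix (Fin a) (Fin b) F where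
  toFun p := Matrix.of fun i j => Sum.elim (p.1 · j) (p.2 · j) ((eqv h).symm i)
  invFun c := (Matrix.of fun i j => c (eqv h (Sum.inl i)) j, Matrix.of fun i j => c (eqv h (Sum.inr i)) j)
  left_inv p := by ext <;> simp
  right_inv c := by
    ext i j
    obtain ⟨i | i, rfl⟩ := (eqv h).surjective i <;> simp

/-- two blocks of columns -/
def colsE (h : k + b = kb) :
    Matrix (Fin m) (Fin k) F × Matrix (Fin m) (Fin b) F ≃ Matrix (Fin m) (Fin kb) F where
  toFun p := Matrix.of fun i j => Sum.elim (p.1 i) (p.2 i) ((eqv h).symm j)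
  invFun c := (Matrix.of fun i j => c i (eqv h (Sum.inl j)), Matrix.of fun i j => c i (eqv h (Sum.inr j)))
  left_inv p := by ext <;> simp
  right_inv c := by
    ext i j
    obtain ⟨j | j, rfl⟩ := (eqv h).surjective j <;> simp

theorem tri3 (h1 : a + b = n) (h2 : m + k = a) (h3 : m + kb = n) (h4 : k + b = kb)
    (u : GL (Fin m) F) (w : GL (Fin k) F) (v : GL (Fin b) F) (c12 : Matrix (Fin m) (Fin k) F)
    (c13 : Matrix (Fin m) (Fin b) F) (c23 : Matrix (Fin k) (Fin b) F) :
    tri h1 (tri h2 u c12 w) (rowsE h2 (c13, c23)) v =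
      tri h3 u (colsE h4 (c12, c13)) (tri h4 w c23 v) := by
  have e1 : ∀ i, (eqv h3).symm (eqv h1 (Sum.inl (eqv h2 (Sum.inl i)))) = Sum.inl i := fun i => by
    rw [Equiv.symm_apply_eq]; exact Fin.ext (by simp [eqv])
  have e2 : ∀ i, (eqv h3).symm (eqv h1 (Sum.inl (eqv h2 (Sum.inr i)))) =
      Sum.inr (eqv h4 (Sum.inl i)) := fun i => by
    rw [Equiv.symm_apply_eq]; exact Fin.ext (by simp [eqv])
  have e3 : ∀ i, (eqv h3).symm (eqv h1 (Sum.inr i)) = Sum.inr (eqv h4 (Sum.inr i)) := fun i => by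
    rw [Equiv.symm_apply_eq]; exact Fin.ext (by simp [eqv]; omega)
  refine Units.ext (Matrix.ext fun i j => ?_)
  obtain ⟨i | i, rfl⟩ := (eqv h1).surjective i <;> obtain ⟨j | j, rfl⟩ := (eqv h1).surjective j <;>
    (try obtain ⟨i | i, rfl⟩ := (eqv h2).surjective i) <;>
    (try obtain ⟨j | j, rfl⟩ := (eqv h2).surjective j) <;>
    simp [coe_tri, e1, e2, e3, rowsE, colsE]

variable [Fintype F] [DecidableEq F]

theorem res_res (h1 : a + b = n) (h2 : m + k = a) (h3 : m + kb = n) (h4 : k + b = kb)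
    (f : GL (Fin n) F → ℂ) (u : GL (Fin m) F) (w : GL (Fin k) F) (v : GL (Fin b) F) :
    res h2 (fun x => res h1 f x v) u w = res h4 (fun y => res h3 f u y) w v := by
  simp only [res, ← mul_sum, ← mul_assoc, ← mul_inv, ← Nat.cast_mul, ← pow_add]
  congr 1
  · rw [← h2, ← h4]; congr 3; ring
  · simp only [← (rowsE h2).sum_comp, ← (colsE h4).sum_comp, Fintype.sum_prod_type, tri3 h1 h2 h3 h4]
    rw [sum_congr rfl fun _ _ => sum_comm, sum_comm]

theorem perp_res (h1 : a + b = n) (h2 : m + k = a) (h3 : m + kb = n) (h4 : k + b = kb)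
    (P : GL (Fin m) F → ℂ) (f : GL (Fin n) F → ℂ) (w : GL (Fin k) F) (v : GL (Fin b) F) :
    perp1 h2 P (fun x => res h1 f x v) w = res h4 (perp1 h3 P f) w v := by
  simp only [perp1, res_res h1 h2 h3 h4]
  rw [res]
  simp only [perp1, classInner, res.eq_1 h4, mul_sum, sum_mul]
  rw [sum_comm]
  exact sum_congr rfl fun _ _ => sum_congr rfl fun _ _ => by ring

theorem span (hT : TWCStmt.{u}) : SPANStmt.{u} := by
  intro F _ _ _ η n
  induction n using Nat.strong_induction_on with
  | _ n ih =>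
  intro f hn hf h
  have hP : Prim n f := ⟨hn, fun a b hab ha hb u v => congrFun (ih a (by omega)
    (fun x => res hab f x v) ha (fun s u => by
      simpa using (hT F η).2.1 a b n hab f hf s 1 u v) fun m k hmk P hP hP' => funext fun w => by
        rw [perp_res hab hmk (kb := k + b) (by omega) rfl, h m _ _ P hP hP']
        simp [res]) u⟩
  have h1 := congrFun (h n 0 rfl f hP hf) 1
  have h2 : ∀ u, res (rfl : n + 0 = n) f u 1 = f u := fun u => by
    have : ∀ c, tri (rfl : n + 0 = n) u c 1 = u := fun c => Units.ext (Matrix.ext fun i j => by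
      have e : ∀ i : Fin n, (eqv (rfl : n + 0 = n)).symm i = Sum.inl i := fun i => by
        rw [Equiv.symm_apply_eq]; exact Fin.ext rfl
      simp [coe_tri, e])
    have hc : Fintype.card (Matrix (Fin n) (Fin 0) F) = 1 :=
      Fintype.card_eq_one_iff.2 ⟨0, fun c => Matrix.ext fun _ j => j.elim0⟩
    simp [res, this, hc]
  simp only [perp1, h2, Pi.zero_apply] at h1
  exact H11.classInner_self_eq_zero.1 h1

end Cfsg.Agent.H43.GbSpan
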