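import Cfsg.Agent.H99.HNSet

/-! The recognition of `HN`: an element of order three outside `J`. -/

set_option autoImplicit false

universe u

namespace Cfsg.Agent.H43.HN6

open Cfsg Subgroup Cfsg.Agent.H99.HN
open Cfsg.Agent.H91 (SL25 slX slY closure_slXY)
open Cfsg.Agent.H67.T3 (slF slF_X mem_zp3)
open scoped Pointwise

theorem relY : ∀ y : SL25, slX * slF * y * slF * y ^ 4 = 1 → (slF * y * y) ^ 3 = 1 → y = slY := by
  decide +kernel

theorem relY0 : slX * slF * slY * slF * slY ^ 4 = 1 ∧ (slF * slY * slY) ^ 3 = 1 := by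
  decide +kernel

theorem vec : ∀ v : W4, mD (-v) = -mD v ∧
    ∃ u, (u + v + mD (-u)) 0 + (u + v + mD (-u)) 1 + (u + v + mD (-u)) 3 = 0 := by decide +kernel

/-- Words for `slF`. -/
def wds : List (List (Fin 3)) := [[1, 2, 1], [1, 2, 1, 2, 1], [1, 1, 2, 2, 1, 1],
  [0, 1, 1, 0, 2, 1, 2, 1], [0, 2, 2, 0, 1, 2, 1, 2], [0, 1, 0, 0, 2, 0, 1], [0, 2, 0, 0, 1, 0, 2]]

theorem genF : ∀ t : SL25, t ^ 3 = 1 → (t = 1 ∨ t = slX ∨ t = slX⁻¹) ∨
    ∃ w ∈ wds, (w.map ![slX, t, slF * t * slF⁻¹]).prod = slF := by decide +kernel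

theorem X3 : slX ^ 3 = 1 := by decide +kernel

theorem X1 : slX ≠ 1 := by decide +kernel

variable {G : Type u} [Group G] [Finite G] {z : G} {Q : Subgroup G} {ι : SL25 →* G} {j : W4 → G}

omit [Finite G] in
theorem card_cj (g a b : G) : Nat.card (centralizer {g * a * g⁻¹} ⊓ centralizer {g * b * g⁻¹} :
    Subgroup G) = Nat.card (centralizer {a} ⊓ centralizer {b} : Subgroup G) := by
  have : ∀ r a : G, r * a = a * r ↔ g * r * g⁻¹ * (g * a * g⁻¹) = g * a * g⁻¹ * (g * r * g⁻¹) :=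
    fun r a => by rw [conj_mul, conj_mul, mul_left_inj, mul_right_inj]
  exact (Nat.card_congr ((MulAut.conj g).toEquiv.subtypeEquiv fun r => by
    simp only [mem_inf, mem_centralizer_singleton_iff]
    exact and_congr (this r a) (this r b))).symm

theorem eq27 {A B K D : Subgroup G} (hD : Nat.card D = 27) (h0 : ⊥ < A) (h1 : A < B) (h2 : B < K)
    (h3 : K ≤ D) : K = D := by
  have lt : ∀ {A B : Subgroup G}, A < B → Nat.card A < Nat.card B := fun h =>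
    lt_of_not_ge fun e => h.ne (eq_of_le_of_card_ge h.le e)
  have dv : ∀ {A : Subgroup G}, A ≤ D → Nat.card A = 1 ∨ Nat.card A = 3 ∨ Nat.card A = 9 ∨
      Nat.card A = 27 := fun h =>
    (show ∀ n ∈ Nat.divisors 27, n = 1 ∨ n = 3 ∨ n = 9 ∨ n = 27 by decide) _
      (Nat.mem_divisors.2 ⟨hD ▸ card_dvd_of_le h, by decide⟩)
  have k0 := lt h0
  have k1 := lt h1
  have k2 := lt h2
  have k3 := dv h3
  have k4 := dv (h2.le.trans h3)
  have k5 := dv (h1.le.trans (h2.le.trans h3))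
  rw [card_bot] at k0
  exact eq_of_le_of_card_ge h3 (by omega)

section
variable (t : T0 z Q ι)
include t

omit [Finite G]

theorem cQ {g q : G} (hg : g * z = z * g) (hq : q ∈ Q) : g * q * g⁻¹ ∈ Q :=
  t.nQ g (by rw [hg, mul_inv_cancel_right]; exact mem_zpowers z) q hq

theorem inner {h : G} (hz : h⁻¹ * z * h ∈ zpowers z) (hx : h * ι slX * h⁻¹ = ι slX)
    (hd : h * ι slF * h⁻¹ * (ι slF)⁻¹ ∈ Q) (k : SL25) : h * ι k * h⁻¹ * (ι k)⁻¹ ∈ Q := by
  let Γ : Subgroup (SL25 × SL25) :=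
    { carrier := {p | h * ι p.1 * h⁻¹ * (ι p.2)⁻¹ ∈ Q}
      one_mem' := by simp
      mul_mem' := fun {a b} ha hb => by
        have := Q.mul_mem ha (cQ t (t.ιz a.2) hb)
        simp only [Set.mem_ofPred_eq, Prod.fst_mul, Prod.snd_mul, map_mul]
        convert this using 1
        group
      inv_mem' := fun {a} ha => by
        have := cQ t (t.ιz a.2⁻¹) (Q.inv_mem ha)
        simp only [Set.mem_ofPred_eq, Prod.fst_inv, Prod.snd_inv, map_inv] at this ⊢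
        convert this using 1
        group }
  have k1 : ∀ p ∈ Γ, p.1 = 1 → p.2 = 1 := fun p hp e => t.ιQ _ (by
    simpa [e] using (show h * ι p.1 * h⁻¹ * (ι p.2)⁻¹ ∈ Q from hp))
  have kX : (slX, slX) ∈ Γ := show _ ∈ Q by rw [hx, mul_inv_cancel]; exact one_mem _
  have kF : (slF, slF) ∈ Γ := hd
  obtain ⟨q, hq, y, e⟩ := t.dec (h * ι slY * h⁻¹) (by
    obtain ⟨i, hi⟩ := hz
    have := (show Commute (ι slY) z from t.ιz slY).zpow_right i
    rw [show z ^ i = _ from hi] at this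
    calc h * ι slY * h⁻¹ * z = h * (ι slY * (h⁻¹ * z * h)) * h⁻¹ := by group
      _ = _ := by rw [this.eq]; group)
  have kY : (slY, y) ∈ Γ := show _ ∈ Q by rwa [e, mul_inv_cancel_right]
  obtain rfl := relY y
    (k1 _ (mul_mem (mul_mem (mul_mem (mul_mem kX kF) kY) kF) (pow_mem kY 4)) relY0.1)
    (k1 _ (pow_mem (mul_mem (mul_mem kF kY) kY) 3) relY0.2)
  have : Subgroup.closure {slX, slY} ≤ Γ.comap ((MonoidHom.id _).prod (MonoidHom.id _)) :=
    (closure_le _).2 (by rintro _ (rfl | rfl); exacts [kX, kY])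
  exact this (closure_slXY ▸ mem_top k)

omit t in
theorem mem_D {g x : G} : x ∈ Q ⊓ MulAut.conj g • Q ↔ x ∈ Q ∧ g⁻¹ * x * g ∈ Q := by
  rw [mem_inf, mem_pointwise_smul_iff_inv_smul_mem]
  simp

end

theorem nD (t : T0 z Q ι) {g n : G} (h1 : n * z * n⁻¹ ∈ zpowers z)
    (h2 : n * (g * z * g⁻¹) * n⁻¹ ∈ zpowers (g * z * g⁻¹)) :
    n ∈ normalizer ((Q ⊓ MulAut.conj g • Q : Subgroup G) : Set G) :=
  mem_normalizer_fintype fun x hx => by
    rw [SetLike.mem_coe, mem_D] at hx ⊢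
    refine ⟨t.nQ n h1 x hx.1, ?_⟩
    obtain ⟨i, hi⟩ := h2
    have := t.nQ (g⁻¹ * n * g) ⟨i, by
      have : g * z ^ i * g⁻¹ = _ := conj_zpow.symm.trans hi
      calc z ^ i = g⁻¹ * (g * z ^ i * g⁻¹) * g := by group
        _ = _ := by rw [this]; group⟩ _ hx.2
    convert this using 1
    group

omit [Finite G] in
theorem card_C (t : T1 z Q ι) {q : G} (hq : q ∈ Q) (h1 : q ∉ zpowers z) :
    Nat.card (centralizer {q} ⊓ centralizer {z} : Subgroup G) = 243 := by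
  obtain ⟨k, ha⟩ := t.cov q hq
  have h2 : ι k * z * (ι k)⁻¹ = z := by rw [t.ιz, mul_inv_cancel_right]
  have h3 : ι k * q * (ι k)⁻¹ ∉ zpowers z := fun ⟨i, hi⟩ => h1 ⟨i, by
    have : ι k * z ^ i * (ι k)⁻¹ = _ := conj_zpow.symm.trans (h2.symm ▸ hi)
    simpa using this⟩
  rw [← card_cj (ι k), h2]
  generalize ι k * q * (ι k)⁻¹ = a at ha h3
  have h4 : ∀ k ∈ zpowers slX, Commute (ι k) a := by
    rintro _ ⟨i, rfl⟩
    rw [map_zpow]
    exact (show Commute a (ι slX) from mem_centralizer_singleton_iff.1 ha.2).symm.zpow_left i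
  rw [← Nat.card_eq_of_bijective (fun p : (Q ⊓ centralizer {a} : Subgroup G) × zpowers slX =>
    (⟨p.1 * ι p.2, mul_mem p.1.2.2 (mem_centralizer_singleton_iff.2 (h4 _ p.2.2)),
      mul_mem (mem_centralizer_singleton_iff.2 (t.Qz _ p.1.2.1))
        (mem_centralizer_singleton_iff.2 (t.ιz _))⟩ :
      (centralizer {a} ⊓ centralizer {z} : Subgroup G))) ⟨?_, ?_⟩, Nat.card_prod, t.cq a ha.1 h3,
    Nat.card_zpowers, orderOf_eq_prime X3 X1]
  · rintro ⟨⟨r, hr⟩, k, hk⟩ ⟨⟨r', hr'⟩, k', hk'⟩ e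
    have e' : r * ι k = r' * ι k' := congrArg Subtype.val e
    obtain rfl : k = k' := mul_inv_eq_one.1 (t.ιQ _ (by
      rw [map_mul, map_inv, eq_inv_mul_of_mul_eq e', mul_assoc, mul_inv_cancel_right]
      exact mul_mem (inv_mem hr.1) hr'.1))
    obtain rfl := mul_right_cancel e'
    rfl
  · rintro ⟨r, h5, h6⟩
    obtain ⟨r, hr, k, rfl⟩ := t.dec r (mem_centralizer_singleton_iff.1 h6)
    have h7 : r * ι k * a = a * (r * ι k) := mem_centralizer_singleton_iff.1 h5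
    have h8 := t.stab a ha h3 k (by
      have := t.QQ _ (inv_mem hr) a ha.1
      rwa [show ι k * a * (ι k)⁻¹ = r⁻¹ * (r * ι k * a) * (ι k)⁻¹ by group, h7,
        show r⁻¹ * (a * (r * ι k)) * (ι k)⁻¹ = r⁻¹ * a * r⁻¹⁻¹ by group])
    exact ⟨(⟨r, hr, (mul_mem_cancel_right (mem_centralizer_singleton_iff.2 (h4 k h8))).1 h5⟩,
      ⟨k, h8⟩), rfl⟩

section
omit [Finite G]
variable (e : Geo z Q ι j)
include e

theorem j0 : j 0 = 1 := by simpa using e.add 0 0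

theorem jneg (v : W4) : j (-v) = (j v)⁻¹ := eq_inv_of_mul_eq_one_left (by rw [← e.add, neg_add_cancel, j0 e])

theorem jinj {v w : W4} (h : j v = j w) : v = w :=
  sub_eq_zero.1 (e.inj _ (by rw [sub_eq_add_neg, e.add, jneg e, h, mul_inv_cancel]))

theorem jc (v w : W4) : j v * j w = j w * j v := by rw [← e.add, add_comm, e.add]

theorem mem_A {v : W4} (h : j v ∈ Q) : j v ∈ AA Q ι :=
  ⟨h, mem_centralizer_singleton_iff.2 (e.jx ▸ jc e _ _)⟩

end

omit [Finite G] in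
theorem exists_h (t : T0 z Q ι) (e : Geo z Q ι j) (m : Mon j ι) : ∃ h, (∀ v, h * j v * h⁻¹ = (j v)⁻¹) ∧
    ∀ k, ∃ q ∈ Q, ι (slF * k * slF⁻¹) = q * (h * ι k * h⁻¹) := by
  obtain ⟨h, hh⟩ := m.exM (-1) 1 (by decide)
  replace hh : ∀ v, h * j v * h⁻¹ = j (-v) := fun v => (hh v).trans (congrArg j (neg_one_mul v))
  obtain ⟨v, hv⟩ := m.cJ ((ι slF * h)⁻¹ * (h * ι slF)) fun v => by
    have : h * (ι slF * j v * (ι slF)⁻¹) * h⁻¹ = ι slF * (h * j v * h⁻¹) * (ι slF)⁻¹ := by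
      rw [e.jd, hh, hh, e.jd, (vec v).1]
    calc _ = (ι slF * h)⁻¹ * (h * (ι slF * j v * (ι slF)⁻¹) * h⁻¹) * (h * ι slF) := by group
      _ = _ := by rw [this]; group
  obtain ⟨u, hu⟩ := (vec (mD (-v))).2
  have h1 : ∀ v, j u * h * j v * (j u * h)⁻¹ = (j v)⁻¹ := fun v => by
    rw [mul_inv_rev, mul_assoc, mul_assoc, ← mul_assoc (j v), ← mul_assoc h, ← mul_assoc h, hh,
      ← mul_assoc, jc e, mul_inv_cancel_right, jneg e]
  have h2 : j u * h * ι slF * (j u * h)⁻¹ * (ι slF)⁻¹ ∈ Q := by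
    have := (e.jQ _).2 hu
    rw [e.add, e.add, ← e.jd, ← e.jd, ← hh v, ← hv, jneg e] at this
    convert this using 1
    group
  generalize j u * h = h at h1 h2
  have dz := t.ιz slF⁻¹
  have dx := congrArg ι slF_X
  rw [map_mul, map_mul, map_inv, map_inv] at dx
  rw [map_inv] at dz
  refine ⟨h, h1, fun k => ⟨_, inv_mem (cQ t (t.ιz slF) (inner t (h := (ι slF)⁻¹ * h) ?_ ?_ ?_ k)), ?_⟩⟩
  · have := h1 ![1, 1, 0, 1]
    rw [e.jz] at this
    rw [mul_inv_rev, inv_inv, mul_assoc h⁻¹, t.ιz, show h⁻¹ * (z * ι slF) * ((ι slF)⁻¹ * h) =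
      (h⁻¹ * z⁻¹ * h)⁻¹ by group, ← this]
    exact inv_mem (by simp [mul_assoc])
  · have := h1 ![1, 1, 0, -1]
    rw [e.jx, ← dx] at this
    calc _ = (ι slF)⁻¹ * (h * ι slX * h⁻¹) * ι slF := by group
      _ = _ := by rw [this]; group
  · convert cQ t dz h2 using 1
    group
  · simp only [map_mul, map_inv]
    group

theorem s6 : S6Stmt.{u} := by
  intro G _ _ z Q ι j t e m
  obtain ⟨g, w, hg, hw, hw', hR⟩ := e.r1
  have t0 := t.toT0
  have y1Q : g * z * g⁻¹ ∈ Q := hg ▸ (e.jQ _).2 (by decide)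
  have y1A : g * z * g⁻¹ ∈ AA Q ι := hg ▸ mem_A e (hg ▸ y1Q)
  have ZA : zpowers z ≤ AA Q ι := zpowers_le.2 (e.jz ▸ mem_A e (e.jz ▸ t.zQ))
  have y1Z : g * z * g⁻¹ ∉ zpowers z := fun h => by
    rw [mem_zp3 t.z3, hg, ← e.jz, ← jneg e, ← j0 e] at h
    rcases h with h | h | h <;> exact absurd (jinj e h) (by decide)
  have nw : w * j ![1, -1, -1, 0] ≠ j ![1, -1, -1, 0] * w := fun h =>
    absurd (jinj e ((hR _).symm.trans (by rw [h, mul_inv_cancel_right]))) (by decide)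
  have wA : w ∉ AA Q ι := fun h => by
    obtain ⟨v, rfl⟩ := e.jA w h
    exact nw (jc e _ _)
  obtain ⟨k, ha⟩ := t.cov w hw
  have cj : ∀ y, ι k * y * (ι k)⁻¹ ∈ AA Q ι → ι (k⁻¹ * slX * k) * y = y * ι (k⁻¹ * slX * k) :=
    fun y hy => by
      have := mem_centralizer_singleton_iff.1 hy.2
      rw [map_mul, map_mul, map_inv]
      calc _ = (ι k)⁻¹ * (ι slX * (ι k * y * (ι k)⁻¹)) * ι k := by group
        _ = _ := by rw [← this]; group
  have hX : k⁻¹ * slX * k ∉ zpowers slX := fun h => by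
    have := cj w ha
    rcases (mem_zp3 X3).1 h with h | h | h
    · exact X1 (by simpa [mul_assoc, inv_mul_eq_iff_eq_mul] using h)
    · exact wA ⟨hw, mem_centralizer_singleton_iff.2 (h ▸ this).symm⟩
    · rw [h, map_inv] at this
      exact wA ⟨hw, mem_centralizer_singleton_iff.2 (Commute.inv_left_iff.1 this).symm⟩
  have nc : ∀ g', g' * z * g'⁻¹ ≠ w := fun g' hg' => by
    have zD := mem_D.2 ⟨t.zQ, e.sym g y1Q⟩
    have k1 : zpowers z < (Q ⊓ MulAut.conj g • Q) ⊓ (Q ⊓ MulAut.conj g' • Q) ⊓ AA Q ι :=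
      lt_of_le_not_ge (le_inf (zpowers_le.2 ⟨zD, mem_D.2 ⟨t.zQ, e.sym g' (hg' ▸ hw)⟩⟩) ZA)
        fun h => y1Z (h ⟨⟨mem_D.2 ⟨y1Q, by simpa [mul_assoc] using t.zQ⟩, mem_D.2 ⟨y1Q, by
          simpa [mul_assoc] using e.sym (g⁻¹ * g') (by simpa [← hg', mul_assoc] using hw')⟩⟩, y1A⟩)
    have k2 := lt_of_le_not_ge (inf_le_left (a := (Q ⊓ MulAut.conj g • Q) ⊓ (Q ⊓ MulAut.conj g' • Q))
      (b := AA Q ι)) fun h => wA (h (x := w)
        ⟨mem_D.2 ⟨hw, hw'⟩, mem_D.2 ⟨hw, by simpa [← hg', mul_assoc] using t.zQ⟩⟩).2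
    have k0 : ⊥ < zpowers z := bot_lt_iff_ne_bot.2 (zpowers_ne_bot.2 t.z1)
    have k3 := (eq27 (e.d0 g y1Q y1Z) k0 k1 k2 inf_le_left).symm.trans
      (eq27 (e.d0 g' (hg' ▸ hw) (hg' ▸ fun h => wA (ZA h))) k0 k1 k2 inf_le_right)
    have c1 : ∀ {a b : G}, a * b = b * a → a * b * a⁻¹ ∈ zpowers b := fun h => by
      rw [h, mul_inv_cancel_right]; exact mem_zpowers _
    have n1 := nD t0 (g := g) (c1 (t.ιz slX)) (c1 (by rw [hg, ← e.jx, jc e]))
    have n2 := nD t0 (g := g') (c1 (t.ιz _)) (c1 (hg' ▸ cj w ha))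
    rw [← k3] at n2
    obtain ⟨h, h1, h2⟩ := exists_h t0 e m
    have n3 := nD t0 (g := g) (n := h) (by rw [← e.jz, h1]; exact inv_mem (mem_zpowers _))
      (by rw [hg, h1]; exact inv_mem (mem_zpowers _))
    obtain ⟨q, hq, h3⟩ := h2 (k⁻¹ * slX * k)
    have n4 : q ∈ normalizer ((Q ⊓ MulAut.conj g • Q : Subgroup G) : Set G) :=
      mem_normalizer_fintype fun x hx => by
        have := mul_mem (zpowers_le.2 zD (t.QQ q hq x hx.1)) hx
        rwa [inv_mul_cancel_right] at this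
    have n5 := h3 ▸ mul_mem n4 (mul_mem (mul_mem n3 n2) (inv_mem n3))
    obtain ⟨l, -, hl⟩ := (genF _ (by
      simpa [X3] using conj_pow (i := 3) (a := k⁻¹) (b := slX))).resolve_left (mt (mem_zp3 X3).2 hX)
    have n6 : slF ∈ (normalizer ((Q ⊓ MulAut.conj g • Q : Subgroup G) : Set G)).comap ι :=
      hl ▸ list_prod_mem fun x hx => by
        obtain ⟨i, -, rfl⟩ := List.mem_map.1 hx
        fin_cases i
        exacts [n1, n2, n5]
    have h4 := t.Qz _ (mem_D.1 ((mem_normalizer_iff.1 (inv_mem n6) w).1 (mem_D.2 ⟨hw, hw'⟩))).2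
    refine nw ?_
    rw [show ![1, -1, -1, 0] = mD ![1, -1, 1, 0] by decide, ← e.jd, ← hg]
    calc _ = ι slF * g * (g⁻¹ * ((ι slF)⁻¹ * w * (ι slF)⁻¹⁻¹) * g * z) * (ι slF * g)⁻¹ := by group
      _ = _ := by rw [h4]; group
  obtain ⟨v, hv⟩ := e.jA _ ha
  obtain ⟨n, n1, n2, hn⟩ := m.te v fun h0 => by
    obtain ⟨n, -, -, hn⟩ := m.tz v (fun e0 => wA (by
      rw [e0, j0 e, conj_eq_one_iff] at hv
      exact hv ▸ one_mem _)) h0
    exact nc ((ι k)⁻¹ * n) (by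
      rw [e.jz, ← hv] at hn
      calc _ = (ι k)⁻¹ * (n * z * n⁻¹) * ι k := by group
        _ = _ := by rw [hn]; group)
  have yQ := cQ t0 (t.ιz k) y1Q
  have mul : ∀ a b, NJ j a → NJ j b → NJ j (a * b) := fun a b ha hb v => by
    obtain ⟨v', h1⟩ := hb v
    obtain ⟨v'', h2⟩ := ha v'
    exact ⟨v'', by rw [← h2, ← h1]; group⟩
  have e1 : w = g * (g⁻¹ * w * g) * g⁻¹ := by group
  refine ⟨n * (ι k * (g * z * g⁻¹) * (ι k)⁻¹) * n⁻¹, by
    rw [conj_pow, t.Qe _ yQ, mul_one, mul_inv_cancel], mul _ _ (mul _ _ n1 (e.QN _ yQ)) n2,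
    fun v' h => hX (t.stab _ y1A y1Z _ ?_), ?_, ?_⟩
  · obtain ⟨v'', h'⟩ := n2 v'
    rw [← h, show ∀ y : G, n⁻¹ * (n * y * n⁻¹) * n⁻¹⁻¹ = y from fun y => by group] at h'
    rw [cj _ (h' ▸ mem_A e (h' ▸ yQ)), mul_inv_cancel_right, mul_inv_cancel]
    exact one_mem _
  · rw [← hn, ← hv, conj_mul, conj_mul, conj_mul, conj_mul, e1, conj_mul, conj_mul, t.Qz _ hw']
  · rw [← hn, ← hv, card_cj, card_cj, e1, card_cj]
    refine card_C t hw' fun ⟨i, hi⟩ => wA ?_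
    rw [e1, ← show z ^ i = _ from hi, ← conj_zpow]
    exact zpow_mem y1A i

end Cfsg.Agent.H43.HN6
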