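import Cfsg.Agent.H43.J4Z2
import Cfsg.Agent.H83.J4U
import Cfsg.Agent.Eqn.Cfsg_Agent_H43_JZ_PP

/-!
The number of pairs of involutions whose product has a power equal to the central involution.
-/

set_option autoImplicit false
set_option maxRecDepth 1000000

namespace Cfsg.Agent.H43.JZ

open Cfsg.Agent.H42 Cfsg.Agent.H83 Cfsg.Agent.H83.J4 Subgroup

theorem zpow_red {G : Type*} [Group G] [Finite G] {Q : Subgroup G} {g z : G} {n : ℕ} (hn : 0 < n)
    (h1 : g ^ n ∈ Q) (h2 : ∀ m, 0 < m → m < n → g ^ m ∉ Q) (hz : z ∈ Q) :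
    z ∈ zpowers g ↔ z ∈ zpowers (g ^ n) := by
  refine ⟨fun h => ?_, fun h => zpowers_le.2 (pow_mem (mem_zpowers g) n) h⟩
  obtain ⟨i, rfl⟩ := mem_powers_iff_mem_zpowers.2 h
  dsimp only at hz ⊢
  have e : g ^ i = (g ^ n) ^ (i / n) * g ^ (i % n) := by rw [← pow_mul, ← pow_add, Nat.div_add_mod]
  have h3 : i % n = 0 := by
    by_contra h0
    refine h2 _ (Nat.pos_of_ne_zero h0) (Nat.mod_lt i hn) ?_
    rw [e] at hz
    exact (Q.mul_mem_cancel_left (pow_mem h1 _)).1 hz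
  rw [e, h3, pow_zero, mul_one]
  exact pow_mem (mem_zpowers _) _

theorem mem_zpowers_sq {G : Type*} [Group G] [Finite G] {w z : G} (h1 : z ≠ 1)
    (hw : w * w = 1 ∨ w * w = z) : z ∈ zpowers w ↔ w = z ∨ w * w = z := by
  refine ⟨fun h => ?_, fun h => ?_⟩
  · refine Or.symm (hw.symm.imp_right fun hw' => ?_)
    obtain ⟨i, rfl⟩ := mem_powers_iff_mem_zpowers.2 h
    dsimp only at h1 ⊢
    rw [pow_eq_pow_mod i (show w ^ 2 = 1 by rw [pow_two, hw'])] at h1 ⊢
    rcases Nat.mod_two_eq_zero_or_one i with e | e <;> rw [e] at h1 ⊢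
    · exact absurd (pow_zero w) h1
    · exact (pow_one w).symm
  · rcases h with rfl | rfl
    · exact mem_zpowers _
    · exact mul_mem (mem_zpowers _) (mem_zpowers _)

theorem comm_of_mem {G : Type*} [Group G] {x y z : G} (hx : x * x = 1) (hy : y * y = 1)
    (zz : z * z = 1) (h : z ∈ zpowers (x * y)) : x * z = z * x ∧ y * z = z * y := by
  obtain ⟨n, rfl⟩ := h
  dsimp only at zz ⊢
  have ix := inv_eq_of_mul_eq_one_left hx
  have iy := inv_eq_of_mul_eq_one_left hy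
  have e : ((x * y) ^ n)⁻¹ = (x * y) ^ n := inv_eq_of_mul_eq_one_left zz
  have key : ∀ u : G, u * (x * y) * u⁻¹ = (x * y)⁻¹ → u * (x * y) ^ n = (x * y) ^ n * u := by
    intro u hu
    rw [← mul_inv_eq_iff_eq_mul, ← conj_zpow, hu, inv_zpow, e]
  refine ⟨key x ?_, key y ?_⟩
  · rw [mul_inv_rev, ← mul_assoc, hx, one_mul, iy]
  · rw [mul_inv_rev, mul_assoc, mul_inv_cancel_right, iy, ix]

theorem sq_of_conj {G : Type*} [Group G] {a b : G} (ha : a * a = 1) (h : IsConj a b) : b * b = 1 := by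
  obtain ⟨c, rfl⟩ := isConj_iff.1 h
  rw [conj_mul, ha]; simp

variable {G : Type*} [Group G]

theorem pow_ek (J : JA G) {k : G} {c a : ℕ} (hk : J.KD k c) (ha : a < 8192) (i : ℕ) :
    (J.e a * k) ^ i = J.e (NN (km c) (ko c) a i) * k ^ i := by
  induction i with
  | zero => rw [NN, J.e_zero]; simp
  | succ i ih => rw [pow_succ', ih, J.mul_ek ha (NN_lt hk.ok ha i) hk, ← pow_succ', act_actM, NN]

theorem kd_pow (J : JA G) {k : G} {c : ℕ} (hk : J.KD k c) (i : ℕ) :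
    ∃ d, J.KD (k ^ i) d ∧ km d = PP (km c) i := by
  induction i with
  | zero => exact ⟨k1, by rw [pow_zero]; exact Hyp.KD.one, km_k1⟩
  | succ i ih =>
    obtain ⟨d, h1, h2⟩ := ih
    exact ⟨_, by rw [pow_succ']; exact hk.mul h1, by rw [km_kmul, h2, PP]⟩

variable [Finite G]

theorem sq_ne_z (J : JL G) {j : G} {c : ℕ} (hj : J.KD j c) : j * j ≠ J.z := by
  intro e
  have z3 : J.z ^ 3 ≠ 1 := by
    rw [pow_succ, pow_two, J.toHyp.zz, one_mul]; exact J.toHyp.z_ne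
  have key : ∀ (u r : G) (d d' : ℕ), J.KD u d → J.KD r d' → r * r = 1 → J.toHyp.φ u = J.toHyp.φ r →
      u * u ≠ J.z := by
    intro u r d d' hu hr rr h e
    obtain ⟨n, -, h1⟩ := J.eq_of_φ hu hr h
    have h2 : u * u = J.ρ ^ n * r * (J.ρ ^ n * r) := by
      rcases h1 with rfl | rfl
      · rfl
      · have m : J.ρ ^ n * r ∈ J.HH := J.HH.mul_mem (J.HH.pow_mem J.ρH n) hr.mem
        rw [mul_assoc, ← mul_assoc J.z, ← J.toHyp.memH.mp m, mul_assoc _ J.z, J.toHyp.zz, mul_one]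
    have h3 : J.ρ ^ n * r * (J.ρ ^ n * r) = J.ρ ^ (n + (1 + ko d') * n) := by
      rw [pow_add, pow_mul, pow_add, pow_one, ← hr.ρ, conj_pow, inv_eq_of_mul_eq_one_left rr]
      group
    apply z3
    rw [← e, h2, h3, ← pow_mul, mul_comm, pow_mul, J.ρ3, one_pow]
  by_cases h1 : J.toHyp.φ j = 1
  · exact key j 1 c k1 hj Hyp.KD.one (mul_one 1) (by rw [h1, J.toHyp.φ_one]) e
  obtain ⟨g, hg, h2⟩ := d2_invol (J.toHyp.φ_mem j) (H49.orderOf_two_iff.mpr ⟨h1, by
    rw [← J.toHyp.φ_mul hj.mem hj.mem, e, J.toHyp.φ_z]⟩)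
  obtain ⟨w, d, hw, rfl⟩ := J.exists_kd hg
  obtain ⟨d', hw'⟩ := hw.inv
  have hu := (hw'.mul hj).mul hw
  have e' : w⁻¹ * j * w * (w⁻¹ * j * w) = J.z := by
    calc _ = w⁻¹ * (j * j) * w⁻¹⁻¹ := by group
      _ = _ := by rw [e, J.toHyp.conj_z hw'.mem]
  have e0 : ∀ g, J.toHyp.φ w * g * (J.toHyp.φ w)⁻¹ = J.toHyp.φ j → J.toHyp.φ (w⁻¹ * j * w) = g := by
    intro g h
    rw [J.toHyp.φ_mul (J.HH.mul_mem hw'.mem hj.mem) hw.mem, J.toHyp.φ_mul hw'.mem hj.mem,
      J.toHyp.φ_inv hw.mem, ← h]; group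
  have ky := J.ky 1 (by norm_num)
  rcases h2 with h2 | h2 | h2
  · exact key _ _ _ _ hu ky (J.ysq (by norm_num)) (by rw [e0 _ h2, ky.φ, kp_cy_one]) e'
  · exact key _ _ _ _ hu J.kd_σ1 J.σ1_sq (by rw [e0 _ h2, J.kd_σ1.φ, chk_vO.2.2.2.2.1]) e'
  · exact key _ _ _ _ hu J.kd_σ2 J.σ2_sq (by rw [e0 _ h2, J.kd_σ2.φ, chk_vO.2.2.2.2.2.1]) e'

theorem mem_Q_iff (J : JA G) {k : G} {c a : ℕ} (hk : J.KD k c) (ha : a < 8192) :
    J.e a * k ∈ J.Q ↔ km c = mI := by
  rw [J.Q.mul_mem_cancel_left (J.e_mem a ha)]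
  refine ⟨fun h => ?_, fun h => ?_⟩
  · rcases J.eq_of_kd_Q hk h with rfl | rfl
    · rw [J.code_eq hk Hyp.KD.one, km_k1]
    · rw [J.code_eq hk J.kd_z, km_k1]
  · rcases J.uniq1 hk h with rfl | rfl
    exacts [one_mem _, J.toHyp.zQ]

theorem phi (J : JL G) {x y k : G} {c a a' n : ℕ} (hx : IsConj J.z x) (hy : IsConj J.t y)
    (hk : J.KD k c) (ha : a < 8192) (ha' : a' < 8192) (hl : lo a' = lo a) (e : y * x = J.e a' * k)
    (hn : 0 < n) (h1 : PP (km c) n = mI) (h2 : ∀ m, 0 < m → m < n → PP (km c) m ≠ mI) :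
    J.z ∈ zpowers (x * y) ↔ fin n (NN (km c) (ko c) a n) = 1 := by
  have xx := sq_of_conj J.toHyp.zz hx
  have yy := sq_of_conj J.tt hy
  obtain ⟨k', hk', e'⟩ : ∃ k', J.KD k' c ∧ y * x = J.e a * k' := by
    rcases J.e_lo ha' ha hl with h | h
    · exact ⟨k, hk, by rw [e, h]⟩
    · exact ⟨_, J.kd_mul_z hk, by rw [e, h, mul_assoc, J.toHyp.memH.mp hk.mem]⟩
  clear e hk
  have hN := NN_lt (o := ko c) hk'.ok ha
  have e1 : zpowers (x * y) = zpowers (y * x) := by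
    rw [← zpowers_inv, mul_inv_rev, inv_eq_of_mul_eq_one_left xx, inv_eq_of_mul_eq_one_left yy]
  have hQ : ∀ m, (y * x) ^ m ∈ J.Q ↔ PP (km c) m = mI := fun m => by
    obtain ⟨d, d1, d2⟩ := kd_pow J.toJA hk' m
    rw [e', pow_ek J.toJA hk' ha, mem_Q_iff J.toJA d1 (hN m), d2]
  obtain ⟨d, d1, d2⟩ := kd_pow J.toJA hk' n
  have e2 := pow_ek J.toJA hk' ha n
  rw [← e'] at e2
  set N := NN (km c) (ko c) a n
  have e3 : (y * x) ^ n * (y * x) ^ n = J.z ^ qf (lo N) := by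
    rw [← J.e_sq (hN n), e2]
    rcases J.uniq1 d1 (d2.trans h1) with h | h <;> rw [h]
    · rw [mul_one]
    · rw [mul_assoc, ← mul_assoc J.z, ← J.toHyp.memH.mp (J.e_H (hN n)), mul_assoc _ J.z, J.toHyp.zz,
        mul_one]
  have q := qf_le (lo N)
  rw [e1, zpow_red hn ((hQ n).2 h1) (fun m a b h => h2 m a b ((hQ m).1 h)) J.toHyp.zQ,
    mem_zpowers_sq J.toHyp.z_ne (by
      rw [e3]; generalize qf (lo N) = s at *; interval_cases s <;> simp), fin_iff (hN n), or_comm]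
  refine or_congr ⟨fun h => J.toHyp.zpow_inj q le_rfl (by rw [← e3, h, pow_one]),
    fun h => by rw [e3, h, pow_one]⟩ ?_
  have hz : ∀ h : lo N = 0, J.e N = J.z ^ hi N := fun h => by
    rw [← J.e_shift (hi_le (hN n))]
    exact congrArg _ (eq_of_lo_hi (by rw [h, lo_shift]) (by rw [hi_shift]))
  have ev : n % 2 = 0 → k' ^ n = 1 := fun h => (J.uniq1 d1 (d2.trans h1)).resolve_right fun h3 => by
    obtain ⟨d', d3, -⟩ := kd_pow J.toJA hk' (n / 2)
    exact sq_ne_z J d3 (by rw [← pow_add, ← h3]; congr 1; omega)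
  constructor
  · intro h
    have h0 : lo N = 0 := by
      refine J.lo_of_e (hN n) (by norm_num : 0 < 8192) ?_
      rw [J.e_zero, one_mul]
      rw [e2] at h
      rcases J.uniq1 d1 (d2.trans h1) with h3 | h3 <;> rw [h3] at h
      · right; rw [← h, mul_one]
      · left; exact mul_eq_right.1 h
    refine ⟨h0, (Nat.mod_two_eq_zero_or_one n).symm.imp_right fun h3 => ?_⟩
    rw [e2, ev h3, mul_one, hz h0] at h
    exact J.toHyp.zpow_inj (hi_le (hN n)) le_rfl (by rw [h, pow_one])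
  · rintro ⟨h0, h3⟩
    rcases Nat.mod_two_eq_zero_or_one n with h4 | h4
    · rw [e2, ev h4, mul_one, hz h0, h3.resolve_left (by omega), pow_one]
    · have h5 : (y * x) ^ n ≠ 1 := fun h => J.t_B (hx.trans ((H9.isConj_of_odd yy xx
        (Odd.of_dvd_nat (Nat.odd_iff.2 h4) (orderOf_dvd_of_pow_eq_one h))).symm.trans hy.symm))
      rw [e2, hz h0] at h5 ⊢
      have := hi_le (hN n)
      rcases J.uniq1 d1 (d2.trans h1) with h | h <;> rw [h] at h5 ⊢ <;> generalize hi N = s at * <;>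
        interval_cases s <;> simp [J.toHyp.zz] at h5 ⊢

/-! ### Sums over cosets -/

/-- the matrix of an element -/
noncomputable def κ (J : JA G) (x : G) : ℕ :=
  Classical.epsilon fun M => ∃ a < 8192, ∃ k c, J.KD k c ∧ x = J.e a * k ∧ km c = M

theorem κ_ek (J : JA G) {k : G} {c a : ℕ} (hk : J.KD k c) (ha : a < 8192) : κ J (J.e a * k) = km c := by
  obtain ⟨b, hb, k', c', h1, h2, h3⟩ := Classical.epsilon_spec
    (p := fun M => ∃ b < 8192, ∃ k' c, J.KD k' c ∧ J.e a * k = J.e b * k' ∧ km c = M)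
    ⟨_, a, ha, k, c, hk, rfl, rfl⟩
  rw [κ, ← h3]
  rcases J.ek_eq ha hb hk h1 h2 with ⟨-, rfl⟩ | ⟨-, rfl⟩
  · rw [J.code_eq h1 hk]
  · rw [J.code_eq (J.kd_mul_z h1) hk]

variable [Fintype G]

open Classical in
/-- the sum over a coset -/
noncomputable def valM (J : JA G) (W : G → ℕ) (M : ℕ) : ℕ :=
  ∑ x ∈ Finset.univ.filter (fun x => x ∈ J.HH ∧ κ J x = M), W x

theorem valM_eq (J : JA G) (W : G → ℕ) {k : G} {c : ℕ} (hk : J.KD k c) :
    valM J W (km c) = ∑ a ∈ Finset.range 8192, W (J.e a * k) := by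
  classical
  refine (Finset.sum_bij (fun a _ => J.e a * k) (fun a ha => ?_) (fun a ha b hb e => ?_)
    (fun x hx => ?_) fun _ _ => rfl).symm
  · have ha := Finset.mem_range.1 ha
    exact Finset.mem_filter.2 ⟨Finset.mem_univ _, J.HH.mul_mem (J.e_H ha) hk.mem, κ_ek J hk ha⟩
  · exact J.e_inj _ (Finset.mem_range.1 ha) _ (Finset.mem_range.1 hb) (mul_right_cancel e)
  · obtain ⟨-, h1, h2⟩ := Finset.mem_filter.1 hx
    obtain ⟨a, ha, k', c', h3, rfl⟩ := J.decomp h1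
    rw [κ_ek J h3 ha] at h2
    rcases J.uniq hk h3 h2.symm with rfl | rfl
    · exact ⟨a, Finset.mem_range.2 ha, rfl⟩
    · exact ⟨_, Finset.mem_range.2 (xor_lt13 ha (by norm_num : 4096 < 8192)), by
        rw [← J.e_mul_z ha, mul_assoc, J.toHyp.memH.mp hk.mem]⟩

theorem valM_conj (J : JA G) (W : G → ℕ) {w r : G} {d c : ℕ} (hw : J.KD w d)
    (hk : J.KD (w * r * w⁻¹) c) :
    valM J W (km c) = ∑ a ∈ Finset.range 8192, W (w * (J.e a * r) * w⁻¹) := by
  rw [valM_eq J W hk]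
  obtain ⟨d', hw'⟩ := hw.inv
  refine (Finset.sum_bij (fun a _ => act d a) (fun a ha => ?_) (fun a ha b hb e => ?_)
    (fun b hb => ?_) fun a ha => ?_).symm
  · exact Finset.mem_range.2 (act_lt hw.ok (Finset.mem_range.1 ha))
  · have h1 := hw.conj _ (Finset.mem_range.1 ha)
    rw [e, ← hw.conj _ (Finset.mem_range.1 hb)] at h1
    exact J.e_inj _ (Finset.mem_range.1 ha) _ (Finset.mem_range.1 hb) (by simpa using h1)
  · have hb := Finset.mem_range.1 hb
    have h1 := act_lt hw'.ok hb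
    refine ⟨_, Finset.mem_range.2 h1, J.e_inj _ (act_lt hw.ok h1) _ hb ?_⟩
    rw [← hw.conj _ h1, ← hw'.conj _ hb]; group
  · rw [← hw.conj _ (Finset.mem_range.1 ha)]; congr 1; group

theorem chk_MIL : ∀ i < 6, mm (nth ML i) (nth MIL i) = mI ∧ okM (nth MIL i) = true := by
  decide +kernel

omit [Fintype G] in
theorem kd_step (J : JA G) {u : G} {c i : ℕ} (hi : i < 6) (hu : J.KD u c) :
    ∃ c', J.KD (J.k i * u * (J.k i)⁻¹) c' ∧ km c' = cjM i (km c) ∧ ko c' = ko c := by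
  have a := J.kd i hi
  obtain ⟨d, hd⟩ := a.inv
  have h1 : kmul d (nth KL i) = k1 := J.code_eq (hd.mul a) (by rw [inv_mul_cancel]; exact Hyp.KD.one)
  have h2 := congrArg km h1
  have h3 := congrArg ko h1
  rw [km_kmul, km_k1, (chk_KL i hi).2.1] at h2
  rw [ko_kmul hd.inD a.inD, ko_k1] at h3
  obtain ⟨m1, m2⟩ := chk_MIL i hi
  have h4 : km d = nth MIL i := eq_of_mv_eq (okM_iff.1 hd.ok).1 (okM_iff.1 m2).1 fun v hv => by
    conv_lhs => rw [← mv_mI hv, ← m1, ← mv_mm _ (okM_mm (chk_KL i hi).2.2.1 _) hv, ← mm_assoc, h2,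
      mv_mm _ m2 hv, mv_mI (mv_lt m2 hv)]
  refine ⟨_, (a.mul hu).mul hd, by rw [km_kmul, km_kmul, (chk_KL i hi).2.1, h4, cjM], ?_⟩
  rw [ko_kmul (a.mul hu).inD hd.inD, ko_kmul a.inD hu.inD, Nat.eq_of_xor_eq_zero h3, Nat.xor_comm,
    ← Nat.xor_assoc, Nat.xor_self, Nat.zero_xor]

omit [Fintype G] in
theorem mem_cl (J : JA G) {r w : G} {c d : ℕ} {ops : List ℕ} (hr : J.KD r c)
    (h : ∀ g < 6, ∀ x ∈ cl ops (km c), cjM g x ∈ cl ops (km c)) (hw : J.KD w d) :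
    ∃ c', J.KD (w * r * w⁻¹) c' ∧ km c' ∈ cl ops (km c) := by
  obtain ⟨w0, h1, c', h2, h3⟩ := J.kd_ind
    (fun d => ∃ w, J.KD w d ∧ ∃ c', J.KD (w * r * w⁻¹) c' ∧ km c' ∈ cl ops (km c))
    ⟨1, Hyp.KD.one, c, by simpa using hr, List.mem_cons_self⟩ (by
      rintro i hi d ⟨w, h1, c', h2, h3⟩
      obtain ⟨c'', h4, h5, -⟩ := kd_step J hi h2
      exact ⟨_, (J.kd i hi).mul h1, c'', by convert h4 using 1; group, h5 ▸ h i hi _ h3⟩) hw
  refine ⟨c', ?_, h3⟩
  rcases J.uniq h1 hw rfl with rfl | rfl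
  · exact h2
  · convert h2 using 1
    calc _ = w0 * (J.z * r * J.z⁻¹) * w0⁻¹ := by group
      _ = _ := by rw [← J.toHyp.memH.mp hr.mem, mul_inv_cancel_right]

/-- the matrices of the elements of order at most two -/
noncomputable def allK : List ℕ := mI :: (cl opsI (km (cy 1)) ++ (cl opsO1 (km cO1) ++ cl opsO2 (km cO2)))

theorem nodup_allK : allK.Nodup := by
  have h := ndChk
  rw [visK_eq, visK_eq, visK_eq] at h
  refine (List.Perm.nodup_iff ?_).1 (insAll_spec _ _ h).1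
  rw [List.perm_iff_count]
  intro a
  simp only [allK, cl, List.count_append, List.count_cons, List.count_reverse, List.count_nil]
  omega

theorem lt6 {g : ℕ} (h : g < 6) : g ∈ [0, 1, 2, 3, 4, 5] := by interval_cases g <;> simp

omit [Fintype G] in
theorem κ_mem (J : JL G) {u : G} (hu : u ∈ J.HH) (uu : u * u = 1) : κ J.toJA u ∈ allK := by
  have ky := J.ky 1 (by norm_num)
  rcases J.invol_H hu uu ky with h | ⟨h, hh, a, ha, e⟩
  · obtain ⟨a, ha, rfl⟩ := J.e_surj u h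
    rw [← mul_one (J.e a), κ_ek J.toJA Hyp.KD.one ha, km_k1]
    exact List.mem_cons_self
  obtain ⟨b, hb, w, d, hw, e1⟩ := J.decomp (J.HH.inv_mem hh)
  have key : ∀ r c ops, J.KD r c → (∀ g < 6, ∀ x ∈ cl ops (km c), cjM g x ∈ cl ops (km c)) →
      h * u * h⁻¹ = J.e a * r → κ J.toJA u ∈ cl ops (km c) := by
    intro r c ops hr h1 e
    obtain ⟨c', h2, h3⟩ := mem_cl J.toJA hr h1 hw
    have e2 : u = J.e (cjA c' b (act d a)) * (w * r * w⁻¹) := by
      rw [← J.conj_cjA h2 (act_lt hw.ok ha) hb, ← hw.conj a ha]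
      calc u = h⁻¹ * (h * u * h⁻¹) * h⁻¹⁻¹ := by group
        _ = _ := by rw [e, e1]; group
    rw [e2, cjA, κ_ek J.toJA h2 (qm_lt (qm_lt hb (act_lt hw.ok ha)) (act_lt h2.ok (qinv_lt hb)))]
    exact h3
  refine List.mem_cons_of_mem _ (List.mem_append.2 ?_)
  rcases e with e | e | e
  · exact Or.inl (key _ _ _ ky (fun g hg => (clChk_spec clI).2 g (lt6 hg)) e)
  · exact Or.inr (List.mem_append_left _ (key _ _ _ J.kd_σ1 (fun g hg => (clChk_spec clO1).2 g (lt6 hg)) e))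
  · refine Or.inr (List.mem_append_right _ (key _ _ _ J.kd_σ2 (fun g hg => ?_) e))
    interval_cases g
    exacts [(clChk_spec clO2a).2 _ (by simp), (clChk_spec clO2a).2 _ (by simp),
      (clChk_spec clO2b).2 _ (by simp), (clChk_spec clO2b).2 _ (by simp),
      (clChk_spec clO2c).2 _ (by simp), (clChk_spec clO2c).2 _ (by simp)]

theorem part (J : JL G) (W : G → ℕ) (h : ∀ x, W x ≠ 0 → x ∈ J.HH ∧ x * x = 1) :
    ∑ x, W x = valM J.toJA W mI + (((cl opsI (km (cy 1))).map (valM J.toJA W)).sum +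
      (((cl opsO1 (km cO1)).map (valM J.toJA W)).sum + ((cl opsO2 (km cO2)).map (valM J.toJA W)).sum)) := by
  classical
  have e : (allK.map (valM J.toJA W)).sum = ∑ x, W x := by
    rw [← List.sum_toFinset _ nodup_allK]
    have e1 : ∀ M, valM J.toJA W M =
        ∑ x ∈ (Finset.univ.filter fun x => x ∈ J.HH) with κ J.toJA x = M, W x := fun M => by
      rw [valM, Finset.filter_filter]
    rw [Finset.sum_congr rfl fun M _ => e1 M, Finset.sum_fiberwise_eq_sum_filter]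
    refine Finset.sum_subset (Finset.subset_univ _) fun x _ hx => ?_
    by_contra h0
    exact hx (Finset.mem_filter.2 ⟨Finset.mem_filter.2 ⟨Finset.mem_univ _, (h x h0).1⟩,
      List.mem_toFinset.2 (κ_mem J (h x h0).1 (h x h0).2)⟩)
  rw [← e, allK, List.map_cons, List.sum_cons, List.map_append, List.map_append, List.sum_append,
    List.sum_append]

omit [Fintype G] in
theorem rel_vis (J : JA G) {r : G} {c k pk : ℕ} (hr : J.KD r c) (hp : ∀ j < k, fld 16 pk j < 4096)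
    (ops : List ℕ) : ∀ s ∈ (km c, pk) :: vis (stp (rep k)) ops [(km c, pk)], ∃ w d c', J.KD w d ∧
      J.KD (w * r * w⁻¹) c' ∧ km c' = s.1 ∧ ko c' = ko c ∧
      ∀ j < k, fld 16 s.2 j = mv (km d) (fld 16 pk j) := by
  have h0 : ∃ w d c', J.KD w d ∧ J.KD (w * r * w⁻¹) c' ∧ km c' = (km c, pk).1 ∧ ko c' = ko c ∧
      ∀ j < k, fld 16 (km c, pk).2 j = mv (km d) (fld 16 pk j) :=
    ⟨1, k1, c, Hyp.KD.one, by simpa using hr, rfl, rfl, fun j hj => by rw [km_k1, mv_mI (hp j hj)]⟩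
  refine List.forall_mem_cons.2 ⟨h0, vis_inv _ ?_ ops _ (List.forall_mem_singleton.2 h0)⟩
  rintro i hi s ⟨w, d, c', h1, h2, h3, h4, h5⟩
  obtain ⟨c'', h6, h7, h8⟩ := kd_step J hi h2
  refine ⟨_, _, c'', (J.kd i hi).mul h1, by convert h6 using 1; group, by rw [h7, h3, stp],
    h8.trans h4, fun j hj => ?_⟩
  rw [stp]; dsimp only
  rw [fld_mvs hj, h5 j hj, ← mv_eq _ (mv_lt h1.ok (hp j hj)), km_kmul, (chk_KL i hi).2.1,
    mv_mm _ h1.ok (hp j hj)]

theorem cl_eq (C M B : ℕ) (ops : List ℕ) :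
    cl ops M = ((M, B) :: vis (stp C) ops [(M, B)]).map Prod.fst := by
  rw [List.map_cons, vis_map Prod.fst (step' := cjM) (fun _ _ => by rw [stp]), cl]; rfl

theorem sum_inv (J : JA G) (W : G → ℕ) {r : G} {c t : ℕ} (hr : J.KD r c) (ops : List ℕ)
    (h : ∀ w d, J.KD w d → ∑ a ∈ Finset.range 8192, W (w * (J.e a * r) * w⁻¹) = t) :
    ((cl ops (km c)).map (valM J W)).sum = (cl ops (km c)).length * t := by
  rw [← smul_eq_mul, ← List.sum_replicate, ← List.map_const']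
  refine congrArg _ (List.map_congr_left fun M hM => ?_)
  rw [cl_eq (rep 0) _ 0] at hM
  obtain ⟨s, hs, rfl⟩ := List.mem_map.1 hM
  obtain ⟨w, d, c', h1, h2, h3, -⟩ := rel_vis J hr (k := 0) (fun _ h => nomatch h) ops s hs
  rw [← h3, valM_conj J W h1 h2, h w d h1]

theorem sumL (f : ℕ → ℕ) {L : List ℕ} (h1 : L.Nodup) (h2 : ∀ a ∈ L, a < 8192)
    (h3 : ∀ a < 8192, a ∉ L → f a = 0) : ∑ a ∈ Finset.range 8192, f a = (L.map f).sum := by
  rw [← List.sum_toFinset _ h1]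
  exact (Finset.sum_subset (fun a ha => Finset.mem_range.2 (h2 a (List.mem_toFinset.1 ha)))
    fun a ha h => h3 a (Finset.mem_range.1 ha) (mt List.mem_toFinset.2 h)).symm

theorem cls0_spec {k My o b0 M B t : ℕ} {ops : List ℕ} (h : cls0 k My o b0 M B ops t = true) :
    (∀ s ∈ (M, B) :: vis (stp (rep k)) ops [(M, B)],
      ev (rep k) My o b0 s.1 s.2 = (ev (rep k) My o b0 s.1 s.2 - 1) + 1) ∧
    (((M, B) :: vis (stp (rep k)) ops [(M, B)]).map fun s => ev (rep k) My o b0 s.1 s.2 - 1).sum = t := by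
  unfold cls0 at h
  simp only [force_eq] at h
  rcases hf : ev (rep k) My o b0 M B with _ | r
  · rw [hf] at h; exact absurd h Bool.false_ne_true
  · rw [hf] at h
    obtain ⟨h1, h2⟩ := runV_spec _ _ _
      (show runV (rep k) (ev (rep k) My o b0) t ops [(M, B)] r = true from h)
    refine ⟨List.forall_mem_cons.2 ⟨by dsimp only; rw [hf]; rfl, h1⟩, ?_⟩
    rw [List.map_cons, List.sum_cons, ← h2]
    dsimp only
    rw [hf]; rfl

open Classical in
/-- the weight of a pair -/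
noncomputable def WX (J : JL G) (y x : G) : ℕ := if IsConj J.z x ∧ J.z ∈ zpowers (x * y) then 1 else 0

theorem xsum (J : JL G) {ry r : G} {b cy' c k pk t : ℕ} {OA ops : List ℕ} (hb : b < 8192)
    (hy : J.KD ry cy') (ht : IsConj J.t (J.e b * ry)) (hr : J.KD r c) (hk : k < 65535)
    (h1 : OA.Nodup) (h2 : ∀ a ∈ OA, a < 8192) (h3 : ∀ a < 8192, IsConj J.z (J.e a * r) ↔ a ∈ OA)
    (h4 : OA.map lo = (List.range k).map (fld 16 pk))
    (h : cls0 k (km cy') (ko cy' ^^^ ko c) (lo b) (km c) pk ops t = true) :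
    ((cl ops (km c)).map (valM J.toJA (WX J (J.e b * ry)))).sum = t := by
  obtain ⟨h5, h6⟩ := cls0_spec h
  have hp : ∀ j < k, fld 16 pk j < 4096 := fun j hj => by
    obtain ⟨a, -, e⟩ := List.mem_map.1 (h4 ▸ List.mem_map_of_mem (List.mem_range.2 hj) :
      fld 16 pk j ∈ OA.map lo)
    rw [← e]; exact lo_lt a
  rw [cl_eq (rep k) _ pk, List.map_map, ← h6]
  refine congrArg _ (List.map_congr_left fun s hs => ?_)
  obtain ⟨w, d, c', a1, a2, a3, a4, a5⟩ := rel_vis J.toJA hr hp ops s hs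
  have a6 := hy.mul a2
  have a7 : km (kmul cy' c') = mm (km cy') s.1 := by rw [km_kmul, a3]
  have a8 : ko (kmul cy' c') = ko cy' ^^^ ko c := by rw [ko_kmul hy.inD a2.inD, a4]
  obtain ⟨n, n1, n2, n3, n4⟩ := ev_spec hk hy.ok (xor_le_one (ko_le _) (ko_le _)) (lo_lt b)
    (fun v hv => by rw [← a7]; exact qf_cls (mv_lt a6.ok hv) hv (a6.cls v hv))
    (fun j => mv (km d) (fld 16 pk j)) (fun j hj => ⟨a5 j hj, mv_lt a1.ok (hp j hj)⟩) (h5 s hs)
  rw [n4, Function.comp, ← a3, valM_conj _ _ a1 a2, sumL _ h1 h2 fun a ha h => by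
    rw [WX, if_neg fun h' => h ((h3 a ha).1 ((conj_cj _ _).1 h'.1))], a3, ← a7, ← a8]
  rw [← a7] at n2 n3
  have e : ∀ a ∈ OA, WX J (J.e b * ry) (w * (J.e a * r) * w⁻¹) = ((fun v => fin n
      (NN (km (kmul cy' c')) (ko (kmul cy' c')) (lo b ^^^ mv (km cy') (mv (km d) v)) n)) ∘ lo) a := by
    intro a ha
    have lt := h2 a ha
    have c1 := (conj_cj w _).2 ((h3 a lt).2 ha)
    have l1 := act_lt a1.ok lt
    have := phi J c1 ht a6 (a := lo b ^^^ mv (km cy') (mv (km d) (lo a)))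
      (lt_trans (xor_lt12 (lo_lt b) (mv_lt hy.ok (mv_lt a1.ok (lo_lt a)))) (by norm_num))
      (qm_lt hb (act_lt hy.ok l1))
      (by rw [lo_qm, lo_act hy.ok, lo_act a1.ok,
        lo_of_lt (xor_lt12 (lo_lt b) (mv_lt hy.ok (mv_lt a1.ok (lo_lt a))))])
      (by rw [← J.mul_ek hb l1 hy, ← a1.conj a lt]; group) n1 n2 n3
    rw [WX, Function.comp]
    split_ifs with h'
    · exact (this.1 h'.2).symm
    · have h7 := @fin_le n (NN (km (kmul cy' c')) (ko (kmul cy' c'))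
        (lo b ^^^ mv (km cy') (mv (km d) (lo a))) n)
      have h8 := mt this.2 fun h'' => h' ⟨c1, h''⟩
      omega
  rw [List.map_congr_left e, ← List.map_map, h4, List.map_map, ← List.sum_toFinset _ List.nodup_range,
    List.toFinset_range]
  rfl

/-! ### The involutions in the four cosets -/

/-- membership in an orbit -/
noncomputable def orbL (c : ℕ) (gs : List ℕ) (a : ℕ) (l : List ℕ) : Bool :=
  orb (actsOf (cA c) gs) a 200 false fun t _ => allL t.mem l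

/-- multiplication by the central involution -/
def zl (l : List ℕ) : List ℕ := l.map fun a => Nat.xor a 4096

/-- the conjugates of the central involution in the extraspecial group -/
noncomputable def LQ : List ℕ :=
  (List.range 8192).filter fun a => Bool.or (Nat.beq a 4096) (Nat.beq (cls (lo a)) 3)

/-- the other involutions in the extraspecial group -/
noncomputable def LQ2 : List ℕ := (List.range 8192).filter fun a => Nat.beq (cls (lo a)) 2

theorem chk_Q : LQ.map lo = (List.range 1387).map (fld 16 pkQ) ∧ LQ2.length = 2772 ∧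
    cls (lo 5) = 2 ∧ cls (lo 4096) = 0 := by decide +kernel

theorem chk_I : allB (fun a => Bool.or (!Nat.beq (qm a (act (cy 1) a)) 0)
      (Bool.or (memL a (zl o0 ++ o96)) (memL a (o0 ++ (o47 ++ o156))))) 8192 = true ∧
    orbL (cy 1) gQR 0 o0 = true ∧ orbL (cy 1) gQR 4096 (zl o0) = true ∧
    orbL (cy 1) gQR 5 o96 = true ∧ orbL (cy 1) gQR 47 o47 = true ∧ orbL (cy 1) gQR 156 o156 = true ∧
    (zl o0 ++ o96).Nodup ∧ (o0 ++ (o47 ++ o156)).Nodup ∧
    (zl o0 ++ o96).map lo = (List.range 112).map (fld 16 pkI) ∧ km (cy 1) ≠ mI ∧ ko (cy 1) = 0 ∧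
    qm 0 (act (cy 1) 0) = 0 ∧ qm 47 (act (cy 1) 47) = 0 ∧ qm 156 (act (cy 1) 156) = 0 := by
  decide +kernel

theorem chk_O : allB (fun a => Bool.or (!Nat.beq (qm a (act cO1 a)) 0)
      (Bool.or (memL a s0) (memL a (zl s0)))) 8192 = true ∧
    orbL cO1 gQ 0 s0 = true ∧ orbL cO1 gQ 4096 (zl s0) = true ∧ s0.Nodup ∧ (zl s0).Nodup ∧
    s0.map lo = (List.range 64).map (fld 16 pkO1) ∧ (zl s0).map lo = (List.range 64).map (fld 16 pkO1) ∧
    km cO1 ≠ mI ∧ qm 0 (act cO1 0) = 0 ∧ qm 4096 (act cO1 4096) = 0 ∧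
    allB (fun a => Bool.or (!Nat.beq (qm a (act cO2 a)) 0) (memL a t0)) 8192 = true ∧
    orbL cO2 gQ 0 t0 = true ∧ t0.Nodup ∧ km cO2 ≠ mI ∧ qm 0 (act cO2 0) = 0 := by
  decide +kernel

omit [Finite G] [Fintype G] in
theorem orbL_spec (J : JA G) {r : G} {c a : ℕ} {gs l : List ℕ} (hr : J.KD r c)
    (hL : ∀ g ∈ gs, g < 8192 ∨ 8192 ≤ g ∧ ∃ k', J.KD k' g ∧ k' * r = r * k') (ha : a < 8192)
    (h : orbL c gs a l = true) :
    ∀ b ∈ l, b < 8192 ∧ ∃ h ∈ J.HH, h * (J.e a * r) * h⁻¹ = J.e b * r := fun b hb => by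
  obtain ⟨t, _, ht, h1⟩ := orb_true h
  exact J.reach_conj hr hL ha ((ht.mem_iff _).1 (allL_iff.1 h1 b hb))

omit [Finite G] [Fintype G] in
theorem sq_iff (J : JA G) {r : G} {c a : ℕ} (hr : J.KD r c) (rr : r * r = 1) (ha : a < 8192) :
    J.e a * r * (J.e a * r) = 1 ↔ qm a (act c a) = 0 := by
  rw [J.mul_ek ha ha hr, rr, mul_one, ← J.e_zero]
  exact ⟨J.e_inj _ (qm_lt ha (act_lt hr.ok ha)) _ (by norm_num), congrArg _⟩

omit [Fintype G] in
theorem tconj (J : JL G) {r : G} {c a : ℕ} (hr : J.KD r c) (rr : r * r = 1) (ha : a < 8192)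
    (h1 : km c ≠ mI) (h2 : qm a (act c a) = 0) (h3 : ¬ IsConj J.z (J.e a * r)) :
    IsConj J.t (J.e a * r) :=
  (J.two_classes (fun h => h1 ((mem_Q_iff J.toJA hr ha).1 (by rw [h]; exact one_mem _)))
    ((sq_iff J.toJA hr rr ha).2 h2)).resolve_left h3

omit [Finite G] [Fintype G] in
theorem conj_of {z x y : G} {H : Subgroup G} (h : ∃ h ∈ H, h * x * h⁻¹ = y) :
    IsConj z x ↔ IsConj z y := by
  obtain ⟨h, -, rfl⟩ := h
  exact (conj_cj _ _).symm

omit [Fintype G] in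
theorem cover_I (J : JL G) {a : ℕ} (ha : a < 8192) (h : J.e a * J.y 1 * (J.e a * J.y 1) = 1) :
    a ∈ zl o0 ++ o96 ∨ a ∈ o0 ++ (o47 ++ o156) := by
  have := of_allB chk_I.1 ha
  rw [(sq_iff J.toJA (J.ky 1 (by norm_num)) (J.ysq (by norm_num)) ha).1 h] at this
  simpa only [beq_iff.2 rfl, Bool.not_true, Bool.false_or, Bool.or_eq_true, memL_iff] using this

omit [Fintype G] in
theorem orb_I (J : JL G) {a : ℕ} {l : List ℕ} (ha : a < 8192) (h : orbL (cy 1) gQR a l = true) :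
    ∀ b ∈ l, b < 8192 ∧ ∃ h ∈ J.HH, h * (J.e a * J.y 1) * h⁻¹ = J.e b * J.y 1 :=
  orbL_spec J.toJA (J.ky 1 (by norm_num)) (J.gQR_ok (J.yρ (by norm_num))) ha h

omit [Fintype G] in
theorem y_B (J : JL G) : ¬ IsConj J.z (J.e 0 * J.y 1) := by rw [J.e_zero, one_mul]; exact J.hB

omit [Fintype G] in
theorem A_I (J : JL G) : ∀ a ∈ zl o0 ++ o96, a < 8192 ∧ IsConj J.z (J.e a * J.y 1) := fun a h => by
  rcases List.mem_append.1 h with h | h
  · have := orb_I J (by norm_num) chk_I.2.2.1 a h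
    refine ⟨this.1, (conj_of this.2).1 ?_⟩
    rw [J.e_z, ← J.yz (by norm_num)]; exact J.yz_A (by norm_num)
  · have := orb_I J (by norm_num) chk_I.2.2.2.1 a h
    exact ⟨this.1, (conj_of this.2).1 (J.orbits J.hn).2.1⟩

omit [Fintype G] in
theorem A_I_iff (J : JL G) : ∀ a < 8192, IsConj J.z (J.e a * J.y 1) ↔ a ∈ zl o0 ++ o96 := fun a ha => by
  refine ⟨fun h => (cover_I J ha (J.sq_of_A h)).resolve_right fun h1 => ?_, fun h => (A_I J a h).2⟩
  rcases List.mem_append.1 h1 with h1 | h1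
  · exact y_B J ((conj_of (orb_I J (by norm_num) chk_I.2.1 a h1).2).2 h)
  rcases List.mem_append.1 h1 with h1 | h1
  · exact J.e47_B ((conj_of (orb_I J (by norm_num) chk_I.2.2.2.2.1 a h1).2).2 h)
  · exact J.e156_B ((conj_of (orb_I J (by norm_num) chk_I.2.2.2.2.2.1 a h1).2).2 h)

omit [Fintype G] in
theorem lab_O1 (J : JL G) : ∃ (A B : List ℕ) (b : ℕ), A.Nodup ∧ (∀ a ∈ A, a < 8192) ∧
    (∀ a < 8192, IsConj J.z (J.e a * J.σ1) ↔ a ∈ A) ∧ A.map lo = (List.range 64).map (fld 16 pkO1) ∧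
    B.Nodup ∧ B.length = 64 ∧ b < 8192 ∧ lo b = 0 ∧ IsConj J.t (J.e b * J.σ1) ∧
    (∀ a ∈ B, a < 8192 ∧ ∃ h ∈ J.HH, h * (J.e b * J.σ1) * h⁻¹ = J.e a * J.σ1) ∧
    ∀ a < 8192, IsConj J.t (J.e a * J.σ1) → a ∈ B := by
  obtain ⟨c1, c2, c3, c4, c5, c6, c7, c8, c9, c10, -⟩ := chk_O
  have cov : ∀ a < 8192, J.e a * J.σ1 * (J.e a * J.σ1) = 1 → a ∈ s0 ∨ a ∈ zl s0 := fun a ha h => by
    have := of_allB c1 ha
    rw [(sq_iff J.toJA J.kd_σ1 J.σ1_sq ha).1 h] at this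
    simpa only [beq_iff.2 rfl, Bool.not_true, Bool.false_or, Bool.or_eq_true, memL_iff] using this
  have o1 := orbL_spec J.toJA J.kd_σ1 (J.gQ_ok _) (by norm_num) c2
  have o2 := orbL_spec J.toJA J.kd_σ1 (J.gQ_ok _) (by norm_num) c3
  have lab : IsConj J.z (J.e 0 * J.σ1) ↔ ¬ IsConj J.z (J.e 4096 * J.σ1) := by
    rw [J.e_zero, one_mul, J.e_z]; exact J.σ1_label
  by_cases h : IsConj J.z (J.e 0 * J.σ1)
  · refine ⟨s0, zl s0, 4096, c4, fun a ha => (o1 a ha).1, fun a ha => ⟨fun h1 =>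
      (cov a ha (J.sq_of_A h1)).resolve_right fun h2 => lab.1 h ((conj_of (o2 a h2).2).2 h1),
      fun h1 => (conj_of (o1 a h1).2).1 h⟩, c6, c5, rfl, by norm_num, rfl,
      tconj J J.kd_σ1 J.σ1_sq (by norm_num) c8 c10 (lab.1 h), o2, fun a ha h1 =>
      (cov a ha (sq_of_conj J.tt h1)).resolve_left fun h2 =>
        J.t_B (((conj_of (o1 a h2).2).1 h).trans h1.symm)⟩
  · have h' := not_not.1 (mt lab.2 h)
    refine ⟨zl s0, s0, 0, c5, fun a ha => (o2 a ha).1, fun a ha => ⟨fun h1 =>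
      (cov a ha (J.sq_of_A h1)).resolve_left fun h2 => h ((conj_of (o1 a h2).2).2 h1),
      fun h1 => (conj_of (o2 a h1).2).1 h'⟩, c7, c4, rfl, by norm_num, rfl,
      tconj J J.kd_σ1 J.σ1_sq (by norm_num) c8 c9 h, o1, fun a ha h1 =>
      (cov a ha (sq_of_conj J.tt h1)).resolve_right fun h2 =>
        J.t_B (((conj_of (o2 a h2).2).1 h').trans h1.symm)⟩

omit [Fintype G] in
theorem orb_O2 (J : JL G) :
    ∀ b ∈ t0, b < 8192 ∧ ∃ h ∈ J.HH, h * (J.e 0 * J.σ2) * h⁻¹ = J.e b * J.σ2 :=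
  orbL_spec J.toJA J.kd_σ2 (J.gQ_ok _) (by norm_num) chk_O.2.2.2.2.2.2.2.2.2.2.2.1

omit [Fintype G] in
theorem cover_O2 (J : JL G) {a : ℕ} (ha : a < 8192) (h : J.e a * J.σ2 * (J.e a * J.σ2) = 1) : a ∈ t0 := by
  have := of_allB chk_O.2.2.2.2.2.2.2.2.2.2.1 ha
  rw [(sq_iff J.toJA J.kd_σ2 J.σ2_sq ha).1 h] at this
  simpa only [beq_iff.2 rfl, Bool.not_true, Bool.false_or, memL_iff] using this

omit [Fintype G] in
theorem σ2_B' (J : JL G) : ¬ IsConj J.z (J.e 0 * J.σ2) := by rw [J.e_zero, one_mul]; exact J.σ2_B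

omit [Fintype G] in
theorem cls_of_sq (J : JL G) {a : ℕ} (ha : a < 8192) (h : J.e a * J.e a = 1) (h1 : J.e a ≠ 1) :
    a = 4096 ∨ cls (lo a) = 2 ∨ cls (lo a) = 3 := by
  have hq : qf (lo a) = 0 := J.toHyp.zpow_inj (qf_le _) (by norm_num) (by rw [← J.e_sq ha, h, pow_zero])
  rw [qf_eq (lo_lt a)] at hq
  have := cls_lt (lo a)
  by_cases h0 : cls (lo a) = 0
  · left
    rcases J.e_lo ha (by norm_num : 0 < 8192) ((cls_reach (lo_lt a)).1 h0) with e | e <;>
      rw [J.e_zero] at e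
    · exact absurd e h1
    · exact J.e_inj _ ha _ (by norm_num) (by rw [e, one_mul, J.e_z])
  · by_cases h : cls (lo a) = 1
    · simp [h] at hq
    · omega

omit [Fintype G] in
theorem A_Q_iff (J : JL G) : ∀ a < 8192, IsConj J.z (J.e a * 1) ↔ a ∈ LQ := fun a ha => by
  rw [mul_one, LQ, List.mem_filter, List.mem_range, Bool.or_eq_true, beq_iff, beq_iff]
  refine ⟨fun h => ⟨ha, ?_⟩, fun h => ?_⟩
  · rcases cls_of_sq J ha (J.sq_of_A h) (fun e => J.toHyp.z_ne (by simpa [e] using h)) with e | e | e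
    · exact Or.inl e
    · exact absurd (h.trans ((J.t_u36.trans (J.conj_cls2 ha e)).symm)) J.t_B
    · exact Or.inr e
  · rcases h.2 with rfl | e
    · rw [J.e_z]
    · exact J.conj_cls3 ha e

theorem Fval (J : JL G) {ry : G} {b cy' My o o' b0 tQ tI tO : ℕ} (hb : b < 8192) (hy : J.KD ry cy')
    (ht : IsConj J.t (J.e b * ry)) (e1 : km cy' = My) (e2 : ko cy' = o) (e3 : o ^^^ 1 = o')
    (e4 : lo b = b0) (hQ : cls0 1387 My o b0 mI pkQ [] tQ = true)
    (hI : cls0 112 My o b0 (km (cy 1)) pkI opsI tI = true)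
    (hO : cls0 64 My o' b0 (km cO1) pkO1 opsO1 tO = true) :
    ∑ x, WX J (J.e b * ry) x = tQ + (tI + tO) := by
  subst e1 e2 e3 e4
  obtain ⟨A, -, -, a1, a2, a3, a4, -⟩ := lab_O1 J
  have h1 := xsum J hb hy ht Hyp.KD.one (by norm_num) (List.nodup_range.filter _)
    (fun a ha => List.mem_range.1 (List.mem_filter.1 ha).1) (A_Q_iff J) chk_Q.1
    (by rw [ko_k1, km_k1, Nat.xor_zero]; exact hQ)
  have h2 := xsum J hb hy ht (J.ky 1 (by norm_num)) (by norm_num) chk_I.2.2.2.2.2.2.1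
    (fun a ha => (A_I J a ha).1) (A_I_iff J) chk_I.2.2.2.2.2.2.2.2.1
    (by rw [chk_I.2.2.2.2.2.2.2.2.2.2.1, Nat.xor_zero]; exact hI)
  have h3 := xsum J hb hy ht J.kd_σ1 (by norm_num) a1 a2 a3 a4
    (by rw [chk_vO.2.2.2.2.2.2.1]; exact hO)
  have h4 := sum_inv J.toJA (WX J (J.e b * ry)) J.kd_σ2 opsO2 (t := 0) fun w d _ =>
    Finset.sum_eq_zero fun a ha => by
      rw [WX, if_neg fun h => ?_]
      have h5 := (conj_cj _ _).1 h.1
      exact σ2_B' J ((conj_of (orb_O2 J a (cover_O2 J (Finset.mem_range.1 ha) (J.sq_of_A h5))).2).2 h5)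
  rw [part J _ fun x hx => ?_, h2, h3, h4, ← h1, km_k1]
  · simp [cl, vis]
  · have h5 : IsConj J.z x ∧ J.z ∈ zpowers (x * (J.e b * ry)) := by
      by_contra h; exact hx (if_neg h)
    exact ⟨J.toHyp.memH.2 (comm_of_mem (J.sq_of_A h5.1) (sq_of_conj J.tt ht) J.toHyp.zz h5.2).1,
      J.sq_of_A h5.1⟩

open Classical in
/-- the weight of an involution of the second class -/
noncomputable def WY (J : JL G) (y : G) : ℕ := if IsConj J.t y then ∑ x, WX J y x else 0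

theorem WY_conj (J : JL G) {h : G} (hh : h ∈ J.HH) (y : G) : WY J (h * y * h⁻¹) = WY J y := by
  classical
  refine if_congr (conj_cj _ _) ?_ rfl
  refine (Fintype.sum_equiv (MulAut.conj h).toEquiv _ _ fun x => ?_).symm
  show WX J y x = WX J (h * y * h⁻¹) (h * x * h⁻¹)
  have e : J.z ∈ zpowers (h * x * h⁻¹ * (h * y * h⁻¹)) ↔ J.z ∈ zpowers (x * y) := by
    rw [conj_mul]
    constructor <;> rintro ⟨n, hn⟩ <;> refine ⟨n, ?_⟩ <;> dsimp only at hn ⊢
    · rw [conj_zpow, ← J.toHyp.conj_z hh] at hn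
      simpa using hn
    · rw [conj_zpow, hn, J.toHyp.conj_z hh]
  exact (if_congr (and_congr (conj_cj _ _) e) rfl rfl).symm

theorem WY_ne (J : JL G) {y : G} (h : WY J y ≠ 0) : IsConj J.t y := by
  by_contra h1; exact h (if_neg h1)

theorem sum_const (J : JL G) {r : G} {b : ℕ} {L : List ℕ}
    (h : ∀ a ∈ L, a < 8192 ∧ ∃ h ∈ J.HH, h * (J.e b * r) * h⁻¹ = J.e a * r) :
    (L.map fun a => WY J (J.e a * r)).sum = L.length * WY J (J.e b * r) := by
  rw [← smul_eq_mul, ← List.sum_replicate, ← List.map_const']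
  refine congrArg _ (List.map_congr_left fun a ha => ?_)
  obtain ⟨-, h, hh, e⟩ := h a ha
  rw [← e, WY_conj J hh]

theorem ysum (J : JL G) {r : G} {c t : ℕ} (hr : J.KD r c) (ops : List ℕ)
    (h : ∑ a ∈ Finset.range 8192, WY J (J.e a * r) = t) :
    ((cl ops (km c)).map (valM J.toJA (WY J))).sum = (cl ops (km c)).length * t :=
  sum_inv J.toJA _ hr ops fun w d hw => by
    rw [← h]; exact Finset.sum_congr rfl fun a _ => WY_conj J hw.mem _

theorem sum_WY (J : JL G) : ∑ y, WY J y = 29236337328 := by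
  have ky := J.ky 1 (by norm_num)
  have yy := J.ysq (m := 1) (by norm_num)
  obtain ⟨-, i1, -, -, i2, i3, -, i4, -, i5, i6, i7, i8, i9⟩ := chk_I
  have hQ : ∑ a ∈ Finset.range 8192, WY J (J.e a * 1) = 2772 * 4544 := by
    have t5 : IsConj J.t (J.e 5 * 1) := by rw [mul_one]; exact J.t_u36
    rw [sumL _ (L := LQ2) (List.nodup_range.filter _)
      (fun a ha => List.mem_range.1 (List.mem_filter.1 ha).1) fun a ha h => ?_,
      sum_const J (b := 5) fun a ha => ?_, chk_Q.2.1, WY, if_pos t5,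
      Fval J (by norm_num) Hyp.KD.one t5 km_k1 ko_k1 rfl rfl vaQ vaI vaO1]
    · obtain ⟨h1, h2⟩ := List.mem_filter.1 ha
      rw [List.mem_range] at h1
      rw [mul_one, mul_one]
      exact ⟨h1, J.conj_of_cls h1 (by norm_num) ((beq_iff.1 h2).trans chk_Q.2.2.1.symm)
        (by rw [chk_Q.2.2.1]; norm_num)⟩
    · by_contra h0
      have h1 := WY_ne J h0
      rw [mul_one] at h1
      rcases cls_of_sq J ha (sq_of_conj J.tt h1) (fun e => J.t_ne (by simpa [e] using h1)) with e | e | e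
      · rw [e, J.e_z] at h1; exact J.t_B h1.symm
      · exact h (List.mem_filter.2 ⟨List.mem_range.2 ha, beq_iff.2 e⟩)
      · exact J.t_B ((J.conj_cls3 ha e).trans h1.symm)
  have hI : ∑ a ∈ Finset.range 8192, WY J (J.e a * J.y 1) = 16 * 9217 + (96 * 48032 + 96 * 48032) := by
    have o1 := orb_I J (by norm_num) i1
    have o2 := orb_I J (by norm_num) i2
    have o3 := orb_I J (by norm_num) i3
    have t1 := tconj J ky yy (by norm_num) i5 i7 (y_B J)
    have t2 := tconj J ky yy (by norm_num) i5 i8 J.e47_B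
    have t3 := tconj J ky yy (by norm_num) i5 i9 J.e156_B
    rw [sumL _ i4 (fun a ha => ?_) fun a ha h => ?_, List.map_append, List.map_append,
      List.sum_append, List.sum_append, sum_const J o1, sum_const J o2, sum_const J o3, WY, WY, WY,
      if_pos t1, if_pos t2, if_pos t3, Fval J (by norm_num) ky t1 rfl i6 rfl rfl vbQ vbI vbO1,
      Fval J (by norm_num) ky t2 rfl i6 rfl rfl vcQ vcI vcO1,
      Fval J (by norm_num) ky t3 rfl i6 rfl rfl vdQ vdI vdO1]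
    · rfl
    · rcases List.mem_append.1 ha with h | h
      · exact (o1 a h).1
      · exact (List.mem_append.1 h).elim (fun h => (o2 a h).1) fun h => (o3 a h).1
    · by_contra h0
      have h1 := WY_ne J h0
      exact J.t_B ((A_I J a ((cover_I J ha (sq_of_conj J.tt h1)).resolve_right h)).2.trans h1.symm)
  have hO1 : ∑ a ∈ Finset.range 8192, WY J (J.e a * J.σ1) = 64 * 5505 := by
    obtain ⟨-, B, b, -, -, -, -, b1, b2, b3, b4, b5, b6, b7⟩ := lab_O1 J
    rw [sumL _ b1 (fun a ha => (b6 a ha).1) fun a ha h => by_contra fun h0 => h (b7 a ha (WY_ne J h0)),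
      sum_const J b6, b2, WY, if_pos b5,
      Fval J b3 J.kd_σ1 b5 rfl chk_vO.2.2.2.2.2.2.1 rfl b4 veQ veI veO1]
  have hO2 : ∑ a ∈ Finset.range 8192, WY J (J.e a * J.σ2) = 128 * 33920 := by
    have t1 := tconj J J.kd_σ2 J.σ2_sq (by norm_num) chk_O.2.2.2.2.2.2.2.2.2.2.2.2.2.1
      chk_O.2.2.2.2.2.2.2.2.2.2.2.2.2.2 (σ2_B' J)
    rw [sumL _ chk_O.2.2.2.2.2.2.2.2.2.2.2.2.1 (fun a ha => (orb_O2 J a ha).1) fun a ha h =>
      by_contra fun h0 => h (cover_O2 J ha (sq_of_conj J.tt (WY_ne J h0))),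
      sum_const J (orb_O2 J), WY, if_pos t1,
      Fval J (by norm_num) J.kd_σ2 t1 rfl chk_vO.2.2.2.2.2.2.2.1 rfl rfl vfQ vfI vfO1]
    rfl
  rw [part J _ fun y hy => ?_, ysum J ky _ hI, ysum J J.kd_σ1 _ hO1, ysum J J.kd_σ2 _ hO2, ← km_k1,
    valM_eq _ _ Hyp.KD.one, hQ, (clChk_spec clI).1, (clChk_spec clO1).1, (clChk_spec clO2a).1]
  have h1 := WY_ne J hy
  rw [WY, if_pos h1] at hy
  obtain ⟨x, -, hx⟩ := Finset.exists_ne_zero_of_sum_ne_zero hy
  have h5 : IsConj J.z x ∧ J.z ∈ zpowers (x * y) := by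
    by_contra h; exact hx (if_neg h)
  exact ⟨J.toHyp.memH.2 (comm_of_mem (J.sq_of_A h5.1) (sq_of_conj J.tt h1) J.toHyp.zz h5.2).2,
    sq_of_conj J.tt h1⟩

omit [Fintype G] in
/-- The number of pairs of involutions from the two classes whose product has a power equal to the
central involution. -/
theorem card_nz (J : JL G) : Nat.card {p : G × G // IsConj J.z p.1 ∧ IsConj J.t p.2 ∧
    J.z ∈ zpowers (p.1 * p.2)} = 29236337328 := by
  classical
  let _ := Fintype.ofFinite G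
  rw [← sum_WY J, Nat.card_eq_fintype_card, Fintype.card_subtype, Finset.card_filter,
    Fintype.sum_prod_type_right]
  refine Finset.sum_congr rfl fun y _ => ?_
  unfold WY WX
  split_ifs with h
  · exact Finset.sum_congr rfl fun x _ => if_congr (and_congr_right' (and_iff_right h)) rfl rfl
  · exact Finset.sum_eq_zero fun x _ => if_neg fun h' => h h'.2.1

end Cfsg.Agent.H43.JZ
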