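import Cfsg.Agent.H43.K34T
import Cfsg.Agent.H74.MultL34
import Cfsg.Agent.H28.Transport
import Cfsg.Agent.H44.CkDefs
import Cfsg.Agent.S2559

/-! The class number of `L₃(4)`. -/

set_option autoImplicit false

namespace Cfsg.Agent.H43.K34

open Cfsg.Agent.H28 Cfsg.Agent.H44.CK

theorem kk_eq (F : Type) [Field F] [Fintype F] (hF : Fintype.card F = 4) :
    kk (Matrix.ProjectiveSpecialLinearGroup (Fin 3) F) = 10 := by
  obtain ⟨e⟩ := H74.ML34.equiv
  have h : grp 21 k_E0 = grp 21 H74.ML34.p_E := k_eq.symm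
  exact (S2559.card_congr (((pslEquiv (K := F4) (equivF4 hF) (Fin 3)).trans e.symm).trans
    (MulEquiv.subgroupCongr h.symm))).trans kt.card_conjClasses

theorem k34 : K34Stmt := fun F _ _ hF => by rw [kk_eq F hF]; decide

end Cfsg.Agent.H43.K34
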