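import Cfsg.Agent.H9.KCSpec

/-! Soundness of the leaf filter of the class equation search. -/

set_option autoImplicit false
set_option linter.unusedSectionVars false

namespace Cfsg.Agent.H43.KCL

open Finset Cfsg.Agent.H9.KC

universe u

theorem dvd_pow64 {n d : ℕ} (h0 : 0 < n) (h1 : n ≤ 2 ^ 64) (h : ∀ p, p.Prime → p ∣ n → p ∣ d) :
    n ∣ d ^ 64 := by
  refine (Nat.dvd_iff_prime_pow_dvd_dvd _ _).2 fun p k hp hk => ?_
  rcases Nat.eq_zero_or_pos k with rfl | k0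
  · simp
  have h2 : 2 ^ k ≤ 2 ^ 64 :=
    (Nat.pow_le_pow_left hp.two_le k).trans ((Nat.le_of_dvd h0 hk).trans h1)
  exact (pow_dvd_pow_of_dvd (h p hp ((dvd_pow_self p k0.ne').trans hk)) k).trans
    (pow_dvd_pow d ((Nat.pow_le_pow_iff_right one_lt_two).1 h2))

theorem cnt_eq {ι : Type u} [DecidableEq ι] {l : List ι} (hl : l.Nodup) (p : ι → Bool) :
    l.countP p = #{i ∈ l.toFinset | p i = true} := by
  rw [List.countP_eq_length_filter, ← List.toFinset_card_of_nodup (hl.filter _),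
    List.toFinset_filter]

theorem lab_sound {ι : Type u} {ts : List ℕ} {v : ℕ → ℕ → Bool} {f : List (ℕ × ℕ) → Bool}
    (ρ c : ι → ℕ) (l : List ι) (h : ∀ i ∈ l, ρ i ∈ ts ∧ v (ρ i) (c i) = true) (acc : List (ℕ × ℕ))
    (H : lab ts v f (l.map c) acc = true) :
    ¬ f ((l.map fun i => (ρ i, c i)).reverse ++ acc) = true := by
  induction l generalizing acc with
  | nil => exact (cond_false_left.1 H).1
  | cons i l ih =>
    change allL ts (fun t => cond (v t (c i)) (lab ts v f (l.map c) ((t, c i) :: acc)) true) = true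
      at H
    have := ih (fun j hj => h j (by simp [hj])) _
      (cond_true_right.1 (allL_iff.1 H _ (h i (by simp)).1) (h i (by simp)).2)
    simpa using this

theorem invK_sound {ι : Type u} {N K : ℕ} {P : List PP} {full : Bool} (ρ o c : ι → ℕ) {T : ℕ}
    (h1 : T * T ≤ T + (K - 1) * N) (h2 : ∀ x ∈ P, x.s = x.m → 2 ∣ x.e → x.m * N ≤ T * T)
    (l : List ι) (h : ∀ i ∈ l, o i = 2 → ρ i = 2) (t : ℕ) (cen al : Bool)
    (hc : cen = true ∨ ∃ i ∈ l, o i = 2 ∧ ¬ 2 ∣ N / c i)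
    (ha : al = true → (∀ i ∈ l, ρ i = 2 → o i = 2) → full = true)
    (ht : t + (l.map fun i => if o i = 2 then N / c i else 0).sum = T) :
    invK N K P full (l.map fun i => (ρ i, c i)) t cen al = true := by
  induction l generalizing t cen al with
  | nil =>
    obtain rfl : t = T := by simpa using ht
    refine cond_false_right.2 ⟨by simpa using hc, cond_false_right.2 ⟨cond_true_right.2 fun e =>
      ha e (by simp), cond_false_right.2 ⟨ble_iff.2 h1, allL_iff.2 fun x hx => ?_⟩⟩⟩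
    exact cond_true_right.2 fun e => cond_true_right.2 fun e' =>
      ble_iff.2 (h2 x hx (beq_iff.1 e) (dv_iff.1 e'))
  | cons i l ih =>
    have h' : ∀ j ∈ l, o j = 2 → ρ j = 2 := fun j hj => h j (by simp [hj])
    rw [List.map_cons, List.sum_cons] at ht
    change cond (Nat.beq (ρ i) 2) (cond (invK N K P full (l.map fun i => (ρ i, c i)) t cen false) true
      (invK N K P full (l.map fun i => (ρ i, c i)) (t + N / c i) (cond (dv 2 (N / c i)) cen true) al))
      (invK N K P full (l.map fun i => (ρ i, c i)) t cen al) = true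
    by_cases e : o i = 2
    · rw [beq_iff.2 (h i (by simp) e), cond_true]
      refine cond_true_left.2 (Or.inr (ih h' _ _ _ ?_ (fun a b => ha a fun j hj => ?_) ?_))
      · rcases hc with hc | ⟨j, hj, hc⟩
        · exact Or.inl (cond_true_right.2 fun _ => hc)
        rcases List.mem_cons.1 hj with rfl | hj
        · exact Or.inl (cond_true_right.2 fun k => absurd (dv_iff.1 k) hc.2)
        · exact Or.inr ⟨j, hj, hc⟩
      · rcases List.mem_cons.1 hj with rfl | hj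
        exacts [fun _ => e, b j hj]
      · rw [if_pos e] at ht; omega
    have hc' : cen = true ∨ ∃ j ∈ l, o j = 2 ∧ ¬ 2 ∣ N / c j := hc.imp_right fun ⟨j, hj, hk⟩ => by
      rcases List.mem_cons.1 hj with rfl | hj
      exacts [absurd hk.1 e, ⟨j, hj, hk⟩]
    rw [if_neg e, zero_add] at ht
    cases e' : Nat.beq (ρ i) 2
    · refine ih h' _ _ _ hc' (fun a b => ha a fun j hj => ?_) ht
      rcases List.mem_cons.1 hj with rfl | hj
      exacts [fun k => absurd (beq_iff.2 k) (by simp [e']), b j hj]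
    · exact cond_true_left.2 (Or.inl (ih h' _ _ _ hc' (fun a => absurd a (by simp)) ht))

variable {ι : Type u} [Fintype ι] {N : ℕ} {o c : ι → ℕ} {P : List PP} {So M : List ℕ}

theorem mem_Reg {i : ι} : i ∈ Reg o P ↔ o i ≠ 1 ∧ ∀ x ∈ P, ¬ x.q ∣ o i := by simp [Reg]

/-- the label of a class -/
def rho (So : List ℕ) (o : ι → ℕ) (i : ι) : ℕ := Nat.gcd (2 :: So).prod (o i)

theorem rho_dvd (i : ι) : rho So o i ∣ o i := Nat.gcd_dvd_right _ _

variable (hB : Base N o c) (hP : Pr N o P So M)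
include hB

theorem oN (i : ι) : o i ∣ N := (hB.a1.od i).trans (hB.a1.dvd i)

theorem cpos (i : ι) : 0 < c i := Nat.pos_of_dvd_of_pos (hB.a1.dvd i) hB.a1.pos

theorem opos (i : ι) : 0 < o i := Nat.pos_of_dvd_of_pos (oN hB i) hB.a1.pos

theorem ole (i : ι) : o i ≤ c i := Nat.le_of_dvd (cpos hB i) (hB.a1.od i)

include hP

omit hB in
theorem primes : ∀ q ∈ 2 :: So, q.Prime :=
  List.forall_mem_cons.2 ⟨Nat.prime_two, fun q hq => (hP.pS q hq).1⟩

omit hB in
theorem not_dvd {x : PP} (hx : x ∈ P) : ¬ x.q ∣ (2 :: So).prod := fun h => by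
  obtain ⟨h1, h2, -⟩ := hP.pP x hx
  obtain ⟨q, hq, e⟩ := (Prime.dvd_prod_iff h1.prime).1 h
  have e' := (Nat.prime_dvd_prime_iff_eq h1 (primes hP q hq)).1 e
  rcases List.mem_cons.1 hq with rfl | hq
  · omega
  · exact (hP.pS q hq).2.2.2.1 x hx e'

omit hB in
theorem not_four : ¬ 4 ∣ (2 :: So).prod := fun h => by
  rw [List.prod_cons] at h
  obtain ⟨q, hq, e⟩ := (Prime.dvd_prod_iff Nat.prime_two.prime).1
    (Nat.dvd_of_mul_dvd_mul_left two_pos (show 2 * 2 ∣ 2 * So.prod from h))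
  have := (Nat.prime_dvd_prime_iff_eq Nat.prime_two (hP.pS q hq).1).1 e
  have := (hP.pS q hq).2.1
  omega

omit hB in
theorem reg_of {i : ι} (h1 : o i ≠ 1) {k : ℕ} (h : o i ∣ (2 :: So).prod ^ k) : i ∈ Reg o P :=
  mem_Reg.2 ⟨h1, fun x hx e => not_dvd hP hx ((hP.pP x hx).1.dvd_of_dvd_pow (e.trans h))⟩

theorem kind0 {i : ι} (h1 : o i ≠ 1) {q : ℕ} (hq : q ∈ So) (h : ∀ r, r.Prime → r ∣ o i → r = q) :
    q * q ∣ c i ∨ ∃ p ∈ M, p < q ∧ p ∣ c i := by
  obtain ⟨h2, -, -, -, h3⟩ := hP.pS q hq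
  by_cases e : q * q ∣ N
  · exact Or.inl (hB.a1.sq i q h2 h e)
  obtain ⟨p, hp, h4, k, hk⟩ := h3.resolve_left e
  obtain ⟨j, hj, h5⟩ := hB.a1.pow k q ((dvd_mul_right q p).trans hk)
  have h6 : o i = q := by
    obtain ⟨r, hr, h6⟩ := Nat.exists_prime_and_dvd h1
    obtain ⟨a, ha⟩ := h r hr h6 ▸ h6
    by_contra h7
    obtain ⟨s, hs, h8⟩ := Nat.exists_prime_and_dvd (n := a) fun e => h7 (by rw [ha, e, mul_one])
    rw [h s hs (ha ▸ h8.mul_left q)] at h8
    exact e ((ha ▸ Nat.mul_dvd_mul_left q h8).trans (oN hB i))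
  exact Or.inr ⟨p, hp, h4, hB.a2.same q h2 e j i hj h6 ▸
    ((dvd_mul_left p q).trans hk).trans ((hB.a1.od k).trans h5)⟩

theorem sing_le {i : ι} (hi : i ∈ Reg o P) {x : PP} (hx : x ∈ P) (hd : x.q ∣ c i) {t : ℕ}
    (ht : t ≤ o i) : (3 * x.m + 1) * t ≤ 2 * x.m + 2 + x.s * t := by
  classical
  obtain ⟨h1, -, -, h2, h3, h4, -⟩ := hP.pP x hx
  obtain ⟨j, hj, -⟩ := hB.a1.ext i _ h1 hd ((mem_Reg.1 hi).2 x hx)
  obtain ⟨k, hk, h5⟩ := hB.a1.pow j x.q (hj ▸ dvd_mul_right _ _)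
  have hj' : j ∉ univ.filter (fun i => o i = x.q) := fun e => (mem_Reg.1 hi).1 (by
    have := (mem_filter.1 e).2
    rw [hj] at this
    exact Nat.eq_of_mul_eq_mul_left h1.pos (this.trans (mul_one _).symm))
  have hS : insert j (univ.filter fun i => o i = x.q) ⊆ univ.filter fun i => x.q ∣ o i :=
    insert_subset (by simp [hj]) fun a ha => by simp [(mem_filter.1 ha).2]
  have h6 : x.q * t ≤ c j := (Nat.mul_le_mul_left _ ht).trans (hj ▸ ole hB j)
  have b : ∀ a n, n ≤ c a → n * (N / c a) ≤ N := fun a n hn =>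
    (Nat.mul_le_mul_right _ hn).trans (Nat.mul_div_le _ _)
  have h7 : ∑ a ∈ insert j (univ.filter fun i => o i = x.q), x.q * t * (N / c a) ≤ (x.m + 1) * N := by
    rw [← h3, mC, ← card_insert_of_notMem hj', ← smul_eq_mul]
    refine sum_le_card_nsmul _ _ _ fun a ha => b a _ ?_
    rcases mem_insert.1 ha with rfl | ha
    · exact h6
    · rw [hB.a2.same _ h1 h2 a k (mem_filter.1 ha).2 hk]
      exact h6.trans (Nat.le_of_dvd (cpos hB k) h5)
  have h8 : ∑ a ∈ (univ.filter fun i => x.q ∣ o i) \ insert j (univ.filter fun i => o i = x.q),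
      x.q * 2 * (N / c a) ≤ (x.s - (x.m + 1)) * N := by
    rw [← h3, ← h4, mC, sC, ← card_insert_of_notMem hj', ← card_sdiff_of_subset hS, ← smul_eq_mul]
    refine sum_le_card_nsmul _ _ _ fun a ha => b a _ (le_trans ?_ (ole hB a))
    obtain ⟨e, e'⟩ := mem_sdiff.1 ha
    obtain ⟨n, hn⟩ := (mem_filter.1 e).2
    have := opos hB a
    have n1 : n ≠ 1 := fun k => e' (mem_insert_of_mem (by simp [hn, k]))
    have n0 : n ≠ 0 := fun k => by simp [hn, k] at this
    rw [hn]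
    exact Nat.mul_le_mul_left _ (by omega)
  have h9 := hB.a2.sing _ h1 h2
  have h10 := card_le_card hS
  rw [card_insert_of_notMem hj'] at h10
  change mC o x.q + 1 ≤ sC o x.q at h10
  rw [← sum_sdiff hS, h3] at h9
  rw [h3, h4] at h10
  rw [← mul_sum] at h7 h8
  obtain ⟨r, hr⟩ := Nat.exists_eq_add_of_le h10
  rw [hr, Nat.add_sub_cancel_left] at h8
  rw [hr]
  refine Nat.le_of_mul_le_mul_right ?_ hB.a1.pos
  have := Nat.mul_le_mul_left t h8
  have h11 := congrArg (2 * t * ·) h9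
  nlinarith

theorem mcheck {p : ℕ} (hp : p ∈ M) : ∃ j ∈ Reg o P, p ∣ c j := by
  obtain ⟨x, hx, rfl, h1⟩ := (hP.pM p).1 hp
  obtain ⟨-, -, -, h2, h3, h4, -⟩ := hP.pP x hx
  obtain ⟨k, ⟨a, ha⟩, hk⟩ : ∃ k, x.q ∣ o k ∧ o k ≠ x.q := by
    by_contra e
    push Not at e
    refine h1 (h3.symm.trans (Eq.trans ?_ h4))
    exact congrArg card (filter_congr fun i _ => ⟨fun h => h ▸ dvd_rfl, e i⟩)
  obtain ⟨j, hj, h5⟩ := hB.a1.pow k a (ha ▸ dvd_mul_left _ _)
  refine ⟨j, mem_Reg.2 ⟨fun e => hk (by rw [ha, ← hj, e, mul_one]), fun y hy e => h2 ?_⟩,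
    (ha ▸ dvd_mul_right _ _ : x.q ∣ o k).trans ((hB.a1.od k).trans h5)⟩
  rw [hj] at e
  rw [← hP.nadj x hx y hy k (ha ▸ dvd_mul_right _ _) (ha ▸ e.mul_left _)] at e
  exact (ha ▸ Nat.mul_dvd_mul_left _ e).trans (oN hB k)

variable (hC : Cpl N P So)
include hC

omit hP in
theorem prime_mem {i : ι} (hi : i ∈ Reg o P) {r : ℕ} (hr : r.Prime) (h : r ∣ o i) : r ∈ 2 :: So := by
  rcases hC r hr (h.trans (oN hB i)) with e | e | ⟨x, hx, e⟩
  exacts [by simp [e], by simp [e], absurd (e ▸ h) ((mem_Reg.1 hi).2 x hx)]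

omit hP in
theorem prime_rho {i : ι} (hi : i ∈ Reg o P) {r : ℕ} (hr : r.Prime) (h : r ∣ o i) :
    r ∣ rho So o i := Nat.dvd_gcd (List.dvd_prod (prime_mem hB hC hi hr h)) h

omit hP in
theorem rho_eq {i : ι} (hi : i ∈ Reg o P) {q : ℕ} (hq : q.Prime) (e : rho So o i = q) (r : ℕ)
    (hr : r.Prime) (h : r ∣ o i) : r = q :=
  (Nat.prime_dvd_prime_iff_eq hr hq).1 (e ▸ prime_rho hB hC hi hr h)

theorem vt_ok {i : ι} (hi : i ∈ Reg o P) : vt So M P (rho So o i) (c i) = true := by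
  have h1 := (mem_Reg.1 hi).1
  refine cond_false_left.2 ⟨fun e => ?_, cond_false_right.2 ⟨dv_iff.2 ((rho_dvd i).trans
    (hB.a1.od i)), cond_false_right.2 ⟨?_, allL_iff.2 fun x hx => cond_true_right.2 fun e =>
      ble_iff.2 (sing_le hB hP hi hx (dv_iff.1 e) (Nat.le_of_dvd (opos hB i) (rho_dvd i)))⟩⟩⟩
  · obtain ⟨r, hr, h⟩ := Nat.exists_prime_and_dvd h1
    have := Nat.le_of_dvd (Nat.pos_of_dvd_of_pos (rho_dvd i) (opos hB i)) (prime_rho hB hC hi hr h)
    have := hr.two_le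
    have := ble_iff.1 e
    omega
  cases e : Nat.beq (rho So o i) 2
  · refine cond_true_right.2 fun e' => ?_
    obtain ⟨q, hq, e'⟩ := anyL_iff.1 e'
    have e' := (beq_iff.1 e').symm
    rcases kind0 hB hP h1 hq (rho_eq hB hC hi (hP.pS q hq).1 e') with h | ⟨p, hp, -, h⟩
    · exact cond_true_left.2 (Or.inl (dv_iff.2 (e' ▸ h)))
    · exact cond_true_left.2 (Or.inr (anyL_iff.2 ⟨p, hp, dv_iff.2 h⟩))
  · exact dv_iff.2 (hB.a4.h8 i h1 (rho_eq hB hC hi Nat.prime_two (beq_iff.1 e)))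

theorem six_of {i : ι} (hi : i ∈ Reg o P) (e : c i = 6) : o i = 6 := by
  have h1 := (mem_Reg.1 hi).1
  have h2 : o i ∈ Nat.divisors 6 := Nat.mem_divisors.2 ⟨e ▸ hB.a1.od i, by norm_num⟩
  rw [show Nat.divisors 6 = {1, 2, 3, 6} by decide] at h2
  simp only [mem_insert, mem_singleton] at h2
  rcases h2 with h | h | h | h
  · exact absurd h h1
  · have := hB.a4.h8 i h1 fun r hr k => (Nat.prime_dvd_prime_iff_eq hr Nat.prime_two).1 (h ▸ k)
    omega
  · have h3 : 3 ∈ So := by simpa using prime_mem hB hC hi Nat.prime_three (h ▸ dvd_rfl)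
    rcases kind0 hB hP h1 h3 fun r hr k => (Nat.prime_dvd_prime_iff_eq hr Nat.prime_three).1 (h ▸ k)
      with k | ⟨p, hp, k, -⟩
    · omega
    · obtain ⟨x, hx, rfl, -⟩ := (hP.pM p).1 hp
      have := (hP.pP x hx).2.1
      omega
  · exact h

variable {l : List ι} (hl : l.Nodup) (hR : ∀ i, i ∈ l ↔ i ∈ Reg o P)
include hl hR

theorem frob_ok (hN : N ≤ 2 ^ 64) {d : ℕ} (hd : d ∣ (2 :: So).prod) :
    Nat.gcd N (d ^ 64) ∣ ((l.map fun i => (rho So o i, c i)).map fun y =>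
      cond (dv y.1 (d ^ 64)) (N / y.2) 0).sum + 1 := by
  classical
  obtain ⟨i0, h1, h2, h3⟩ := hB.a1.one
  have := hB.a1.frob _ (Nat.gcd_dvd_left N (d ^ 64))
  rw [← add_sum_erase _ _ (a := i0) (by simp [h1]), h2, Nat.div_self hB.a1.pos, add_comm] at this
  rw [List.map_map, ← List.sum_toFinset _ hl]
  convert this using 2
  rw [← sum_filter_add_sum_filter_not _ fun i => rho So o i ∣ d ^ 64,
    sum_eq_zero (s := filter (fun i => ¬ _) _) fun i hi => ?_, add_zero]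
  · refine sum_congr (ext fun i => ?_) fun i hi => ?_
    · simp only [mem_filter, List.mem_toFinset, hR, mem_erase, mem_univ, true_and, Nat.dvd_gcd_iff,
        oN hB i]
      refine ⟨fun h => ⟨fun e => (mem_Reg.1 h.1).1 (e ▸ h1), dvd_pow64 (opos hB i)
        ((Nat.le_of_dvd hB.a1.pos (oN hB i)).trans hN) fun p hp e =>
          hp.dvd_of_dvd_pow ((prime_rho hB hC h.1 hp e).trans h.2)⟩, fun h =>
        ⟨reg_of hP (fun e => h.1 (h3 i e)) (h.2.trans (pow_dvd_pow_of_dvd hd 64)),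
          (rho_dvd i).trans h.2⟩⟩
    · have : dv (rho So o i) (d ^ 64) = true := dv_iff.2 ((rho_dvd i).trans
        ((mem_filter.1 (mem_erase.1 hi).2).2.trans (Nat.gcd_dvd_right _ _)))
      simp [this]
  · have : dv (rho So o i) (d ^ 64) = false := by
      rw [← Bool.not_eq_true, dv_iff]; exact (mem_filter.1 hi).2
    simp [this]

theorem filt_ok {ND : List ℕ} (hD : ∀ d ∈ ND, ∃ i ∈ Reg o P, o i = d) (hN : N ≤ 2 ^ 64) :
    filt So ND P (Fintype.card ι) N (l.map fun i => (rho So o i, c i)) = true := by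
  classical
  have mem : ∀ {i}, i ∈ Reg o P → (rho So o i, c i) ∈ l.map fun i => (rho So o i, c i) :=
    fun hi => List.mem_map_of_mem ((hR _).2 hi)
  have all : ∀ {p : ℕ × ℕ → Bool}, (∀ i ∈ Reg o P, p (rho So o i, c i) = true) →
      allL (l.map fun i => (rho So o i, c i)) p = true := fun h =>
    allL_iff.2 (List.forall_mem_map.2 fun i hi => h i ((hR i).1 hi))
  have two : 2 ∣ (2 :: So).prod := List.dvd_prod (by simp)
  have r2 : ∀ i, o i = 2 → rho So o i = 2 := fun i e => by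
    rw [rho, e]; exact Nat.gcd_eq_right two
  have g2 : ∀ i, o i = 2 → i ∈ Reg o P := fun i e =>
    reg_of hP (by omega) (k := 1) (by rw [e, pow_one]; exact two)
  refine cond_false_right.2 ⟨allL_iff.2 fun d hd => dv_iff.2 ?_, cond_false_right.2 ⟨all fun i hi =>
    allL_iff.2 fun q hq => cond_mid.2 fun e => cond_true_right.2 fun e' => ?_,
    cond_false_right.2 ⟨allL_iff.2 fun d hd => ?_, cond_false_right.2 ⟨ble_iff.2 ?_,
      cond_false_right.2 ⟨?_, ?_⟩⟩⟩⟩⟩
  · rw [sumF_eq]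
    exact frob_ok hB hP hC hl hR hN (dvd_of_mem_divs hd)
  · have hq' := primes hP q hq
    have h1 : ¬ q ∣ o i := fun k => e (dv_iff.2 (Nat.dvd_gcd (List.dvd_prod hq) k))
    obtain ⟨j, hj, h2, h3⟩ := hB.a1.ext i q hq' (dv_iff.1 e') h1
    refine anyL_iff.2 ⟨_, mem (i := j) (mem_Reg.2 ⟨fun k => ?_, fun x hx k => ?_⟩),
      cond_false_right.2 ⟨beq_iff.2 ?_, cond_false_right.2 ⟨dv_iff.2 h2,
        cond_false_left.2 ⟨fun k => h3 (dv_iff.1 k), rfl⟩⟩⟩⟩
    · exact hq'.ne_one (Nat.eq_one_of_mul_eq_one_right (hj ▸ k))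
    · rcases (Nat.Prime.dvd_mul (hP.pP x hx).1).1 (hj ▸ k) with k | k
      exacts [not_dvd hP hx (k.trans (List.dvd_prod hq)), (mem_Reg.1 hi).2 x hx k]
    · change Nat.gcd _ (o j) = q * Nat.gcd _ (o i)
      rw [hj, ((Nat.Prime.coprime_iff_not_dvd hq').2 h1).gcd_mul,
        Nat.gcd_eq_right (List.dvd_prod hq)]
  · obtain ⟨i, hi, rfl⟩ := hD d hd
    exact anyL_iff.2 ⟨_, mem hi, cond_false_right.2 ⟨beq_iff.2 (by rw [prodL_eq]; rfl),
      dv_iff.2 (hB.a1.od i)⟩⟩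
  · rw [cntL_eq, cntL_eq, List.countP_map, List.countP_map, cnt_eq hl, cnt_eq hl]
    by_cases e : ∃ i ∈ Reg o P, c i = 6
    · obtain ⟨i, hi, e⟩ := e
      have h3 := List.dvd_prod (prime_mem hB hC hi Nat.prime_three
        (by rw [six_of hB hP hC hi e]; norm_num))
      refine (card_le_card fun j hj => ?_).trans (hB.a3.six.trans (card_le_card fun j hj => ?_))
      · obtain ⟨h1, h2⟩ := mem_filter.1 hj
        have h2 : c j = 6 := beq_iff.1 h2
        exact mem_filter.2 ⟨mem_univ _, six_of hB hP hC ((hR j).1 (List.mem_toFinset.1 h1)) h2, h2⟩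
      · obtain ⟨-, h1, h2⟩ := mem_filter.1 hj
        refine mem_filter.2 ⟨List.mem_toFinset.2 ((hR j).2 (reg_of hP (by omega) (k := 1)
          (by rw [h1, pow_one]; exact h3))), cond_false_right.2 ⟨beq_iff.2 ?_, beq_iff.2 ?_⟩⟩
        · change Nat.gcd _ (o j) = 3
          rw [h1]; exact Nat.gcd_eq_right h3
        · change c j % 4 = 2
          omega
    · exact (card_eq_zero.2 (filter_eq_empty_iff.2 fun j hj k =>
        e ⟨j, (hR j).1 (List.mem_toFinset.1 hj), beq_iff.1 k⟩)).trans_le (Nat.zero_le _)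
  · cases e1 : Nat.beq N 7920
    swap
    · exact all fun i _ => cond_false_left.2 ⟨fun k => hB.a5.m11 (beq_iff.1 e1) i (beq_iff.1 k), rfl⟩
    cases e2 : Nat.beq N 29120
    swap
    · exact all fun i _ => cond_false_left.2 ⟨fun k => hB.a5.sz (beq_iff.1 e2) i (beq_iff.1 k), rfl⟩
    cases e3 : Nat.beq N 20160
    swap
    · refine all fun i hi => cond_true_right.2 fun k => ?_
      have := hB.a5.l34 (beq_iff.1 e3) i (rho_eq hB hC hi Nat.prime_two (beq_iff.1 k))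
      exact cond_false_right.2 ⟨dv_iff.2 this.1, cond_true_right.2 fun k =>
        dv_iff.2 (this.2 (dv_iff.1 k))⟩
    refine cond_true_right.2 fun e4 => ?_
    obtain ⟨i, hi⟩ := hB.a5.u33 (beq_iff.1 e4)
    have h3 : 3 ∣ (2 :: So).prod := by
      rcases hC 3 Nat.prime_three (by rw [beq_iff.1 e4]; norm_num) with k | k | ⟨x, hx, k⟩
      · omega
      · exact List.dvd_prod (by simp [k])
      · exact absurd (by rw [k, beq_iff.1 e4]; norm_num) (hP.pP x hx).2.2.2.1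
    have h6 : 6 ∣ (2 :: So).prod := Nat.Coprime.mul_dvd_of_dvd_of_dvd (by norm_num) two h3
    refine anyL_iff.2 ⟨_, mem (reg_of hP (by omega) (k := 2) ((show o i ∣ 6 ^ 2 by
      rw [hi]; norm_num).trans (pow_dvd_pow_of_dvd h6 2))), cond_false_right.2 ⟨beq_iff.2 ?_,
        dv_iff.2 (hi ▸ hB.a1.od i)⟩⟩
    change Nat.gcd _ (o i) = 6
    have h4 := not_four hP
    rw [hi]
    obtain ⟨a, ha⟩ := h6
    rw [ha] at h4 ⊢
    rw [show 12 = 6 * 2 from rfl, Nat.gcd_mul_left, Nat.Coprime.gcd_eq_one, mul_one]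
    exact (Nat.coprime_two_right.2 (Nat.odd_iff.2 (by omega)))
  · refine invK_sound (rho So o) o c hB.a3.bf (fun x hx e e' => ?_) l (fun i _ => r2 i) 0 false true
      (Or.inr ?_) (fun _ h => all fun i hi => cond_true_right.2 fun k =>
        cond_false_left.2 ⟨fun k' => hB.a3.ab (fun j hj => ?_) i (h i ((hR i).2 hi) (beq_iff.1 k))
          (dv_iff.1 k'), rfl⟩) ?_
    · obtain ⟨h1, h2, -, h3, h4, h5, h6⟩ := hP.pP x hx
      exact h4 ▸ hB.a3.lb _ x.e h1 (by omega) h3 (by omega) (h4 ▸ h6) (even_iff_two_dvd.2 e')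
    · obtain ⟨i0, h1, h2, -⟩ := hB.a1.one
      obtain ⟨j, hj, -, h3⟩ := hB.a1.ext i0 2 Nat.prime_two (h2 ▸ hB.a4.two) (by omega)
      exact ⟨j, (hR j).2 (g2 j (by omega)), by omega, h2 ▸ h3⟩
    · have h4 := not_four hP
      have := h j ((hR j).2 (reg_of hP (by omega) (k := 2) ((show o j ∣ 2 ^ 2 by
        rw [hj]; norm_num).trans (pow_dvd_pow_of_dvd two 2)))) (by
        obtain ⟨a, ha⟩ := two
        rw [rho, hj]
        rw [ha] at h4 ⊢
        rw [show 4 = 2 * 2 from rfl, Nat.gcd_mul_left, Nat.Coprime.gcd_eq_one, mul_one]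
        exact (Nat.coprime_two_right.2 (Nat.odd_iff.2 (by omega))))
      omega
    · rw [zero_add, ← List.sum_toFinset _ hl, ← sum_filter, tot]
      refine sum_congr (ext fun i => ?_) fun _ _ => rfl
      simp only [mem_filter, List.mem_toFinset, hR, mem_univ, true_and]
      exact ⟨fun h => h.2, fun h => ⟨g2 i h, h⟩⟩

omit hB hP hC hl hR in
theorem leaf_sound : LeafStmt.{u} := by
  intro ι _ N o c P So M ND e2 l hB hP hC hl hR hD he H
  classical
  have H := cond_true_right.1 (cond_true_right.1 (cond_true_right.1 (cond_true_right.1 H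
    (cond_true_right.2 fun e => beq_iff.2 (he e))) (allL_iff.2 fun p hp => ?_)) ?_)
    (allL_iff.2 fun x hx => ble_iff.2 ?_)
  · rcases cond_true_left.1 H with H | H
    · simpa only [Out, outB, Bool.or_eq_true, Bool.and_eq_true, beq_iff, or_assoc] using H
    obtain ⟨h1, h2⟩ := cond_false_right.1 H
    refine absurd ?_ (lab_sound (rho So o) c l (fun i hi => ⟨mem_divs (primes hP)
      (Nat.gcd_dvd_left _ _), vt_ok hB hP hC ((hR i).1 hi)⟩) [] h2)
    rw [List.append_nil, ← List.map_reverse]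
    exact filt_ok hB hP hC (List.nodup_reverse.2 hl) (fun i => List.mem_reverse.trans (hR i)) hD
      (ble_iff.1 h1)
  · obtain ⟨j, hj, h⟩ := mcheck hB hP hp
    exact anyL_iff.2 ⟨_, List.mem_map_of_mem ((hR j).2 hj), dv_iff.2 h⟩
  · refine cond_mid.2 fun e => cond_true_left.2 ?_
    rcases hB.ol fun k => e (dv_iff.2 k) with k | k
    exacts [Or.inr (anyL_iff.2 ⟨N, k, beq_iff.2 rfl⟩), Or.inl (ble_iff.2 k)]
  · obtain ⟨h1, -, -, h2, h3, h4, -⟩ := hP.pP x hx
    rw [cntL_eq, List.countP_map, cnt_eq hl, ← h3, ← h4]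
    refine le_trans (Nat.add_le_add_right (card_le_card fun i hi => ?_) _) (hB.a2.inj _ h1 h2)
    obtain ⟨h5, h6⟩ := mem_filter.1 hi
    have := mem_Reg.1 ((hR i).1 (List.mem_toFinset.1 h5))
    exact mem_filter.2 ⟨mem_univ _, this.1, this.2 x hx, dv_iff.1 h6⟩

end Cfsg.Agent.H43.KCL
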