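import Mathlib
import Cfsg.Agent.H50.L81Defs
import Cfsg.Agent.H50.E8L2
import Cfsg.Agent.H50.E83Nact

/-! Elements of order `547` of `E₈(3)`. -/

set_option autoImplicit false

namespace Cfsg.Agent.H43.L81N7a

open Equiv Cfsg.Lie H37 H40 H34 H29 H50.E83 H50.L81

def a7 : List ℕ := [535, 21, 36, 439, 324, 122, 181, 1]

def w7 : List (Fin chevE8.rank) := (List.replicate 15 (List.finRange chevE8.rank)).flatten ++
  (List.finRange chevE8.rank).filter fun i => i.1 ≠ 1 ∧ i.1 ≠ 7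

set_option maxRecDepth 100000 in
theorem exists_w : ∃ w ∈ C8.S.W, ∀ r, (f7 (w r) : ZMod 547) = (3 : ℕ) * f7 r := by
  obtain ⟨w, hw, h⟩ := (rp_vN C8 547 a7).word (Nat.succ_pos _) (A := H50.E83.cartE8)
    (by decide +kernel)
    w7 (isAdd_vN C8 a7)
  have e : (w7.map Fin.val).foldl (svN 547 H50.E83.cartE8) a7 = a7.map (3 * · % 547) := by
    decide +kernel
  rw [e] at h
  have h3 : Rp C8 547 (a7.map (3 * · % 547)) fun r => (3 : ℕ) * vN C8 a7 r := fun j => by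
    have : ∀ j : Fin chevE8.rank, (((a7.map (3 * · % 547)).getD j 0 : ℕ) : ZMod 547) =
        3 * (a7.getD j 0 : ℕ) := by decide +kernel
    rw [this]; simp [vN_simple]
  refine ⟨w, hw, fun r => ?_⟩
  have h1 := h.vN_eq ((isAdd_vN C8 a7).comp hw) r
  have h2 := h3.vN_eq ((isAdd_vN C8 a7).mul (3 : ℕ)) r
  rw [h1, Int.cast_mul, Int.cast_natCast] at h2
  exact h2

theorem n7a : N7aStmt := by
  intro x ζ hx hx1 hζ
  have hs : Fact (Nat.Prime 547) := ⟨by norm_num⟩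
  obtain ⟨w, hw, h1⟩ := exists_w
  obtain ⟨y, hy⟩ := H50.E8L.lang_lab (algebraMap (ZMod 3) K) hw hζ
  obtain ⟨h, hl⟩ : ∃ h, Lab C8 ζ h f7 := exists_lab8 hζ (isAdd_vN C8 a7)
  obtain ⟨g, hg⟩ := hy hl h1
  have hg : ι g = y * h * y⁻¹ := hg
  have h2 : ∀ m : ℕ, ι (g ^ m) = y * h ^ m * y⁻¹ := fun m => by rw [map_pow, hg, conj_pow]
  have h3 : g ^ 547 = 1 := ι_injective (by rw [h2, hl.pow_eq_one hζ, map_one]; simp)
  have h4 : g ≠ 1 := fun e => by
    rw [e, map_one, eq_comm, conj_eq_one_iff, hl.eq_one_iff hζ] at hg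
    have := hg (C8.R.simple ⟨7, by decide⟩)
    rw [f7, vN_simple] at this
    revert this
    decide
  have h5 : orderOf g = 547 := orderOf_eq_prime h3 h4
  have h6 : ¬ 547 ^ 2 ∣ Nat.card G0 := by rw [H50.E8L.card_E8]; decide +kernel
  obtain ⟨z, hz⟩ := exists_conj_le (r := 547) (M := Subgroup.zpowers g) (Q := Subgroup.zpowers x)
    (fun hd => h6 (by
      rw [← (Subgroup.zpowers g).card_mul_index, Nat.card_zpowers, h5, sq]
      exact mul_dvd_mul_left _ hd)) (by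
      rintro ⟨_, i, rfl⟩
      exact ⟨1, Subtype.ext (by
        show (x ^ i) ^ 547 ^ 1 = 1
        rw [pow_one, ← zpow_natCast, zpow_comm, zpow_natCast, hx, one_zpow])⟩)
  have h7 := hz x (Subgroup.mem_zpowers x)
  rw [← (isOfFinOrder_of_finite g).mem_powers_iff_mem_zpowers] at h7
  obtain ⟨m, hm⟩ := h7
  have h8 : g ^ (m % 547) = z * x * z⁻¹ := by rw [← h5, pow_mod_orderOf]; exact hm
  refine ⟨m % 547, Nat.pos_of_ne_zero fun e => hx1 ?_, Nat.mod_lt _ (by decide), _,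
    hl.pow _, isConj_iff.2 ⟨(ι z)⁻¹ * y, ?_⟩⟩
  · rw [e, pow_zero, eq_comm, conj_eq_one_iff] at h8
    exact h8
  · have h9 := h2 (m % 547)
    rw [h8, map_mul, map_mul, map_inv] at h9
    calc (ι z)⁻¹ * y * h ^ (m % 547) * ((ι z)⁻¹ * y)⁻¹
        = (ι z)⁻¹ * (y * h ^ (m % 547) * y⁻¹) * ι z := by group
      _ = ι x := by rw [← h9]; group

end Cfsg.Agent.H43.L81N7a
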