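import Cfsg.Agent.H43.Aut
import Cfsg.Agent.H57.MPSM

/-!
# Permutation groups that are not the socle of a minimal parabolic: certificates
-/

set_option autoImplicit false

namespace Cfsg.Agent.H43

open Equiv MulAction Cfsg.Agent.H57.MPS

theorem good_top {G : Type*} [Group G] [Finite G] {Y₁ Y₂ : Subgroup G} {k m : ℕ}
    (hM : Nat.card G = 2 ^ k * m) (hm : Odd m) (hk : 0 < k) (hd : 2 ^ k ∣ Nat.card ↥(Y₁ ⊓ Y₂))
    (h1 : Y₁ ≠ ⊤) (h2 : Y₂ ≠ ⊤) (hg : Y₁ ⊔ Y₂ = ⊤) (ho : Nat.card (Cfsg.Out G) = 1) :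
    Good (⊤ : Subgroup G) :=
  good_of (Y₁ := Y₁) (Y₂ := Y₂) (R := Y₁ ⊓ Y₂) (Subgroup.card_top.trans hM) hm hk
    (le_inf le_top le_rfl) hd (fun e => h1 (top_le_iff.1 e)) (fun e => h2 (top_le_iff.1 e))
    (by rw [top_inf_eq, top_inf_eq, hg])
    (.inl ((H42.card_Out_congr Subgroup.topEquiv).trans ho))

/-- The orbits found along the chain are closed. -/
noncomputable def Ch.cl (E : List Net) (c : Ch) : Bool :=
  Ch.rec (motive := fun _ => Bool) true
    (fun b ws t ih => band (closedB (evalW F1 E) (appL ws t.gens)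
      (orb (evalW F1 E) (appL ws t.gens) (Nat.shiftLeft 1 b))) ih) c

theorem Ch.prod_dvd {n k L : ℕ} (hn : NOk n) {E : List Net} (hE : okE n E = true) {c : Ch}
    (h : c.ok n k L E = true) (h' : c.cl E = true) :
    c.prod n E ∣ Nat.card (wgrp n E c.gens) := by
  induction c with
  | nil => exact one_dvd _
  | cons b ws t ih =>
    obtain ⟨hb, h1, h2⟩ := Ch.ok_cons hn hE h
    obtain ⟨h3, h4⟩ := band_eq_true.1 h'
    have h5 := ncard_orbit_eq hn.2 (den_evalW (rep_F1 n) hE _) hb h3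
    rw [Ch.prod_cons, ← card_inf_stab_mul _ (⟨b, hb⟩ : Fin n), mul_comm]
    exact Nat.mul_dvd_mul ((ih h2 h4).trans
      (Subgroup.card_dvd_of_le (le_inf (Ch.tail_le n E b ws t) h1))) (dvd_of_eq h5.symm)

/-- Check of a chain whose product divides the order. -/
noncomputable def Ch.dchk (n k : ℕ) (E : List Net) (c : Ch) (N : ℕ) : Bool :=
  band (c.ok n k (lab n k) E) (band (c.cl E) (Nat.beq (c.prod n E) N))

theorem Ch.dvd_card_grp {n k : ℕ} (hn : NOk n) {E : List Net} (hE : okE n E = true) {c : Ch}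
    {N : ℕ} (h : c.dchk n k E N = true) : N ∣ Nat.card (grp n E) := by
  obtain ⟨h1, h2⟩ := band_eq_true.1 h
  obtain ⟨h2, h3⟩ := band_eq_true.1 h2
  rw [← Nat.eq_of_beq_eq_true h3]
  exact (Ch.prod_dvd hn hE h1 h2).trans (Subgroup.card_dvd_of_le (wgrp_le_grp _ _ _))

/-- The net fixes the set with mask `T`. -/
noncomputable def fxB (T : ℕ) (o : Net) : Bool := Nat.beq (o.app F1 T) T

theorem fxB_iff {n T : ℕ} {o : Net} (ho : o.ok n = true) :
    fxB T o = true ↔ o.toPerm n ∈ fixGrp n 1 T := by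
  have h := Net.mov_app (rep_F1 n) ho T
  refine ⟨fun e => ?_, fun e => ?_⟩
  · rw [Nat.eq_of_beq_eq_true e] at h; exact h
  · rw [fxB, h.unique e]; exact Nat.beq_refl _

theorem allL_fxB {n T : ℕ} {E : List Net} (hE : okE n E = true) :
    allL (fxB T) E = true ↔ grp n E ≤ fixGrp n 1 T := by
  rw [allL_iff, grp_le_iff]
  exact forall₂_congr fun o ho => fxB_iff (okE_iff.1 hE o ho)

theorem oneFix_of_fixAll {n k : ℕ} (hn : NOk n) (hk : n ≤ 2 ^ k) {E K : List Net}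
    (hE : okE n E = true) (hK : okE n K = true) (hle : grp n K ≤ grp n E) {a : ℕ} (ha : a < n)
    (h : band (Nat.beq (orb (Net.app F1) E (Nat.shiftLeft 1 a)) (full n))
      (Nat.beq (fixAll n k K) (Nat.shiftLeft 1 a)) = true) :
    OneFix (grp n E) (⟨a, ha⟩ : Fin n) := by
  obtain ⟨h1, h2⟩ := band_eq_true.1 h
  have h3 := fixAll_iff hn hk hK
  rw [Nat.eq_of_beq_eq_true h2, pset_one_shiftLeft ha] at h3
  exact ⟨grp_trans hE ha h1, fun b hb => (h3 b).2 fun o ho =>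
    hb _ (hle (toPerm_mem_grp ho)) ((h3 _).1 rfl o ho)⟩

/-- The combinatorial part of the certificate. -/
noncomputable def mpB (T₁ T₂ : ℕ) (E R Y : List Net) : Bool :=
  band (allL (fxB T₁) R) (band (allL (fxB T₂) R)
    (band (allL (fun o => Bool.rec (fxB T₂ o) true (fxB T₁ o)) Y)
      (band (Bool.rec true false (allL (fxB T₁) E)) (Bool.rec true false (allL (fxB T₂) E)))))

theorem good_perm {n : ℕ} {E R Y : List Net} (hE : okE n E = true) (hR : okE n R = true)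
    (hY : okE n Y = true) {k m T₁ T₂ : ℕ} (hM : Nat.card (grp n E) = 2 ^ k * m) (hm : Odd m)
    (hk : 0 < k) (hRE : grp n R ≤ grp n E) (hYE : grp n Y ≤ grp n E)
    (hd : 2 ^ k ∣ Nat.card (grp n R)) (hge : 2 ^ k * m ≤ Nat.card (grp n Y))
    (h : mpB T₁ T₂ E R Y = true)
    (ho : Nat.card (Cfsg.Out (grp n E)) = 1 ∨ (Nat.card (Cfsg.Out (grp n E)) = 2 ∧
      (∃ b, OneFix (grp n E) b) ∧ ∃ a : Net, a.ok n = true ∧
        a.toPerm n ∈ Subgroup.normalizer (grp n E : Set (Perm (Fin n))) ∧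
        band (fxB T₁ a) (fxB T₂ a) = true ∧ 2 ^ (k + 1) ∣ Nat.card (grp n (a :: R)))) :
    Good (grp n E) := by
  obtain ⟨c1, h⟩ := band_eq_true.1 h
  obtain ⟨c2, h⟩ := band_eq_true.1 h
  obtain ⟨c3, h⟩ := band_eq_true.1 h
  obtain ⟨c4, c5⟩ := band_eq_true.1 h
  refine good_of (Y₁ := fixGrp n 1 T₁) (Y₂ := fixGrp n 1 T₂) hM hm hk
    (le_inf hRE (le_inf ((allL_fxB hR).1 c1) ((allL_fxB hR).1 c2))) hd
    (fun e => by rw [(allL_fxB hE).2 e] at c4; exact absurd c4 (by simp))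
    (fun e => by rw [(allL_fxB hE).2 e] at c5; exact absurd c5 (by simp))
    ((Subgroup.eq_of_le_of_card_ge hYE (hM.le.trans hge)).ge.trans (grp_le_iff.2 fun o ho => ?_))
    (ho.imp_right ?_)
  · have h1 := allL_iff.1 c3 o ho
    have h2 := okE_iff.1 hY o ho
    have h3 := hYE (toPerm_mem_grp ho)
    cases e : fxB T₁ o with
    | true => exact Subgroup.mem_sup_left ⟨h3, (fxB_iff h2).1 e⟩
    | false =>
      simp only [e] at h1
      exact Subgroup.mem_sup_right ⟨h3, (fxB_iff h2).1 h1⟩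
  · rintro ⟨o1, ⟨b, hb⟩, a, a0, a1, a2, a3⟩
    obtain ⟨a2, a4⟩ := band_eq_true.1 a2
    refine ⟨o1, _, ⟨a1, (fxB_iff a0).1 a2, (fxB_iff a0).1 a4⟩,
      not_inner (fun _ => hb.eq_one) fun e => ?_⟩
    have h1 := a3.trans (Subgroup.card_dvd_of_le (grp_cons_le e hRE))
    rw [hM, pow_succ] at h1
    exact hm.not_two_dvd_nat (Nat.dvd_of_mul_dvd_mul_left (by positivity) h1)

end Cfsg.Agent.H43
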