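import Cfsg.Agent.H71.P3Defs

/-!
Multiplicities in the permutation characters on points, lines and flags.
-/

set_option autoImplicit false

namespace Cfsg.Agent.H43.P3M

open Cfsg Cfsg.Agent.H71.P3 Cfsg.Agent.H11
open scoped ComplexConjugate Classical

section col
variable {G A B : Type} [Group G] [MulAction G A] [MulAction G B]

theorem card_le_of_col {m : ℕ} (h : Col G (fun (_ : A) (_ : B) => True) m) :
    Nat.card (MulAction.orbitRel.Quotient G (A × B)) ≤ m := by
  obtain ⟨c, hc⟩ := h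
  refine (Nat.card_le_card_of_injective
    (fun q : MulAction.orbitRel.Quotient G (A × B) => c q.out.1 q.out.2) fun q q' e => ?_).trans
    (by simp)
  obtain ⟨g, h1, h2⟩ := hc _ _ _ _ trivial trivial e
  rw [← Quotient.out_eq q, ← Quotient.out_eq q']
  exact (Quotient.sound (MulAction.orbitRel_apply.2 ⟨g, Prod.ext h1 h2⟩)).symm

theorem col_or {R R' : A → B → Prop} {m n : ℕ} (h : Col G R m) (h' : Col G R' n) :
    Col G (fun a b => R a b ∨ R' a b) (m + n) := by
  obtain ⟨c, hc⟩ := h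
  obtain ⟨d, hd⟩ := h'
  refine ⟨fun a b => finSumFinEquiv (if R a b then Sum.inl (c a b) else Sum.inr (d a b)),
    fun a b a' b' r r' e => ?_⟩
  have e' := finSumFinEquiv.injective e
  by_cases h1 : R a b <;> by_cases h2 : R a' b'
  · rw [if_pos h1, if_pos h2] at e'
    exact hc _ _ _ _ h1 h2 (Sum.inl_injective e')
  · rw [if_pos h1, if_neg h2] at e'
    exact absurd e' Sum.inl_ne_inr
  · rw [if_neg h1, if_pos h2] at e'
    exact absurd e' Sum.inr_ne_inl
  · rw [if_neg h1, if_neg h2] at e'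
    exact hd _ _ _ _ (r.resolve_left h1) (r'.resolve_left h2) (Sum.inr_injective e')

theorem col_mono {R R' : A → B → Prop} {m : ℕ} (h : Col G R m) (k : ∀ a b, R' a b → R a b) :
    Col G R' m :=
  let ⟨c, hc⟩ := h
  ⟨c, fun a b a' b' r r' => hc a b a' b' (k _ _ r) (k _ _ r')⟩

theorem permChar_sum [Finite A] [Finite B] :
    permChar G (A ⊕ B) = permChar G A + permChar G B := by
  funext g
  rw [Pi.add_apply, permChar_apply, permChar_apply, permChar_apply, ← Nat.cast_add,
    ← Nat.card_sum]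
  congr 1
  refine Nat.card_congr (Equiv.subtypeSum.trans (Equiv.sumCongr
    (Equiv.subtypeEquivRight fun a => ?_) (Equiv.subtypeEquivRight fun b => ?_)))
  · exact Sum.inl_injective.eq_iff
  · exact Sum.inr_injective.eq_iff

theorem permChar_unit : permChar G PUnit.{1} = fun _ => 1 := by
  funext g
  rw [permChar_apply]
  have : Unique (MulAction.fixedBy PUnit.{1} g) :=
    ⟨⟨⟨PUnit.unit, rfl⟩⟩, fun _ => Subtype.ext rfl⟩
  simp

end col

section char
variable {G : Type} [Group G] [Fintype G]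

theorem two_le {φ ψ χ ξ : G → ℂ} (hφ : IsCharacter G φ) (hψ : IsCharacter G ψ)
    (hχ : IsIrrCharacter G χ) (hξ : IsIrrCharacter G ξ) (hne : χ ≠ ξ) {a b c d n : ℕ}
    (ha : classInner φ χ = a) (hb : classInner ψ χ = b) (hc : classInner φ ξ = c)
    (hd : classInner ψ ξ = d) (hn : classInner φ ψ = n) : a * b + c * d ≤ n := by
  have := Fintype.ofFinite (IrrCharacter G)
  choose u hu using fun η : IrrCharacter G => exists_nat_classInner hφ (irr_isCharacter η)
  choose v hv using fun η : IrrCharacter G => exists_nat_classInner hψ (irr_isCharacter η)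
  have h1 : n = ∑ η : IrrCharacter G, u η * v η := by
    refine Nat.cast_injective (R := ℂ) ?_
    rw [← hn, classInner_eq_sum (isClassFunction_of_isCharacter hφ), Nat.cast_sum]
    exact Finset.sum_congr rfl fun η _ => by rw [hu, hv, map_natCast, Nat.cast_mul]
  have e1 : u ⟨χ, hχ⟩ = a := Nat.cast_injective (R := ℂ) ((hu _).symm.trans ha)
  have e2 : v ⟨χ, hχ⟩ = b := Nat.cast_injective (R := ℂ) ((hv _).symm.trans hb)
  have e3 : u ⟨ξ, hξ⟩ = c := Nat.cast_injective (R := ℂ) ((hu _).symm.trans hc)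
  have e4 : v ⟨ξ, hξ⟩ = d := Nat.cast_injective (R := ℂ) ((hv _).symm.trans hd)
  have h2 : (⟨χ, hχ⟩ : IrrCharacter G) ≠ ⟨ξ, hξ⟩ := fun e => hne (congrArg Subtype.val e)
  rw [h1, ← e1, ← e2, ← e3, ← e4, ← Finset.sum_pair (f := fun η => u η * v η) h2]
  exact Finset.sum_le_sum_of_subset (Finset.subset_univ _)

theorem one_le {φ ψ χ : G → ℂ} (hφ : IsCharacter G φ) (hψ : IsCharacter G ψ)
    (hχ : IsIrrCharacter G χ) (hne : χ ≠ fun _ => 1) {a b n : ℕ}
    (ha : classInner φ χ = a) (hb : classInner ψ χ = b) (hn : classInner φ ψ = n) :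
    a * b ≤ n := by
  obtain ⟨c, hc⟩ := exists_nat_classInner hφ isCharacter_one
  obtain ⟨d, hd⟩ := exists_nat_classInner hψ isCharacter_one
  exact (Nat.le_add_right _ _).trans (two_le hφ hψ hχ isIrrCharacter_one hne ha hb hc hd hn)

/-- The numerical part. -/
theorem num {ρ₁ ρ₂ ρ₃ χ : G → ℂ} (h₁ : IsCharacter G ρ₁) (h₂ : IsCharacter G ρ₂)
    (h₃ : IsCharacter G ρ₃) (hθ : IsCharacter G (ρ₂ - ρ₁))
    (hζ : IsCharacter G ((ρ₃ + fun _ => 1) - (ρ₁ + ρ₁))) (hη : IsCharacter G (ρ₃ - ρ₂))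
    (o₁ : classInner ρ₁ (fun _ => 1) = 1) (o₃ : classInner ρ₃ (fun _ => 1) = 1)
    (p11 : classInner ρ₁ ρ₁ = (3 : ℕ)) {n12 n13 n22 n33 : ℕ} (p12 : classInner ρ₁ ρ₂ = n12)
    (p13 : classInner ρ₁ ρ₃ = n13) (p22 : classInner ρ₂ ρ₂ = n22) (p33 : classInner ρ₃ ρ₃ = n33)
    (l12 : n12 ≤ 3) (l13 : n13 ≤ 5) (l22 : n22 ≤ 6) (l33 : n33 ≤ 17)
    (hχ : IsIrrCharacter G χ) (hne : χ ≠ fun _ => 1) :
    ∃ a b c : ℕ, classInner ρ₁ χ = a ∧ classInner ρ₂ χ = b ∧ classInner ρ₃ χ = c ∧
      a ≤ 1 ∧ b ≤ 1 ∧ c ≤ 2 ∧ a ≤ c ∧ b ≤ c := by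
  have hc := isCharacter_of_irr hχ
  obtain ⟨a, ha⟩ := exists_nat_classInner h₁ hc
  obtain ⟨b, hb⟩ := exists_nat_classInner h₂ hc
  obtain ⟨c, hc'⟩ := exists_nat_classInner h₃ hc
  obtain ⟨t, ht⟩ := exists_nat_classInner hθ hc
  obtain ⟨z, hz⟩ := exists_nat_classInner hζ hc
  obtain ⟨y, hy⟩ := exists_nat_classInner hη hc
  obtain ⟨t1, ht1⟩ := exists_nat_classInner hθ h₁
  obtain ⟨z1, hz1⟩ := exists_nat_classInner hζ h₁
  obtain ⟨tt, htt⟩ := exists_nat_classInner hθ hθ
  obtain ⟨zz, hzz⟩ := exists_nat_classInner hζ hζ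
  have p21 := (classInner_comm_of_isCharacter h₂ h₁).trans p12
  have p31 := (classInner_comm_of_isCharacter h₃ h₁).trans p13
  have o₁' := (classInner_comm_of_isCharacter isCharacter_one h₁).trans o₁
  have o₃' := (classInner_comm_of_isCharacter isCharacter_one h₃).trans o₃
  have oo := classInner_irr_self (isIrrCharacter_one (G := G))
  have oχ := classInner_irr_of_ne isIrrCharacter_one hχ hne.symm
  have k1 := two_le h₁ h₁ hχ isIrrCharacter_one hne ha ha (c := 1) (d := 1) (by simpa using o₁)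
    (by simpa using o₁) p11
  have k2 := one_le hθ h₁ hχ hne ht ha ht1
  have k3 := one_le hζ h₁ hχ hne hz ha hz1
  have k4 := one_le hθ hθ hχ hne ht ht htt
  have k5 := one_le hζ hζ hχ hne hz hz hzz
  simp only [classInner_sub_left, classInner_sub_right, classInner_add_left, classInner_add_right,
    ha, hb, hc', p11, p12, p13, p21, p31, p22, p33, o₁, o₃, o₁', o₃', oo, oχ]
    at ht hz hy ht1 hz1 htt hzz
  have e1 : (b : ℤ) - a = t := by exact_mod_cast ht
  have e2 : (c : ℤ) + 0 - (a + a) = z := by exact_mod_cast hz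
  have e3 : (c : ℤ) - b = y := by exact_mod_cast hy
  have e4 : (n12 : ℤ) - 3 = t1 := by exact_mod_cast ht1
  have e5 : (n13 : ℤ) + 1 - (3 + 3) = z1 := by exact_mod_cast hz1
  have e6 : (n22 : ℤ) - n12 - (n12 - 3) = tt := by exact_mod_cast htt
  have e7 : (n33 : ℤ) + 1 - (n13 + n13) + (1 + 1 - (1 + 1)) -
      ((n13 + 1 - (3 + 3)) + (n13 + 1 - (3 + 3))) = zz := by exact_mod_cast hzz
  have f1 : t1 = 0 := by omega
  have f2 : z1 = 0 := by omega
  have f3 : tt ≤ 3 := by omega
  have f4 : zz ≤ 8 := by omega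
  have g1 : a ≤ 1 := by nlinarith
  have g2 : t ≤ 1 := by nlinarith
  have g3 : z ≤ 2 := by nlinarith
  refine ⟨a, b, c, ha, hb, hc', ?_⟩
  subst f1 f2
  interval_cases a <;> omega

end char

section geo
variable {F V : Type} [Field F] [Finite F] [AddCommGroup V] [Module F V] [Finite V] (S : Sp F V)

omit [Finite F] [Finite V] in
theorem exists_pt (L : S.Ln) : ∃ x : S.Pt, x.1 ≤ L.1 := by
  have h : L.1 ≠ ⊥ := fun e => by
    have := L.2.1
    rw [e] at this
    simp [dm] at this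
  obtain ⟨v, hv, h0⟩ := (Submodule.ne_bot_iff _).1 h
  exact ⟨⟨F ∙ v, finrank_span_singleton h0⟩, (Submodule.span_singleton_le_iff_mem _ _).2 hv⟩

omit [Finite F] [Finite V] in
theorem fins (p : S.Pt → Prop) (f : S.Pt → ℂ) [Fintype S.Pt] :
    ∑ᶠ (y : S.Pt) (_ : p y), f y = ∑ y, (if p y then 1 else 0) * f y := by
  rw [finsum_eq_sum_of_fintype]
  exact Finset.sum_congr rfl fun y _ => by rw [finsum_eq_if]; split_ifs <;> simp

end geo

theorem mult (mono : MonoStmt) (inj : InjStmt) (oa : OaStmt) (ob : ObStmt) (oc : OcStmt)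
    (od : OdStmt) (oe : OeStmt) : MultStmt := by
  intro F V _ _ _ _ _ S χ hχ hne
  obtain ⟨t1, -, t3, ⟨a0⟩, c11, c12, c13⟩ := oa S
  obtain ⟨i1, i2⟩ := inj S
  have := Fintype.ofFinite S.Pt
  have := Fintype.ofFinite S.Ln
  have : Nonempty S.Fl := ⟨a0⟩
  have : Nonempty S.Pt := ⟨⟨a0.1.1, a0.2.1⟩⟩
  have hθ := mono S.G S.Pt S.Ln (fun x L => if x.1 ≤ L.1 then 1 else 0)
    (fun g x L => by simp only [Sp.Pt_smul, Sp.Ln_smul, H71.P3.smul_le_smul])
    fun f hf => i1 f fun L => (fins S _ f).trans (hf L)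
  have hη := mono S.G S.Ln S.Fl (fun L a => if L.1 = a.1.2 then 1 else 0)
    (fun g L a => by simp only [Sp.Fl_smul2, Sp.Ln_smul, smul_left_cancel_iff])
    fun f hf => funext fun L => by
      obtain ⟨x, hx⟩ := exists_pt S L
      have h1 := hf ⟨(x.1, L.1), x.2, L.2, hx⟩
      rw [Finset.sum_eq_single L (fun M _ hM => by
        rw [if_neg fun e => hM (Subtype.ext e), zero_mul]) (by simp)] at h1
      simpa using h1
  have hζ := mono S.G (S.Pt ⊕ S.Pt) (S.Fl ⊕ PUnit.{1})
    (fun u w => Sum.elim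
      (fun x : S.Pt => Sum.elim (fun a : S.Fl => if x.1 = a.1.1 then (1 : ℂ) else 0)
        (fun _ => 1) w)
      (fun y : S.Pt => Sum.elim (fun a : S.Fl => if y.1 ≤ a.1.2 then (1 : ℂ) else 0)
        (fun _ => 0) w) u)
    (fun g u w => by
      rcases u with x | y <;> rcases w with a | a
      · simp only [Sum.smul_inl, Sum.elim_inl, Sp.Fl_smul1, Sp.Pt_smul, smul_left_cancel_iff]
      · rfl
      · simp only [Sum.smul_inl, Sum.smul_inr, Sum.elim_inl, Sum.elim_inr, Sp.Fl_smul2,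
          Sp.Pt_smul, H71.P3.smul_le_smul]
      · rfl)
    fun f hf => by
      obtain ⟨h1, h2⟩ := i2 (fun x => f (Sum.inl x)) (fun y => f (Sum.inr y))
        (by
          have h1 := hf (Sum.inr PUnit.unit)
          rw [finsum_eq_sum_of_fintype]
          simpa [Fintype.sum_sum_type] using h1)
        fun x L hx => by
          have h0 := hf (Sum.inl ⟨(x.1, L.1), x.2, L.2, hx⟩)
          rw [Fintype.sum_sum_type] at h0
          have h1 : ∑ y : S.Pt, (if y.1 = x.1 then (1 : ℂ) else 0) * f (Sum.inl y) +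
              ∑ y : S.Pt, (if y.1 ≤ L.1 then (1 : ℂ) else 0) * f (Sum.inr y) = 0 := h0
          rw [Finset.sum_eq_single x (fun y _ hy => by
            rw [if_neg fun e => hy (Subtype.ext e), zero_mul]) (by simp), if_pos rfl,
            one_mul] at h1
          rw [fins]
          exact h1
      funext u
      rcases u with x | y
      · exact congrFun h1 x
      · exact congrFun h2 y
  rw [permChar_sum, permChar_sum, permChar_unit] at hζ
  have c33 : Col S.G (fun (_ : S.Fl) (_ : S.Fl) => True) 17 :=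
    col_mono (col_or (col_or (oc S) (od S)) (oe S)) fun a b _ => by tauto
  exact num (isCharacter_permChar _) (isCharacter_permChar _) (isCharacter_permChar _) hθ hζ hη
    (classInner_permChar_one_of_isPretransitive _) (classInner_permChar_one_of_isPretransitive _)
    (by rw [classInner_permChar_permChar, c11]) (classInner_permChar_permChar _ _)
    (classInner_permChar_permChar _ _) (classInner_permChar_permChar _ _)
    (classInner_permChar_permChar _ _) (card_le_of_col c12) (card_le_of_col c13)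
    (card_le_of_col (ob S)) (card_le_of_col c33) hχ hne

end Cfsg.Agent.H43.P3M
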