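import Cfsg.Agent.H79.RbDefs
import Cfsg.Agent.H16.CycGen
import Cfsg.Agent.S0958
import Cfsg.Agent.H21.Feit
import Cfsg.Agent.H22.Transport
import Cfsg.Agent.H17.Numeric

/-! General criteria for the height bound by the index of the centre of a defect group. -/

set_option autoImplicit false

open Cfsg

namespace Cfsg.Agent.H43.RbCrit

open Cfsg.Agent.H79.RB

universe u v

theorem height_cyclic {G : Type u} [Group G] [Finite G] {p : ℕ} [Fact p.Prime]
    {M : Ideal AlgInt} (hM : IsPModular p M) {B : Set (IrrCharacter G)} (hB : IsPBlock M B)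
    {D : Subgroup G} (hD : IsDefectGroup p M B D) (hc : IsCyclic D) (h1 : D ≠ ⊥)
    {χ : IrrCharacter G} (hχ : χ ∈ B) : blockHeight p B (χ : G → ℂ) = 0 := by
  obtain ⟨Z, d⟩ := H16.exists_cycData hB hD hc h1
  obtain ⟨f, hf⟩ := (S0958.result p M hM Z (H18.Cz Z) d.isPGroup
    (sup_le (d.le.trans d.le_Cz) le_rfl) (H18.Cz_le_Nz Z) B hB).2
    ⟨D, hD, 1, by
      rintro _ ⟨z, hz, rfl⟩
      simpa using d.le hz⟩
  have hT : ∀ g, g ∈ H18.Nz Z ⊓ H18.stab (H18.bid M (H18.Cz Z) f) ↔
      g ∈ H18.Nz Z ∧ StabilizesBlock (H18.Cz Z) f g :=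
    fun g => and_congr_right fun hg => (H18.stabilizesBlock_Cz_iff hM.2.1 hf.1 hg).symm
  obtain ⟨X, Y, I, ε, t⟩ := d.exists_cycTree hM hf hT
  exact t.height_eq_zero hM d hχ

/-- The centre of a group of order `p ^ d`. -/
theorem center_data {D : Type u} [Group D] [Finite D] {p d : ℕ} [hp : Fact p.Prime]
    (hD : Nat.card D = p ^ d) : ∃ c, c ≤ d ∧ Nat.card (Subgroup.center D) = p ^ c ∧
      ((Subgroup.center D).index).factorization p = d - c ∧ (IsMulCommutative D ↔ c = d) ∧
      (¬ IsMulCommutative D → 1 ≤ c ∧ c + 2 ≤ d) := by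
  obtain ⟨c, hcd, hc⟩ := (Nat.dvd_prime_pow hp.out).1
    (hD ▸ Subgroup.card_subgroup_dvd_card (Subgroup.center D))
  have hi : (Subgroup.center D).index = p ^ (d - c) := by
    have h := (Subgroup.center D).card_mul_index
    rw [hc, hD, show d = c + (d - c) by omega, pow_add] at h
    have := Nat.eq_of_mul_eq_mul_left (pow_pos hp.out.pos c) h
    rw [this]
  have hiff : IsMulCommutative D ↔ c = d := by
    rw [← Subgroup.center_eq_top_iff, ← Subgroup.index_eq_one, hi, Nat.pow_eq_one]
    have := hp.out.one_lt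
    omega
  refine ⟨c, hcd, hc, by rw [hi, hp.out.factorization_pow, Finsupp.single_eq_same], hiff,
    fun hn => ⟨?_, ?_⟩⟩
  · have hd : d ≠ 0 := fun h => hn (hiff.2 (by omega))
    obtain ⟨k, hk, hk'⟩ := IsPGroup.card_center_eq_prime_pow hD (Nat.pos_of_ne_zero hd)
    rw [hc] at hk'
    have := Nat.pow_right_injective hp.out.two_le hk'
    omega
  · by_contra hlt
    have hcd' : c ≠ d := fun h => hn (hiff.2 h)
    have h1 : Nat.card (D ⧸ Subgroup.center D) = p := by
      rw [← Subgroup.index_eq_card, hi, show d - c = 1 by omega, pow_one]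
    have := isCyclic_of_prime_card h1
    exact hn (isMulCommutative_of_isCyclic_quotient_center_self D)

/-- An abelian subgroup that is larger than the centre. -/
theorem exists_abelian {D : Type u} [Group D] [Finite D] (hn : ¬ IsMulCommutative D) :
    ∃ A : Subgroup D, IsMulCommutative A ∧ Nat.card (Subgroup.center D) < Nat.card A := by
  rw [← Subgroup.center_eq_top_iff, Subgroup.eq_top_iff'] at hn
  push Not at hn
  obtain ⟨x, hx⟩ := hn
  let C : Subgroup D := Subgroup.centralizer {x}
  refine ⟨C ⊓ Subgroup.centralizer (C : Set D), ⟨⟨fun a b => Subtype.ext ?_⟩⟩, ?_⟩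
  · exact Subgroup.mem_centralizer_iff.1 b.2.2 a a.2.1
  · have hle : Subgroup.center D ≤ C ⊓ Subgroup.centralizer (C : Set D) :=
      le_inf (Subgroup.center_le_centralizer _) (Subgroup.center_le_centralizer _)
    by_contra h
    have he := Subgroup.eq_of_le_of_card_ge hle (not_lt.1 h)
    refine hx (he ▸ ⟨?_, ?_⟩)
    · exact Subgroup.mem_centralizer_iff.2 fun g hg => by rw [Set.mem_singleton_iff.1 hg]
    · exact Subgroup.mem_centralizer_iff.2 fun g hg =>
        (Subgroup.mem_centralizer_iff.1 hg x rfl).symm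

theorem critStmt : CritStmt := by
  intro G _ _ p hp M hM B hB D hD χ hχ
  have hcard := H17.dg_card hM hB hD
  obtain ⟨c, hcd, hc, hf, hiff, hnc⟩ := center_data hcard
  have h1 := H21.minNu_add_defect hM ⟨χ, hχ⟩
  have h2 : nu p χ = H21.minNu p B + blockHeight p B (χ : G → ℂ) :=
    H21.nu_eq_minNu_add_height (p := p) hχ
  have h3 : blockHeight p B (χ : G → ℂ) = 0 ∨
      blockHeight p B (χ : G → ℂ) + 2 ≤ blockDefect p B := by
    by_cases h0 : blockHeight p B (χ : G → ℂ) = 0
    · exact Or.inl h0
    · exact Or.inr (H21.height_add_two_le_defect hM hB hχ h0)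
  have hab : IsMulCommutative D → blockHeight p B (χ : G → ℂ) = 0 → RC p B D χ := fun h h0 => by
    have := hiff.1 h
    exact ⟨by omega, fun _ => h, fun _ => by omega⟩
  have hna : ¬ IsMulCommutative D → blockHeight p B (χ : G → ℂ) + c < blockDefect p B →
      RC p B D χ := fun h h0 => ⟨by omega, fun _ => by omega, fun h' => absurd h' h⟩
  have hp1 := hp.out.one_lt
  refine ⟨fun h => ?_, fun h => ?_, fun h h' => ?_, fun k hk h => ?_, fun k hk h h' => ?_,
    fun h => ?_⟩
  · rw [hcard, Nat.pow_le_pow_iff_right hp1] at h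
    refine hab ?_ (H21.height_eq_zero_of_defect_le_two hM hB h hχ)
    by_contra hn
    have := hnc hn
    omega
  · refine hab h.isMulCommutative ?_
    by_cases hb : D = ⊥
    · rw [hb, Subgroup.card_bot, eq_comm, Nat.pow_eq_one] at hcard
      omega
    · exact height_cyclic hM hB hD h hb hχ
  · have := hnc h
    have h4 : p ^ c ≤ p ^ 1 := by rw [← hc, pow_one]; exact h'
    rw [Nat.pow_le_pow_iff_right hp1] at h4
    exact hna h (by omega)
  · by_cases hn : IsMulCommutative D
    · have h4 := h D le_rfl hn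
      rw [hcard, Nat.pow_le_pow_iff_right hp1] at h4
      exact hab hn (by omega)
    · obtain ⟨A, hA, hA'⟩ := exists_abelian hn
      have h4 := h (A.map D.subtype) (Subgroup.map_subtype_le A) inferInstance
      rw [Subgroup.card_map_of_injective D.subtype_injective] at h4
      have h5 := hA'.trans_le h4
      rw [hc, Nat.pow_lt_pow_iff_right hp1] at h5
      exact hna hn (by omega)
  · rw [hc, Nat.pow_lt_pow_iff_right hp1] at h'
    exact hna h (by omega)
  · have h4 : blockDefect p B ≠ 0 := fun h0 => by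
      rw [h0, pow_zero, Subgroup.card_eq_one] at hcard
      exact h hcard
    omega

theorem transStmt : TransStmt.{v} := by
  rintro G H _ _ _ p _ ⟨e⟩ h M hM B hB D hD χ hχ
  have : Finite H := Finite.of_equiv G e.toEquiv
  have h1 := h M hM _ (H22.isPBlock_image e.symm hB) _ (H22.isDefectGroup_image e.symm hD)
    (H22.irrMap e.symm χ) ((H22.irrMap_mem_image e.symm B χ).2 hχ)
  have f : D ≃* D.map e.symm.toMonoidHom := e.symm.subgroupMap D
  have hi : (Subgroup.center (D.map e.symm.toMonoidHom)).index = (Subgroup.center D).index := by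
    have a1 := (Subgroup.center (D.map e.symm.toMonoidHom)).card_mul_index
    have a2 := (Subgroup.center D).card_mul_index
    rw [← Nat.card_congr f.toEquiv, ← Nat.card_congr (Subgroup.centerCongr f).toEquiv, ← a2] at a1
    exact Nat.eq_of_mul_eq_mul_left Nat.card_pos a1
  have hm : IsMulCommutative (D.map e.symm.toMonoidHom) ↔ IsMulCommutative D := by
    rw [← Subgroup.center_eq_top_iff, ← Subgroup.center_eq_top_iff, ← Subgroup.index_eq_one,
      ← Subgroup.index_eq_one, hi]
  unfold RC at h1 ⊢
  rwa [H22.blockHeight_image, hi, hm] at h1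

end Cfsg.Agent.H43.RbCrit
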