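import Cfsg.Agent.H79.RbDefs

/-! The `Q`-functions of weight `n` span the homogeneous part of weight `n`. -/

set_option autoImplicit false

open Cfsg Equiv Finset

namespace Cfsg.Agent.H43.RbSpan

open Cfsg.Agent.H79.RB

theorem sum_parts (m : ℕ →₀ ℕ) :
    ((Finsupp.toMultiset m).map fun i => 2 * i + 1).sum = wt m := by
  induction m using Finsupp.induction_linear with
  | zero => simp [wt]
  | add f g hf hg => rw [map_add, Multiset.map_add, Multiset.sum_add, hf, hg, wt_add]
  | single i k => 
    rw [wt_single, Finsupp.toMultiset_single, Multiset.map_nsmul, Multiset.sum_nsmul,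
      Multiset.map_singleton, Multiset.sum_singleton, smul_eq_mul, mul_comm]

theorem card_Mon_le (n : ℕ) : #(Mon n) ≤ #(Nat.Partition.distincts n) := by
  rw [← Nat.Partition.card_odds_eq_card_distincts, ← Fintype.card_coe, ← Fintype.card_coe]
  refine Fintype.card_le_of_injective (fun m : Mon n =>
    (⟨⟨(Finsupp.toMultiset m.1).map fun i => 2 * i + 1, fun {i} hi => ?_, ?_⟩, ?_⟩ :
      Nat.Partition.odds n)) ?_
  · obtain ⟨k, -, rfl⟩ := Multiset.mem_map.1 hi
    omega
  · rw [sum_parts, mem_Mon.1 m.2]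
  · simp only [Nat.Partition.odds, Nat.Partition.restricted, mem_filter, mem_univ, true_and]
    intro i hi
    obtain ⟨k, -, rfl⟩ := Multiset.mem_map.1 hi
    rw [Nat.not_even_iff_odd]
    exact ⟨k, rfl⟩
  · intro m m' h
    have h1 := congrArg (fun p : Nat.Partition.odds n => p.1.parts) h
    have h2 := Multiset.map_injective (f := fun i : ℕ => 2 * i + 1)
      (fun a b hab => by simpa using hab) h1
    refine Subtype.ext (Finsupp.ext fun i => ?_)
    rw [← Finsupp.count_toMultiset, h2, Finsupp.count_toMultiset]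

theorem ip_eq {n : ℕ} {P : Fk} (hP : Hom n P) (R : Fk) :
    ip P R = ∑ m : Mon n, MvPolynomial.coeff m.1 P * (nrm m.1 * MvPolynomial.coeff m.1 R) := by
  have h : P = ∑ m ∈ Mon n, MvPolynomial.monomial m (MvPolynomial.coeff m P) := by
    conv_lhs => rw [P.as_sum]
    refine Finset.sum_subset (fun m hm => mem_Mon.2 (hP m (MvPolynomial.mem_support_iff.1 hm)))
      fun m _ hm => ?_
    rw [MvPolynomial.notMem_support_iff.1 hm, map_zero]
  conv_lhs => rw [h]
  rw [map_sum, LinearMap.sum_apply, Finset.sum_coe_sort (Mon n)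
    fun m => MvPolynomial.coeff m P * (nrm m * MvPolynomial.coeff m R)]
  exact Finset.sum_congr rfl fun m _ => ip_monomial' _ _ _

theorem spanStmt (hB : BasicStmt) (hO : OrthStmt) : SpanStmt := by
  classical
  intro n P hP h0
  obtain ⟨-, -, -, -, -, -, -, -, -, -, hQ, -⟩ := hB
  let s : Nat.Partition.distincts n → Finset ℕ := fun p => p.1.parts.toFinset
  have hnd : ∀ p : Nat.Partition.distincts n, p.1.parts.Nodup := fun p => by
    have := p.2
    simpa only [Nat.Partition.distincts, mem_filter, mem_univ, true_and] using this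
  have hs0 : ∀ p, 0 ∉ s p := fun p h =>
    lt_irrefl 0 (p.1.parts_pos (Multiset.mem_toFinset.1 h))
  have hval : ∀ p, (s p).val = p.1.parts := fun p => by
    simp only [s, Multiset.toFinset_val, Multiset.dedup_eq_self.2 (hnd p)]
  have hsum : ∀ p, ∑ x ∈ s p, x = n := fun p => by
    rw [Finset.sum_eq_multiset_sum, hval, Multiset.map_id', p.1.parts_sum]
  have hinj : ∀ p p', s p = s p' → p = p' := fun p p' h =>
    Subtype.ext (Nat.Partition.ext (by rw [← hval, ← hval, h]))
  have hH : ∀ p, Hom n (QS (s p)) := fun p => by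
    have := hQ (s p)
    rwa [hsum] at this
  let Φ : (Mon n → ℂ) →ₗ[ℂ] (Nat.Partition.distincts n → ℂ) :=
    Matrix.toLin' (Matrix.of fun p m => nrm m.1 * MvPolynomial.coeff m.1 (QS (s p)))
  have hΦ : ∀ R, Hom n R → ∀ p, Φ (fun m => MvPolynomial.coeff m.1 R) p = ip R (QS (s p)) := by
    intro R hR p
    rw [ip_eq hR]
    simp only [Φ, Matrix.toLin'_apply, Matrix.mulVec, dotProduct, Matrix.of_apply]
    exact Finset.sum_congr rfl fun m _ => mul_comm _ _
  have hsurj : LinearMap.range Φ = ⊤ := by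
    rw [eq_top_iff, ← (Pi.basisFun ℂ (Nat.Partition.distincts n)).span_eq, Submodule.span_le]
    rintro _ ⟨p, rfl⟩
    refine ⟨((2 : ℂ) ^ #(s p))⁻¹ • fun m => MvPolynomial.coeff m.1 (QS (s p)), ?_⟩
    rw [map_smul]
    funext p'
    rw [Pi.smul_apply, hΦ _ (hH p), hO _ _ (hs0 p) (hs0 p'), Pi.basisFun_apply]
    by_cases h : p' = p
    · subst h
      simp
    · rw [if_neg fun h' => h (hinj _ _ h').symm, Pi.single_eq_of_ne h, smul_zero]
  have hker : LinearMap.ker Φ = ⊥ := by
    have h1 := LinearMap.finrank_range_add_finrank_ker Φ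
    rw [hsurj, finrank_top, Module.finrank_fintype_fun_eq_card,
      Module.finrank_fintype_fun_eq_card, Fintype.card_coe, Fintype.card_coe] at h1
    have h2 := card_Mon_le n
    exact Submodule.finrank_eq_zero.1 (by omega)
  have hv : (fun m : Mon n => MvPolynomial.coeff m.1 P) = 0 := by
    rw [← Submodule.mem_bot ℂ, ← hker, LinearMap.mem_ker]
    funext p
    rw [hΦ P hP, h0 _ (hs0 p) (hsum p), Pi.zero_apply]
  ext m
  by_contra hm
  exact hm (congrFun hv ⟨m, mem_Mon.2 (hP m hm)⟩)

end Cfsg.Agent.H43.RbSpan
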