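import Cfsg.Agent.H56.SpDefs
import Cfsg.Agent.H67.Conj

/-! Project CY, chapter SP: the piece C3. -/

set_option autoImplicit false

namespace Cfsg.Agent.H43.SpC3

open Subgroup MulAction Cfsg.Agent.H11.Cy Cfsg.Agent.H56.Sp

theorem c3 : C3Stmt := by
  intro G _ _ Ω _ _ p A h hy bb c1 c2 x y x' y' z u pr j hj
  obtain ⟨-, hT, t, ht, ft⟩ := bb x y x' y' z u pr
  have hN : Fl A x y ⊔ Tl A x' y' z ≤ Nl A x y := sup_le le_normalizer hT
  have hK : Nl A x y ≤ normalizer (Kl A x y : Set G) := fun g hg => mem_normalizer_fintype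
    fun k hk f hf => by
      have := hk _ ((mem_normalizer_iff''.1 hg f).1 hf)
      calc f * (g * k * g⁻¹) = g * (g⁻¹ * f * g * k) * g⁻¹ := by group
        _ = _ := by rw [this]; group
  have e : Kl A x y ⊔ (Fl A x y ⊔ Tl A x' y' z) = Nl A x y := by
    refine le_antisymm (sup_le (centralizer_le_normalizer _) hN) fun g hg => ?_
    have fk : ∀ g, FK A x y g → g ∈ Kl A x y ⊔ (Fl A x y ⊔ Tl A x' y' z) := by
      rintro _ ⟨f, hf, k, hk, rfl⟩
      exact mul_mem (mem_sup_right (mem_sup_left hf)) (mem_sup_left hk)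
    by_cases c : FK A x y g
    · exact fk g c
    · simpa using mul_mem (inv_mem (mem_sup_right (mem_sup_right ht)))
        (fk _ ((hy.pg x y pr.ne).idx t (hT ht) g hg ft c))
  have h1 := H67.card_sup_mul_card_inf' (hN.trans hK)
  rw [e] at h1
  obtain ⟨a, m, hm, ea⟩ := Nat.exists_eq_two_pow_mul_odd (Nat.card_pos (α := Kl A x y)).ne'
  have cp : ∀ i, (2 ^ i).Coprime m := fun i => (Nat.coprime_two_left.2 hm).pow_left i
  rcases a with _ | a
  · rw [ea, pow_zero, one_mul] at h1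
    exact (cp j).dvd_of_dvd_mul_left (h1 ▸ ((pow_dvd_pow 2 j.le_succ).trans hj).mul_right _)
  · have h2 := mul_dvd_mul hj (c1 x y x' y' z u pr a (c2 x y x' y' z u pr a ⟨m, ea⟩))
    rw [h1, ea, show 2 ^ (j + 1) * 2 ^ a = 2 ^ (a + 1) * 2 ^ j by ring, mul_assoc] at h2
    exact (cp j).dvd_of_dvd_mul_left (Nat.dvd_of_mul_dvd_mul_left (by positivity) h2)

end Cfsg.Agent.H43.SpC3
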