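import Cfsg.Agent.H97.U4Defs

/-!
U4F-A2: a critical subgroup not contained in `J` contains the second centre.
-/

set_option autoImplicit false
set_option linter.unusedSectionVars false

namespace Cfsg.Agent.H43.U4

open Cfsg.Agent.H97 Cfsg.Agent.H97.U4 Subgroup
open Cfsg.Agent.H97.U5 (Hm Cp zp ch_zp)
open Cfsg.Agent.H96.VB hiding LA LB
open scoped commutatorElement

universe u

variable {K : Type u} [Field K] [Finite K] {T : Hm K} {p : ℕ} [Fact p.Prime] [CharP K p]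

theorem Z_le_zp {P : Subgroup (U T)} (h : Cp p P) : Z T ≤ zp p P := fun _ hz =>
  ⟨h.cent fun x _ => comm_Z hz x, pow_J_eq_one p (Z2_le_J (Z_le_Z2 hz)), fun x _ => comm_Z hz x⟩

theorem cm_one {g k : U T} (hg : g ∈ Z2 T) (hk : k ∈ J T) : ⁅g, k⁆ = 1 :=
  commutatorElement_eq_one_iff_mul_comm.2 (comm_J (Z2_le_J hg) hk)

theorem zp_cm {P : Subgroup (U T)} {z x : U T} (hz : z ∈ zp p P) (hx : x ∈ P) : ⁅z, x⁆ = 1 :=
  commutatorElement_eq_one_iff_mul_comm.2 (hz.2.2 x hx)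

theorem off2 {P : Subgroup (U T)} (h : Cp p P) {z : U T} (hz : z ∈ zp p P)
    (z0 : z.t ≠ 0) (g : U T) (hg : ∀ x ∈ P, ⁅g, x⁆ ∈ P) :
    ∃ c ∈ Z1 T (T.om * z.t), c⁻¹ * g ∈ P := by
  have e0 := T.ep_ne
  have e1 : T.ep = T.om - T.σ T.om := rfl
  have n0 : z.t * T.σ z.t * T.ep ≠ 0 := mul_ne_zero (mul_ne_zero z0 (T.σ_ne_zero z0)) e0
  have om0 : T.om ≠ 0 := fun e => T.om_ne (by rw [e, map_zero])
  have k1 : ∀ k ∈ P, k ∈ Z2 T → T.σ z.t * k.m = z.t * T.σ k.m := fun k hk h2 =>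
    (mem_Z1_of_comm h2 (hz.2.2 k hk).symm).2
  obtain ⟨f, hf⟩ : ∃ f : K → K, ∀ u, f u * T.ep =
      u * T.σ (T.om * z.t) - T.σ u * (T.om * z.t) :=
    ⟨fun u => (u * T.σ (T.om * z.t) - T.σ u * (T.om * z.t)) / T.ep, fun u => div_mul_cancel₀ _ e0⟩
  have f1 : ∀ u, T.σ (f u) = f u := fun u => by
    have := congrArg T.σ (hf u)
    rw [map_mul, T.σ_ep, map_sub, map_mul, map_mul _ (T.σ u), T.inv, T.inv] at this
    refine mul_right_cancel₀ e0 ?_
    linear_combination -this - hf u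
  refine h.off (Z1 T (T.om * z.t)) (fun x => xm T (T.om * z.t * f x.t)) (fun hle => n0 ?_)
    (fun c hc x _ => Z_le_zp h (cm_Z' hc.1))
    (fun c hc d _ x _ => commutatorElement_eq_one_iff_mul_comm.2 (comm_Z (cm_Z' hc.1) d).symm)
    (fun x _ => ⟨xm_Z2 _, ?_⟩) (fun x hx y hy e c hc => ?_) g hg
  · have := k1 _ (hle (show xm T (T.om * z.t) ∈ Z1 T (T.om * z.t) from
      ⟨xm_Z2 _, mul_comm _ _⟩)) (xm_Z2 _)
    rw [xm_m, map_mul] at this
    rw [e1]
    linear_combination this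
  · rw [xm_m, map_mul _ _ (f _), f1]
    ring
  · have h1 := k1 _ e (mul_mem (inv_mem (xm_Z2 _)) (xm_Z2 _))
    simp only [U.mul_m, U.inv_m, xm_m, xm_t, xm_d, map_add, map_neg, map_mul, f1, mul_zero,
      add_zero] at h1
    have h2 : f y.t - f x.t = 0 := by
      refine mul_left_cancel₀ n0 ?_
      rw [e1]
      linear_combination h1
    refine commutatorElement_eq_one_iff_mul_comm.2 (Z1_comm (mul_ne_zero om0 z0) hc ?_)
    rw [mem_Pt, U.mul_t, U.inv_t, map_add, map_neg]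
    linear_combination hf x.t - hf y.t + T.ep * h2

theorem a2 : A2Stmt T p := by
  intro P h _
  by_contra hZ
  by_cases e : zp p P ≤ J T
  · exact hZ fun g hg => h.chain1 ch_zp (fun x _ => Z_le_zp h (cm_Z' hg)) fun x hx => cm_one hg (e hx)
  obtain ⟨z, hz, z0⟩ := SetLike.not_le_iff_exists.1 e
  replace z0 : z.t ≠ 0 := z0
  have z1 := T.σ_ne_zero z0
  have e0 := T.ep_ne
  have e1 : T.ep = T.om - T.σ T.om := rfl
  have hZP : Z T ≤ P := fun x hx => (Z_le_zp h hx).1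
  have k1 : ∀ x ∈ P, z.t * x.d = x.t * z.d := fun x hx => by
    have := cm_m z x
    rw [zp_cm hz hx] at this
    exact sub_eq_zero.1 this.symm
  by_cases e2 : z.d = 0
  · have kQ : P ≤ Q T := fun x hx => by
      have := k1 x hx
      rw [e2, mul_zero] at this
      exact (mul_eq_zero.1 this).resolve_left z0
    have k2 : ∀ g ∈ Q T, ∃ c ∈ Z1 T (T.om * z.t), c⁻¹ * g ∈ P := fun g hg =>
      off2 h hz z0 g fun x hx => hZP (cm_QQ hg (kQ hx)).1
    have k3 : Z1 T z.t ≤ P := fun g hg => by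
      obtain ⟨c, hc, hy⟩ := k2 g (Z2_le_Q hg.1)
      have h1 : c⁻¹ * g ∈ Z1 T z.t :=
        mem_Z1_of_comm (mul_mem (inv_mem hc.1) hg.1) (hz.2.2 _ hy).symm
      have h2 : c ∈ Z1 T z.t := by
        have := mul_mem hg (inv_mem h1)
        rwa [mul_inv_rev, inv_inv, mul_inv_cancel_left] at this
      have h3 : c.m = 0 := by
        have h4 := hc.2
        rw [map_mul] at h4
        refine mul_left_cancel₀ (mul_ne_zero z1 e0) ?_
        rw [e1]
        linear_combination T.om * h2.2 - h4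
      have := mul_mem (hZP (show c ∈ Z T from ⟨hc.1.1, h3, hc.1.2⟩)) hy
      rwa [mul_inv_cancel_left] at this
    obtain ⟨c, hc, hk⟩ := k2 (xt T (T.om * z.t)) rfl
    have hkt : (c⁻¹ * xt T (T.om * z.t)).t = T.om * z.t := by simp [hc.1.1]
    have k4 : Z T ≤ ⁅P, P⁆ := fun y hy => by
      obtain ⟨f, hf⟩ : ∃ f : K, f * (z.t * T.σ z.t * T.ep) = -y.a :=
        ⟨-y.a / (z.t * T.σ z.t * T.ep), div_mul_cancel₀ _ (mul_ne_zero (mul_ne_zero z0 z1) e0)⟩
      have f1 : T.σ f = f := by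
        have := congrArg T.σ hf
        rw [map_mul, map_mul, map_mul, T.σ_ep, T.inv, map_neg, U.σ_a] at this
        refine mul_right_cancel₀ (mul_ne_zero (mul_ne_zero z0 z1) e0) ?_
        linear_combination -this - hf
      have h1 : xm T (f * z.t) ∈ Z1 T z.t := ⟨xm_Z2 _, by rw [xm_m, map_mul, f1]; ring⟩
      have h2 : y = ⁅c⁻¹ * xt T (T.om * z.t), xm T (f * z.t)⁆ := by
        refine eq_of_Z hy (cm_Z (xm_Z2 _)) ?_
        rw [cm_a2 (xm_Z2 _), hkt, xm_m, map_mul, map_mul, f1]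
        rw [e1] at hf
        linear_combination hf
      exact h2 ▸ commutator_mem_commutator hk (k3 h1)
    exact hZ fun g hg => h.chain1 (Ch.self.commutator Ch.self) (fun x _ => k4 (cm_Z' hg))
      fun x hx => cm_one hg (Z2_le_J ((commutator_le.2 fun a _ b _ => cm_Z2 a b) hx))
  · have k2 : P ≤ Pt T z.t := fun x hx => by
      have h1 := congrArg T.σ (k1 x hx)
      rw [map_mul, map_mul, U.σ_d, U.σ_d] at h1
      refine mul_right_cancel₀ e2 ?_
      linear_combination -T.σ z.t * k1 x hx - z.t * h1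
    have k3 : Z1 T z.t ≤ P := fun k hk => h.cent fun x hx => Z1_comm z0 hk (k2 hx)
    obtain ⟨c, hc, hy⟩ := off2 h hz z0 (xt T (z.t / z.d)) fun x hx => by
      refine k3 ⟨cm_Z2 _ _, ?_⟩
      have h1 : ⁅xt T (z.t / z.d), x⁆.m = x.t := by
        rw [cm_m, xt_t, xt_d, mul_zero, sub_zero, div_mul_eq_mul_div, k1 x hx,
          mul_div_cancel_right₀ _ e2]
      rw [h1]
      exact k2 hx
    have h1 := k1 _ hy
    simp [hc.1.1, hc.1.2, e2] at h1
    exact z0 h1.symm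

end Cfsg.Agent.H43.U4
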