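import Cfsg.Agent.H42.VpDefs

/-! Project VP, pieces M and F2 (insurance copies). -/

set_option autoImplicit false

namespace Cfsg.Agent.H43.VpMF

open Subgroup Cfsg Cfsg.Agent.H42.Vp
open scoped Pointwise

universe u

theorem eq_one {G : Type u} [Group G] [Finite G] {p : ℕ} {K : Subgroup G}
    (hK : (Nat.card K).Coprime p) {a : G} (ha : a ∈ K) {m : ℕ} (hm : a ^ p ^ m = 1) : a = 1 :=
  orderOf_eq_one_iff.mp (Nat.eq_one_of_dvd_coprimes (hK.pow_right m)
    (K.orderOf_dvd_natCard ha) (orderOf_dvd_of_pow_eq_one hm))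

theorem eq_one' {G : Type u} [Group G] [Finite G] {p : ℕ} {K P : Subgroup G}
    (hK : (Nat.card K).Coprime p) (hP : IsPGroup p P) {a : G} (ha : a ∈ K) (hb : a ∈ P) : a = 1 := by
  obtain ⟨m, hm⟩ := hP ⟨a, hb⟩
  exact eq_one hK ha (m := m) (congrArg (fun t : P => (t : G)) hm)

theorem fac {G : Type u} [Group G] [Finite G] {p : ℕ} [Fact p.Prime] (K : Subgroup G) [K.Normal]
    (hq : IsPGroup p (G ⧸ K)) (P : Sylow p G) (g : G) :
    ∃ k ∈ K, ∃ v ∈ (P : Subgroup G), g = k * v := by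
  have h := (P.mapSurjective (QuotientGroup.mk'_surjective K)).is_maximal' (hq.to_subgroup ⊤) le_top
  have h1 : QuotientGroup.mk' K g ∈ (P : Subgroup G).map (QuotientGroup.mk' K) := by
    have : (⊤ : Subgroup (G ⧸ K)) = (P : Subgroup G).map (QuotientGroup.mk' K) := h
    rw [← this]; exact mem_top _
  obtain ⟨v, hv, e⟩ := h1
  refine ⟨g * v⁻¹, ?_, v, hv, by group⟩
  apply (QuotientGroup.eq_one_iff _).mp
  change QuotientGroup.mk' K (g * v⁻¹) = 1
  rw [map_mul, map_inv, e, mul_inv_cancel]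

theorem syl {G : Type u} [Group G] [Finite G] {p : ℕ} [Fact p.Prime] {x : G} {m : ℕ}
    (hm : x ^ p ^ m = 1) : ∃ P : Sylow p G, x ∈ (P : Subgroup G) := by
  have h : IsPGroup p (zpowers x) := by
    rintro ⟨_, n, rfl⟩
    refine ⟨m, Subtype.ext ?_⟩
    change (x ^ n) ^ p ^ m = 1
    rw [← zpow_natCast, ← zpow_mul, mul_comm, zpow_mul, zpow_natCast, hm, one_zpow]
  obtain ⟨P, hP⟩ := h.exists_le_sylow
  exact ⟨P, hP (mem_zpowers x)⟩

theorem m (z : ZStmt.{u}) (i1 : I1Stmt.{u}) (i2 : I2Stmt.{u}) : MStmt.{u} := by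
  intro G _ _ p hp K _ hK ⟨e, he⟩ hv x ⟨m, hm⟩ k hk hk1 hc
  haveI : Fact p.Prime := ⟨hp⟩
  have hq : IsPGroup p (G ⧸ K) := IsPGroup.of_card he
  have hnv : ¬ Van (x * k) := by
    intro h
    obtain ⟨j, hj⟩ := hv _ h
    have h1 : (x * k) ^ p ^ (m + j) = 1 := by
      rw [pow_add, mul_comm (p ^ m), pow_mul, ← hj, pow_orderOf_eq_one, one_pow]
    rw [hc.mul_pow, pow_add, pow_mul, hm, one_pow, one_mul, ← pow_add] at h1
    exact hk1 (eq_one hK hk h1)
  have hxk : QuotientGroup.mk' K (x * k) = QuotientGroup.mk' K x := by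
    rw [map_mul, show QuotientGroup.mk' K k = 1 from (QuotientGroup.eq_one_iff _).mpr hk, mul_one]
  have hcen : QuotientGroup.mk' K x ∈ center (G ⧸ K) := by
    by_contra h
    rw [← hxk] at h
    exact hnv (H22.VanP.Van.comp _ (QuotientGroup.mk'_surjective K) (z _ p hp hq _ h))
  have hin : ∀ θ : K → ℂ, IsIrrCharacter K θ → x ∈ H14.inertia K θ := by
    intro θ hθ
    by_contra h
    refine hnv (H22.VanP.van_of_inertia K hθ fun g hg => h ?_)
    have h1 : x⁻¹ * (g * (x * k) * g⁻¹) ∈ K := by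
      apply (QuotientGroup.eq_one_iff _).mp
      change QuotientGroup.mk' K _ = 1
      rw [map_mul, map_mul, map_mul, hxk, mem_center_iff.mp hcen, map_inv, map_inv]
      group
    have h2 := H14.le_inertia K (H11.isClassFunction_of_irr hθ) h1
    have h3 := mul_mem hg (inv_mem h2)
    have h4 : g * (x * k) * g⁻¹ * (x⁻¹ * (g * (x * k) * g⁻¹))⁻¹ = x := by group
    rwa [h4] at h3
  have hxc := i2 G p hp K x hK ⟨m, hm⟩ (i1 G K x hin)
  obtain ⟨P, hP⟩ := syl hm
  rw [mem_center_iff]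
  intro g
  obtain ⟨c, hcK, v, hvP, rfl⟩ := fac K hq P g
  have h1 : v * x * v⁻¹ * x⁻¹ = 1 := by
    refine eq_one' hK P.isPGroup' ?_ (mul_mem (mul_mem (mul_mem hvP hP) (inv_mem hvP)) (inv_mem hP))
    apply (QuotientGroup.eq_one_iff _).mp
    change QuotientGroup.mk' K _ = 1
    rw [map_mul, map_mul, map_mul, mem_center_iff.mp hcen, map_inv, map_inv]
    group
  have h2 : v * x = x * v := by
    calc v * x = v * x * v⁻¹ * x⁻¹ * (x * v) := by group
      _ = x * v := by rw [h1, one_mul]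
  rw [mul_assoc, h2, ← mul_assoc, hxc c hcK, mul_assoc]

theorem f2 : F2Stmt.{u} := by
  intro G _ _ p hp K _ hK ⟨e, he⟩ hne hloc ⟨x, ⟨m, hm⟩, hx⟩ hZ
  haveI : Fact p.Prime := ⟨hp⟩
  have hq : IsPGroup p (G ⧸ K) := IsPGroup.of_card he
  obtain ⟨P, hP⟩ := syl hm
  have hZP : center G ≤ P := by
    have h1 : IsPGroup p ((P : Subgroup G) ⊔ center G : Subgroup G) :=
      P.isPGroup'.to_sup_of_normal_right hZ
    rw [← P.is_maximal' h1 le_sup_left]; exact le_sup_right
  set π := QuotientGroup.mk' (center G) with hπ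
  have hmem : ∀ a : G, π a ∈ (P : Subgroup G).map π → a ∈ (P : Subgroup G) := by
    rintro a ⟨b, hb, e⟩
    have h1 : b⁻¹ * a ∈ center G := QuotientGroup.eq.mp e
    have h2 := mul_mem hb (hZP h1)
    rwa [mul_inv_cancel_left] at h2
  refine ⟨(P : Subgroup G).map π, ⟨?_, ?_, ?_⟩, P.isPGroup'.map π⟩
  · intro h
    have h1 : π x ∈ (P : Subgroup G).map π := mem_map_of_mem π hP
    rw [h, mem_bot] at h1
    exact hx ((QuotientGroup.eq_one_iff _).mp h1)
  · intro h
    apply hne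
    rw [eq_bot_iff]
    intro k hk
    exact mem_bot.mpr (eq_one' hK P.isPGroup' hk (hmem k (h ▸ mem_top _)))
  · intro gb hgb
    obtain ⟨g, rfl⟩ := QuotientGroup.mk'_surjective (center G) gb
    obtain ⟨k, hk, v, hv, rfl⟩ := fac K hq P g
    have hk1 : k ≠ 1 := by
      rintro rfl
      rw [one_mul] at hgb
      exact hgb (mem_map_of_mem π hv)
    rw [eq_bot_iff]
    rintro _ ⟨⟨a, ha, rfl⟩, h2⟩
    have h3 := Subgroup.mem_pointwise_smul_iff_inv_smul_mem.mp h2
    have h4 : (k * v)⁻¹ * a * (k * v) ∈ (P : Subgroup G) := by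
      apply hmem
      simpa [hπ, MulAut.smul_def, mul_assoc] using h3
    have h5 : k⁻¹ * a * k ∈ (P : Subgroup G) := by
      have := mul_mem (mul_mem hv h4) (inv_mem hv)
      have e1 : v * ((k * v)⁻¹ * a * (k * v)) * v⁻¹ = k⁻¹ * a * k := by group
      rwa [e1] at this
    have h6 : k⁻¹ * (a * k * a⁻¹) = 1 := by
      refine eq_one' hK P.isPGroup' (mul_mem (inv_mem hk) (Subgroup.Normal.conj_mem ‹_› k hk a)) ?_
      have := mul_mem h5 (inv_mem ha)
      have e1 : k⁻¹ * a * k * a⁻¹ = k⁻¹ * (a * k * a⁻¹) := by group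
      rwa [e1] at this
    have h7 : Commute a k := by
      change a * k = k * a
      calc a * k = k * (k⁻¹ * (a * k * a⁻¹)) * a := by group
        _ = k * a := by rw [h6, mul_one]
    obtain ⟨j, hj⟩ := P.isPGroup' ⟨a, ha⟩
    exact mem_bot.mpr ((QuotientGroup.eq_one_iff _).mpr
      (hloc a ⟨j, congrArg (fun t : (P : Subgroup G) => (t : G)) hj⟩ k hk hk1 h7))

end Cfsg.Agent.H43.VpMF
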